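import Cfsg.Agent.H2.Nd0

/-! Piece Q of S4781: the configuration `H2.Nd.Hs` passes to quotients by normal subgroups of `N' ⊓ M`. -/

set_option autoImplicit false

namespace H23.NdQ

open Subgroup Cfsg H18 H5 H6 H8
open scoped commutatorElement

universe u

theorem mem_map_mk {G : Type*} [Group G] {Y A : Subgroup G} [Y.Normal] (h : Y ≤ A) (x : G) :
    (x : G ⧸ Y) ∈ A.map (QuotientGroup.mk' Y) ↔ x ∈ A := by
  constructor
  · intro hx
    have : x ∈ (A.map (QuotientGroup.mk' Y)).comap (QuotientGroup.mk' Y) := hx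
    rwa [Subgroup.comap_map_eq, QuotientGroup.ker_mk', sup_of_le_left h] at this
  · intro hx
    exact ⟨x, hx, rfl⟩

theorem pi_map {G Q : Type*} [Group G] [Group Q] (f : G →* Q) {π : Set ℕ} {A : Subgroup G} (h : PiGrp π A) :
    PiGrp π (A.map f) := h.of_dvd (Subgroup.card_map_dvd A f)

theorem pQ : H2.Nd.Quot.{u} := by
  intro G _ _ N M P Y _ c p r h hY
  have hsur := QuotientGroup.mk'_surjective Y
  have hYN' : Y ≤ ⁅N, N⁆ := hY.trans inf_le_left
  have hYM : Y ≤ M := hY.trans inf_le_right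
  have hN'N : ⁅N, N⁆ ≤ N := by
    have := h.nN
    exact Subgroup.commutator_le_left N N
  have hYN : Y ≤ N := hYN'.trans hN'N
  have hcm : ⁅N.map (QuotientGroup.mk' Y), N.map (QuotientGroup.mk' Y)⁆ = ⁅N, N⁆.map (QuotientGroup.mk' Y) :=
    (Subgroup.map_commutator N N _).symm
  have hix : (N.map (QuotientGroup.mk' Y)).index = N.index :=
    Subgroup.index_map_eq N hsur (by rwa [QuotientGroup.ker_mk'])
  have hcc : ∀ x : G, ⁅(x : G ⧸ Y), (c : G ⧸ Y)⁆ = ((⁅x, c⁆ : G) : G ⧸ Y) := fun x =>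
    (map_commutatorElement (QuotientGroup.mk' Y) x c).symm
  refine ⟨⟨h.nN.map _ hsur, h.nM.map _ hsur, ?_, h.hp, h.hr, h.ne, ?_, hix ▸ h.rN, pi_map _ h.piM, pi_map _ h.piP,
    ?_, ?_, ?_, ?_, ?_, ?_, ?_⟩, ?_⟩
  · have := h.solv
    exact solvable_of_surjective ((QuotientGroup.mk' Y).subgroupMap_surjective N)
  · have := pi_map (QuotientGroup.mk' Y) h.rc
    rwa [MonoidHom.map_zpowers] at this
  · rw [← Subgroup.map_sup, h.sup]
  · exact Subgroup.le_normalizer_map (QuotientGroup.mk' Y) ⟨c, h.cP, rfl⟩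
  · obtain ⟨x, hx, hn⟩ := h.x0
    refine ⟨x, ⟨x, hx, rfl⟩, ?_⟩
    rw [hcm, hcc, mem_map_mk hYN']
    exact hn
  · rintro _ ⟨x, hx, rfl⟩ hn y hy
    rw [hcm] at hn hy
    obtain ⟨y, hy, rfl⟩ := hy
    rw [QuotientGroup.mk'_apply, hcc, mem_map_mk hYN'] at hn
    obtain ⟨n, hnN, e⟩ := h.cam x hx hn y hy
    refine ⟨_, ⟨n, hnN, rfl⟩, ?_⟩
    rw [← map_inv, ← map_mul, ← map_mul, ← map_mul, e]
  · intro g y hy
    rw [hcm] at hy
    obtain ⟨y, hy, rfl⟩ := hy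
    obtain ⟨g, rfl⟩ := hsur g
    obtain ⟨n, hnN, e⟩ := h.cl g y hy
    refine ⟨_, ⟨n, hnN, rfl⟩, ?_⟩
    rw [← map_inv, ← map_mul, ← map_mul, ← map_inv, ← map_mul, ← map_mul, e]
  · intro χ hχ hn
    rw [hix, ← charDegree_inflate]
    refine h.cop _ hχ.inflate fun hk => hn ?_
    rw [hcm]
    rintro _ ⟨y, hy, rfl⟩ x
    obtain ⟨x, rfl⟩ := QuotientGroup.mk_surjective x
    exact hk hy x
  · intro χ ψ hχ hψ h1 hd
    rw [← charDegree_inflate] at h1
    rw [← charDegree_inflate χ, ← charDegree_inflate ψ] at hd ⊢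
    exact h.nd _ _ hχ.inflate hψ.inflate h1 hd
  · rw [hcm]
    ext x
    obtain ⟨x, rfl⟩ := QuotientGroup.mk_surjective x
    rw [Subgroup.mem_inf, mem_map_mk hYN', mem_map_mk hYM, mem_map_mk hY, Subgroup.mem_inf]

end H23.NdQ
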