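import Cfsg.Agent.H11.Spin
import Cfsg.Agent.H23.Spec
import Cfsg.Agent.H23.Wr4
import Cfsg.Agent.H9.Dihedral
import Cfsg.Agent.H2.Gaschutz

/-! The double cover of the alternating group inside the Clifford algebra over `ZMod 3`: `Dbl.H`, `Dbl.π`,
`Dbl.nonsplit`; a splitting criterion `Dbl.split`. -/

set_option autoImplicit false
set_option linter.unusedSectionVars false

namespace H23.Dbl

open Subgroup Equiv Equiv.Perm CliffordAlgebra

variable {Ω : Type} [Fintype Ω] [DecidableEq Ω] {i j k l : Ω}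

variable (Ω) in
noncomputable def Q : QuadraticForm (ZMod 3) (Ω → ZMod 3) := QuadraticMap.weightedSumSquares (ZMod 3) (1 : Ω → ZMod 3)

variable (Ω) in
abbrev C := CliffordAlgebra (Q Ω)

noncomputable def e (i : Ω) : C Ω := ι (Q Ω) (Pi.single i 1)

theorem polar_Q (v w : Ω → ZMod 3) : QuadraticMap.polar (Q Ω) v w = 2 * ∑ i, v i * w i := by
  simp only [QuadraticMap.polar, Q, QuadraticMap.weightedSumSquares_apply, Pi.one_apply, one_smul, Pi.add_apply,
    ← Finset.sum_sub_distrib, Finset.mul_sum]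
  exact Finset.sum_congr rfl fun _ _ => by ring

theorem e_sq (i : Ω) : e i * e i = 1 := by
  rw [e, ι_sq_scalar, show Q Ω (Pi.single i 1) = 1 by simp [Q, Pi.single_apply], map_one]

theorem e_anti (h : i ≠ j) : e i * e j = -(e j * e i) := by
  rw [eq_neg_iff_add_eq_zero, e, e, ι_mul_ι_add_swap, polar_Q]
  simp [Pi.single_apply, h.symm]

theorem two_eq : (1 : C Ω) + 1 = -1 := by
  rw [← map_one (algebraMap (ZMod 3) (C Ω)), ← map_add, ← map_neg]; rfl

noncomputable def u (i j : Ω) : C Ω := e i - e j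

theorem u_sq (h : i ≠ j) : u i j * u i j = -1 := by
  rw [u, sub_mul, mul_sub, mul_sub, e_sq, e_sq, e_anti h, ← two_eq]; abel

theorem u_e (h : i ≠ j) (k : Ω) : u i j * e k = -(e (swap i j k) * u i j) := by
  rw [swap_apply_def, u, sub_mul, mul_sub]
  split_ifs with h1 h2
  · rw [h1, e_sq, e_sq]; abel
  · rw [h2, e_sq, e_sq]; abel
  · rw [e_anti h1, e_anti h2]; abel

theorem u_u (h : i ≠ j) (h1 : k ≠ i) (h2 : k ≠ j) (h3 : l ≠ i) (h4 : l ≠ j) : u i j * u k l = -(u k l * u i j) := by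
  conv_lhs => rw [u.eq_1 k, mul_sub, u_e h, u_e h, swap_apply_of_ne_of_ne h1 h2, swap_apply_of_ne_of_ne h3 h4]
  rw [u.eq_1 k, sub_mul]; abel

variable (Ω) in
/-- the double cover -/
def H : Subgroup ((C Ω)ˣ × alternatingGroup Ω) where
  carrier := {p | (∀ i, p.1.1 * e i = e (p.2.1 i) * p.1.1) ∧ involute p.1.1 = p.1.1}
  one_mem' := by simp
  mul_mem' := fun {a b} ha hb => ⟨fun i => by
    simp only [Prod.fst_mul, Units.val_mul, mul_assoc, hb.1]; rw [← mul_assoc, ha.1, mul_assoc]; rfl, by simp [ha.2, hb.2]⟩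
  inv_mem' := fun {a} ha => ⟨fun i => by
    rw [Prod.fst_inv, Units.inv_mul_eq_iff_eq_mul, ← mul_assoc, ha.1]; simp, by
    rw [Prod.fst_inv, ← Units.mul_right_inj a.1, Units.mul_inv]
    conv_lhs => rw [← ha.2, ← map_mul, Units.mul_inv, map_one]⟩

variable (Ω) in
noncomputable def π : H Ω →* alternatingGroup Ω := (MonoidHom.snd _ _).comp (H Ω).subtype

/-- the lift of a product of two transpositions -/
noncomputable def lf (h : i ≠ j) (h' : k ≠ l) : H Ω :=
  ⟨(⟨u i j, -u i j, by simp [u_sq h], by simp [u_sq h]⟩ * ⟨u k l, -u k l, by simp [u_sq h'], by simp [u_sq h']⟩,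
    ⟨swap i j * swap k l, Wr.swap_swap_mem h h'⟩), fun m => by
      simp only [Units.val_mul, mul_assoc, u_e h', mul_neg]
      rw [← mul_assoc, u_e h]; simp [mul_assoc], by simp [u, e, sub_mul, mul_sub]⟩

theorem lf_val (h : i ≠ j) (h' : k ≠ l) : (lf h h').1.1.1 = u i j * u k l := rfl

theorem π_surj : Function.Surjective (π Ω) := fun g => by
  have : alternatingGroup Ω ≤ (π Ω).range.map (alternatingGroup Ω).subtype := by
    refine closure_three_cycles_eq_alternating.ge.trans ((closure_le _).2 fun s hs => ?_)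
    obtain ⟨a, ha, -⟩ := hs.isCycle
    exact ⟨_, ⟨lf (i := a) (k := s a) (j := s a) (l := s (s a)) ha.symm (s.injective.ne ha).symm, rfl⟩,
      ((IsThreeCycle.eq_swap_mul_swap_iff_mem_support hs).2 (mem_support.2 ha)).symm⟩
  obtain ⟨_, ⟨x, rfl⟩, e⟩ := this g.2
  exact ⟨x, Subtype.ext e⟩

variable (Ω) in
noncomputable def z : H Ω := ⟨(-1, 1), by simp [H]⟩

theorem z_ne : z Ω ≠ 1 := fun h => by
  haveI : Invertible (2 : ZMod 3) := ⟨2, rfl, rfl⟩
  have h1 : (-1 : C Ω) = 1 := congrArg (fun x : H Ω => x.1.1.1) h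
  have h2 := two_eq (Ω := Ω)
  rw [h1] at h2
  simp at h2

theorem ker_cases {x : H Ω} (h : π Ω x = 1) : x = 1 ∨ x = z Ω := by
  have h1 : x.1.2 = 1 := h
  obtain ⟨c, hc⟩ := H11.clifford_scalar (Q Ω) (x := x.1.1.1) fun d => by
    have : d = ∑ i, (2 * d (Pi.single i 1)) • (Q Ω).polarBilin (Pi.single i 1) := (Pi.basisFun _ _).ext fun j => by
      simp only [Pi.basisFun_apply, LinearMap.sum_apply, LinearMap.smul_apply, QuadraticMap.polarBilin_apply_apply, polar_Q]
      simp only [Pi.single_apply, ite_mul, one_mul, zero_mul, Finset.sum_ite_eq', Finset.mem_univ, if_true, smul_eq_mul,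
        mul_ite, mul_one, mul_zero, Finset.sum_ite_eq]
      rw [mul_right_comm]; exact (one_mul _).symm
    rw [this, map_sum, LinearMap.sum_apply]
    refine Finset.sum_eq_zero fun i _ => ?_
    rw [map_smul, LinearMap.smul_apply, H11.clifford_contract, x.2.2, ← e, x.2.1, h1]
    simp
  have h2 : ∀ c : ZMod 3, c = 0 ∨ c = 1 ∨ c = -1 := by decide
  rcases h2 c with rfl | rfl | rfl
  · refine Or.inl (Subtype.ext (Prod.ext (Units.ext ?_) h1))
    have := x.1.1.mul_inv
    rw [hc, map_zero, zero_mul] at this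
    rw [hc, map_zero, this]; rfl
  · exact Or.inl (Subtype.ext (Prod.ext (Units.ext (by simpa using hc)) h1))
  · exact Or.inr (Subtype.ext (Prod.ext (Units.ext (by simpa [z] using hc)) h1))

theorem z_mem : z Ω ∈ center (H Ω) := mem_center_iff.2 fun g => Subtype.ext (by simp [z, Prod.ext_iff])

theorem ker_eq : ((π Ω).ker : Set (H Ω)) = {1, z Ω} :=
  Set.ext fun _ => ⟨ker_cases, by rintro (rfl | rfl); exacts [one_mem _, rfl]⟩

instance : Finite (H Ω) := (π Ω).finite_iff_finite_ker_range.2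
  ⟨show Finite ((π Ω).ker : Set (H Ω)) by rw [ker_eq]; infer_instance, inferInstance⟩

theorem nonsplit (h4 : 4 ≤ Fintype.card Ω) : Cfsg.IsNonsplitDoubleCover (H Ω) (alternatingGroup Ω) := by
  have a : center (H Ω) = (π Ω).ker := le_antisymm (fun x hx => (alternatingGroup.center_eq_bot (by simpa using h4)).le
    (mem_center_iff.2 fun g => by obtain ⟨g, rfl⟩ := π_surj g; rw [← map_mul, ← map_mul, mem_center_iff.1 hx]))
    fun x hx => by rcases ker_cases hx with rfl | rfl; exacts [one_mem _, z_mem]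
  refine ⟨?_, ⟨(QuotientGroup.quotientMulEquivOfEq a).trans (QuotientGroup.quotientKerEquivOfSurjective _ π_surj)⟩,
    fun L hL => ?_⟩
  · rw [a, ← SetLike.coe_sort_coe, ker_eq, Nat.card_coe_set_eq, Set.ncard_pair z_ne.symm]
  obtain ⟨f⟩ : Nonempty (Fin 4 ↪ Ω) := Function.Embedding.nonempty_of_card_le (by simpa using h4)
  have b : ∀ a b : Fin 4, a ≠ b → f a ≠ f b := fun a b h => f.injective.ne h
  obtain ⟨⟨c, y⟩, d⟩ := hL.2 (lf (b 0 1 (by decide)) (b 2 3 (by decide)))
  have g : lf (b 0 1 (by decide)) (b 2 3 (by decide)) ^ 2 = z Ω := by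
    refine Subtype.ext (Prod.ext (Units.ext ?_) (Subtype.ext ?_))
    · change (u _ _ * u _ _) ^ 2 = -1
      rw [sq, mul_assoc, ← mul_assoc (u (f 2) _), u_u (b 2 3 (by decide)) (b _ _ (by decide)) (b _ _ (by decide))
        (b _ _ (by decide)) (b _ _ (by decide)), neg_mul, mul_assoc, u_sq (b _ _ (by decide))]
      simp [u_sq (b 0 1 (by decide))]
    · change (swap _ _ * swap _ _) ^ 2 = 1
      rw [(disjoint_swap_swap (by simp [f.injective.eq_iff])).commute.mul_pow]; simp [sq]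
  have k : (c : H Ω) ^ 2 = 1 := by
    rcases ker_cases (a.le c.2) with m | m <;> rw [m]
    · simp
    · exact Subtype.ext (by simp [z])
  rw [← d, (Commute.mul_pow (mem_center_iff.1 c.2 _).symm), k, one_mul] at g
  exact z_ne (Subgroup.disjoint_def.1 hL.disjoint z_mem (g ▸ pow_mem y.2 2))

theorem split {G X : Type*} [Group G] [Finite G] [Group X] (h2 : Nat.card (center G) = 2) (φ : G ⧸ center G ≃* X) {x : G}
    (hx : x ∉ center G) (h : x * x = 1) (hc : ∀ s t : X, orderOf s = 2 → orderOf t = 2 → IsConj s t) {a b : X} {k : ℕ}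
    (ha : orderOf a = 2) (hb : orderOf b = 2) (hk : orderOf (a * b) = 2 * k) (h0 : k ≠ 0) (hab : a ∉ zpowers (a * b))
    (ho : ¬ 8 * k ∣ Nat.card X) : ∃ L : Subgroup G, (center G).IsComplement' L := by
  obtain ⟨f, f1, f2⟩ : ∃ f : G →* X, Function.Surjective f ∧ f.ker = center G :=
    ⟨φ.toMonoidHom.comp (QuotientGroup.mk' _), φ.surjective.comp (QuotientGroup.mk'_surjective _), by ext; simp⟩
  haveI : Finite X := Finite.of_surjective f f1
  haveI : Fact (Nat.Prime 2) := ⟨Nat.prime_two⟩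
  have a1 : ∀ y, orderOf (f y) = 2 → y * y = 1 := fun y hy => by
    obtain ⟨g, e⟩ := isConj_iff.1 (hc (f x) _ (orderOf_eq_prime (by rw [← map_pow, sq, h, map_one]) (fun d => hx (f2.le d))) hy)
    obtain ⟨g, rfl⟩ := f1 g
    have b1 : (g * x * g⁻¹)⁻¹ * y ∈ center G := f2.le (by simp [MonoidHom.mem_ker, ← e, mul_assoc])
    have b2 : ((g * x * g⁻¹)⁻¹ * y) ^ 2 = 1 := by
      simpa [h2] using congrArg Subtype.val (pow_card_eq_one' (x := (⟨_, b1⟩ : center G)))
    rw [← sq, ← mul_inv_cancel_left (g * x * g⁻¹) y, Commute.mul_pow (mem_center_iff.1 b1 _), b2, conj_pow, sq, h]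
    simp
  obtain ⟨a, rfl⟩ := f1 a
  obtain ⟨b, rfl⟩ := f1 b
  have a2 : (a * b) ^ (2 * k) = 1 := by
    rw [two_mul, pow_add]
    exact a1 _ (by rw [map_pow, map_mul, orderOf_pow, hk, Nat.gcd_mul_left_left, Nat.mul_div_cancel _ (by omega)])
  refine H2.gaschutz_exists (center G) ((closure {f a, f b}).comap f) (f2 ▸ ker_le_comap _ _) ?_ (closure {a, b}) ?_ ?_
  · rw [h2, index_comap_of_surjective _ f1, Nat.prime_two.coprime_iff_not_dvd]
    intro e
    refine ho ?_
    rw [← (closure {f a, f b}).card_mul_index, H9.closure_pair_eq, H9.card_closure_dihedral (by rw [← map_mul, a1 a ha, map_one])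
      (by rw [mul_inv_rev, inv_eq_of_mul_eq_one_right (a := f b) (by rw [← map_mul, a1 b hb, map_one]), ← mul_assoc, ← map_mul,
        a1 a ha, map_one, one_mul]) hab, hk, ← H9.closure_pair_eq, show 8 * k = 2 * (2 * k) * 2 by ring]
    exact mul_dvd_mul_left _ e
  · refine eq_bot_iff.2 fun d ⟨d1, d2⟩ => ?_
    have d3 : f d = 1 := f2.ge d2
    obtain ⟨i, rfl | rfl⟩ := (H9.mem_closure_pair_iff (a1 a ha) (a1 b hb)).1 d1
    · rw [map_zpow, map_mul, ← orderOf_dvd_iff_zpow_eq_one, hk] at d3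
      obtain ⟨m, rfl⟩ := d3
      rw [zpow_mul, zpow_natCast, a2, one_zpow]; exact one_mem _
    · exact absurd ⟨-i, by simpa [eq_comm, eq_inv_iff_mul_eq_one] using d3⟩ hab
  · rw [← Set.image_pair, ← MonoidHom.map_closure, comap_map_eq, f2, sup_comm]

end H23.Dbl
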