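import Cfsg.Agent.H23.FRank2
import Cfsg.Agent.H10.SL
import Cfsg.Agent.H24.LinG
import Cfsg.Agent.H11.Unit

/-! Involutions of `SL₃` and `SU₃` in odd characteristic are `v φ - 1`; they form one class and the 2-rank is two
(`prank_of_kpair`, `prank_SL3`, `isConj_SL3`, `isConj_SU3`), `simple_sub_SL3`. -/

set_option autoImplicit false

namespace H23.FS

open Subgroup Cfsg Matrix
open scoped MatrixGroups

theorem prank_of_kpair {G : Type*} [Group G] [Finite G]
    (h : ∀ x y z : G, H10.KPair x y → z * z = 1 → z * x = x * z → z * y = y * z → z ∈ Subgroup.closure {x, y}) :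
    PRankLE 2 2 G := by
  intro A hA h2
  have hc : ∀ a ∈ A, ∀ b ∈ A, a * b = b * a := fun a ha b hb =>
    congrArg Subtype.val (hA.is_comm.comm (⟨a, ha⟩ : A) ⟨b, hb⟩)
  by_cases h1 : ∃ x ∈ A, ∃ y ∈ A, x ≠ 1 ∧ y ≠ 1 ∧ x ≠ y
  · obtain ⟨x, hx, y, hy, x1, y1, xy⟩ := h1
    have hK : H10.KPair x y := ⟨by rw [← sq, h2 x hx], by rw [← sq, h2 y hy], x1, y1, xy, hc _ hy _ hx⟩
    have : A ≤ Subgroup.closure {x, y} := fun z hz =>
      h x y z hK (by rw [← sq, h2 z hz]) (hc _ hz _ hx) (hc _ hz _ hy)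
    exact (card_le_of_le this).trans hK.card_closure.le
  · push Not at h1
    by_cases h3 : ∃ x ∈ A, x ≠ 1
    · obtain ⟨x, hx, x1⟩ := h3
      have : A ≤ zpowers x := fun z hz => by
        by_cases e : z = 1
        · rw [e]; exact one_mem _
        · rw [← h1 x hx z hz x1 e]; exact mem_zpowers x
      refine (card_le_of_le this).trans ?_
      rw [Nat.card_zpowers, orderOf_eq_prime (h2 x hx) x1]; norm_num
    · push Not at h3
      rw [(eq_bot_iff_forall A).2 h3]; simp

variable {F : Type*} [Field F]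

theorem minors_of_adj {A : Matrix (Fin 3) (Fin 3) F} (h : A.adjugate = 0) (i j k l : Fin 3) :
    A k l * A i j = A k j * A i l := by
  rw [adjugate_fin_three] at h
  have h00 := congrFun (congrFun h 0) 0
  have h01 := congrFun (congrFun h 0) 1
  have h02 := congrFun (congrFun h 0) 2
  have h10 := congrFun (congrFun h 1) 0
  have h11 := congrFun (congrFun h 1) 1
  have h12 := congrFun (congrFun h 1) 2
  have h20 := congrFun (congrFun h 2) 0
  have h21 := congrFun (congrFun h 2) 1
  have h22 := congrFun (congrFun h 2) 2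
  simp at h00 h01 h02 h10 h11 h12 h20 h21 h22
  fin_cases i <;> fin_cases j <;> fin_cases k <;> fin_cases l <;> simp only [Fin.zero_eta, Fin.mk_one, Fin.reduceFinMk] <;>
    first | ring1 | linear_combination h00 | linear_combination -h00 | linear_combination h01 | linear_combination -h01 |
      linear_combination h02 | linear_combination -h02 | linear_combination h10 | linear_combination -h10 |
      linear_combination h11 | linear_combination -h11 | linear_combination h12 | linear_combination -h12 |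
      linear_combination h20 | linear_combination -h20 | linear_combination h21 | linear_combination -h21 |
      linear_combination h22 | linear_combination -h22

theorem inv3 (h2 : (2 : F) ≠ 0) {t : Matrix (Fin 3) (Fin 3) F} (ht : t * t = 1) (hd : t.det = 1) (h1 : t ≠ 1) :
    ∃ v φ : Fin 3 → F, t = vecMulVec v φ - 1 ∧ φ ⬝ᵥ v = 2 := by
  have ha : t.adjugate = t := by
    calc t.adjugate = t.adjugate * t * t := by rw [mul_assoc, ht, mul_one]
      _ = t := by rw [adjugate_mul, hd, one_smul, one_mul]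
  have hCH : t * t * t - t.trace • (t * t) + t.adjugate.trace • t - t.det • (1 : Matrix (Fin 3) (Fin 3) F) = 0 := by
    ext i j
    fin_cases i <;> fin_cases j <;>
      simp [mul_apply, Fin.sum_univ_three, trace_fin_three, adjugate_fin_three, det_fin_three] <;> ring
  have hadj : (t + 1).adjugate = 1 + t.trace • (1 : Matrix (Fin 3) (Fin 3) F) - t + t.adjugate := by
    ext i j
    fin_cases i <;> fin_cases j <;>
      simp [trace_fin_three, adjugate_fin_three] <;> ring
  rw [ha, ht, hd, one_mul] at hCH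
  have hτ : t.trace = -1 := by
    have e : (1 + t.trace) • (t - 1) = 0 := by rw [← hCH]; module
    rcases smul_eq_zero.1 e with e | e
    · linear_combination e
    · exact absurd (sub_eq_zero.1 e) h1
  rw [ha, hτ] at hadj
  have hm := minors_of_adj (A := t + 1) (by rw [hadj]; module)
  have hne : ∃ i j, (t + 1) i j ≠ 0 := by
    by_contra h
    push Not at h
    have e : t = -1 := eq_neg_of_add_eq_zero_left (Matrix.ext h)
    rw [e, trace_neg, trace_one] at hτ
    simp only [Fintype.card_fin, Nat.cast_ofNat] at hτ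
    exact h2 (by linear_combination -hτ)
  obtain ⟨i, j, hij⟩ := hne
  have e : t + 1 = vecMulVec (fun k => (t + 1) k j) (fun l => (t + 1) i l / (t + 1) i j) := by
    ext k l
    rw [vecMulVec_apply, ← mul_div_assoc, eq_div_iff hij, hm]
  refine ⟨_, _, eq_sub_of_add_eq e, ?_⟩
  have := congrArg trace e
  rw [trace_vecMulVec, trace_add, hτ, trace_one] at this
  rw [dotProduct_comm, ← this]; simp only [Fintype.card_fin, Nat.cast_ofNat]; ring

theorem comm3 (h2 : (2 : F) ≠ 0) {s t : Matrix (Fin 3) (Fin 3) F} (hs : s * s = 1) (sd : s.det = 1) (s1 : s ≠ 1)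
    (ht : t * t = 1) (td : t.det = 1) (t1 : t ≠ 1) (hc : s * t = t * s) (hn : s ≠ t) : (s + 1) * (t + 1) = 0 := by
  obtain ⟨v, φ, e, h⟩ := inv3 h2 hs sd s1
  obtain ⟨w, ψ, e', h'⟩ := inv3 h2 ht td t1
  have hc' : (s + 1) * (t + 1) = (t + 1) * (s + 1) := by noncomm_ring [hc]
  subst e e'
  simp only [sub_add_cancel, vecMulVec_mul_vecMulVec] at hc' ⊢
  by_cases h0 : φ ⬝ᵥ w = 0
  · simp [h0]
  exfalso
  apply hn
  have a1 := congrArg (· *ᵥ w) hc'
  have a2 := congrArg (φ ᵥ* ·) hc'
  simp only [vecMulVec_mulVec, vecMul_vecMulVec, smul_dotProduct, h, h', op_smul_eq_smul, smul_eq_mul,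
    smul_smul] at a1 a2
  congr 1
  ext k l
  have b1 := congrFun a1 k
  have b2 := congrFun a2 l
  simp only [Pi.smul_apply, smul_eq_mul, vecMulVec_apply] at b1 b2 ⊢
  apply mul_left_cancel₀ (mul_ne_zero h0 h2)
  linear_combination φ l * b1 - w k * b2

theorem prank_SL3 (h2 : (2 : F) ≠ 0) {G : Type*} [Group G] [Finite G] (ρ : G →* Matrix (Fin 3) (Fin 3) F)
    (hρ : Function.Injective ρ) (hd : ∀ g, (ρ g).det = 1) : PRankLE 2 2 G := by
  refine prank_of_kpair fun x y z hK zz zx zy => ?_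
  rw [hK.mem_closure_iff]
  by_contra hn
  push Not at hn
  obtain ⟨z1, n1, n2, n3⟩ := hn
  have key : ∀ a b : G, a * a = 1 → a ≠ 1 → b * b = 1 → b ≠ 1 → a * b = b * a → a ≠ b →
      (ρ a + 1) * (ρ b + 1) = 0 := fun a b aa a1 bb b1 ab hn =>
    comm3 h2 (by rw [← map_mul, aa, map_one]) (hd a) (fun e => a1 (hρ (by rw [map_one, e])))
      (by rw [← map_mul, bb, map_one]) (hd b) (fun e => b1 (hρ (by rw [map_one, e])))
      (by rw [← map_mul, ab, map_mul]) (fun e => hn (hρ e))
  have e0 := key x y hK.1 hK.3 hK.2 hK.4 hK.6.symm hK.5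
  have e1 := key z x zz z1 hK.1 hK.3 zx n1
  have e2 := key z y zz z1 hK.2 hK.4 zy n2
  have e3 := key z (x * y) zz z1 (by rw [mul_assoc, ← mul_assoc y, hK.6, mul_assoc, hK.2, mul_one, hK.1]) hK.xy1
    (by rw [← mul_assoc, zx, mul_assoc, zy, mul_assoc]) n3
  rw [map_mul] at e3
  have e4 : (2 : F) • (ρ z + 1) = 0 := by
    have := congrArg ((ρ z + 1) * ·) e0
    simp only [mul_zero] at this
    calc (2 : F) • (ρ z + 1) = (ρ z + 1) * (ρ x + 1) + (ρ z + 1) * (ρ y + 1) + (ρ z + 1) * (ρ x * ρ y + 1) -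
        (ρ z + 1) * ((ρ x + 1) * (ρ y + 1)) := by rw [two_smul]; noncomm_ring
      _ = 0 := by rw [e1, e2, e3, this]; simp
  have e5 := eq_neg_of_add_eq_zero_left ((smul_eq_zero.1 e4).resolve_left h2)
  have e6 := hd z
  rw [e5, det_neg, det_one] at e6
  simp only [Fintype.card_fin] at e6
  exact h2 (by linear_combination -e6)

theorem simple_dim3 (h2 : (2 : F) ≠ 0) {G : Type*} [Group G] [Finite G] (ρ : G →* Matrix (Fin 3) (Fin 3) F)
    (hρ : Function.Injective ρ) (hd : ∀ g, (ρ g).det = 1) (hp : commutator G = ⊤)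
    (hz : Odd (Nat.card (center G))) (hc : ∀ x y : G, orderOf x = 2 → orderOf y = 2 → IsConj x y) {a b : G}
    (ha : ρ a = !![1, 0, 0; 0, -1, 0; 0, 0, -1]) (hb : ρ b = !![0, 1, 0; 1, 0, 0; 0, 0, -1])
    (S : Sylow 2 (G ⧸ center G)) : (groupFusionSystem (S : Subgroup (G ⧸ center G))).IsSimple 2 := by
  have hbb : b * b = 1 := hρ (by rw [map_mul, hb, map_one, Matrix.one_fin_three]; simp)
  refine simple_of_rank_two (QuotientGroup.mk' (center G)) (QuotientGroup.mk'_surjective _) (fun x hx => ?_) hp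
    (prank_SL3 h2 ρ hρ hd) hc (a := a) (hρ (by rw [map_mul, ha, map_one, Matrix.one_fin_three]; simp)) hbb ?_ ?_ S
  · have hx' : x ∈ center G := (QuotientGroup.eq_one_iff x).1 hx
    exact ⟨Odd.of_dvd_nat hz (Subgroup.orderOf_dvd_natCard _ hx'), hx'⟩
  · rw [inv_eq_of_mul_eq_one_left hbb]
    apply hρ
    simp only [map_mul, ha, hb]
    simp
  · intro e
    have := congrFun (congrFun (congrArg ρ e) 0) 1
    simp only [map_mul, ha, hb] at this
    simp at this
    exact h2 (by linear_combination this)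

theorem isConj_SL3 (h2 : (2 : F) ≠ 0) (x y : SL(3, F)) (hx : orderOf x = 2) (hy : orderOf y = 2) : IsConj x y := by
  have key : ∀ x : SL(3, F), orderOf x = 2 → IsConj x ⟨!![1, 0, 0; 0, -1, 0; 0, 0, -1], by simp [det_fin_three]⟩ := by
    intro x hx
    have h1 : x * x = 1 := by rw [← sq, ← hx, pow_orderOf_eq_one]
    obtain ⟨v, φ, e, h⟩ := inv3 h2 (t := x.1) (congrArg Subtype.val h1) x.2 (fun e => by
      rw [show x = 1 from Subtype.ext e, orderOf_one] at hx; omega)
    have hv : v ≠ 0 := by rintro rfl; simp at h; exact h2 h.symm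
    obtain ⟨g, hg⟩ := H24.exists_SL_mulVec (ι := Fin 3) (by simp) (v := ![1, 0, 0]) (by simp) hv
    set ψ := φ ᵥ* g.1 with hψ
    have h0 : ψ 0 = 2 := by
      have : ψ ⬝ᵥ ![1, 0, 0] = 2 := by rw [hψ, ← dotProduct_mulVec]; exact (congrArg _ hg).trans h
      simpa [vecHead] using this
    let k : SL(3, F) := ⟨!![1, -ψ 1 / 2, -ψ 2 / 2; 0, 1, 0; 0, 0, 1], by simp [det_fin_three]⟩
    refine (isConj_iff.2 ⟨g * k, mul_inv_eq_of_eq_mul (Subtype.ext ?_)⟩).symm
    change g.1 * k.1 * !![1, 0, 0; 0, -1, 0; 0, 0, -1] = x.1 * (g.1 * k.1)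
    have e1 : x.1 * g.1 = g.1 * (vecMulVec ![1, 0, 0] ψ - 1) := by
      rw [e, sub_mul, mul_sub, vecMulVec_mul, mul_vecMulVec, one_mul, mul_one]
      exact congrArg (fun w => vecMulVec w ψ - g.1) hg.symm
    have e2 : vecMulVec ![1, 0, 0] ψ - 1 = !![1, ψ 1, ψ 2; 0, -1, 0; 0, 0, -1] := by
      ext i j
      fin_cases i <;> fin_cases j <;> simp only [Matrix.sub_apply, vecMulVec_apply] <;> simp [h0]
      norm_num
    rw [← mul_assoc, e1, e2, mul_assoc, mul_assoc]
    congr 1
    ext i j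
    fin_cases i <;> fin_cases j <;> simp [k, mul_apply, Fin.sum_univ_three] <;> field_simp <;> ring
  exact (key x hx).trans (key y hy).symm

theorem isConj_SU3 [Finite F] (h2 : (2 : F) ≠ 0) {σ : F →+* F} (hσ : ∀ a, σ (σ a) = a) (hne : σ ≠ RingHom.id F)
    {q : ℕ} (hq : ∀ x, σ x = x ^ q) (x y : SU 3 F q) (hx : orderOf x = 2) (hy : orderOf y = 2) : IsConj x y := by
  set S := H11.stdUnit hσ hne (Fin 3) with hS
  have hN : S.Nondeg := H11.stdUnit_nondeg hσ hne _
  let e := H11.suEquiv hσ hne hq 3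
  have key : ∀ x : SU 3 F q, orderOf x = 2 → ∃ v, S.h v v = 1 ∧ ∀ w, (e x).1.1 w = (2 * S.h v w) • v - w := by
    intro x hx
    have h1 : x * x = 1 := by rw [← sq, ← hx, pow_orderOf_eq_one]
    obtain ⟨v, φ, e1, h⟩ := inv3 h2 (t := x.1.1) (congrArg (fun z : SU 3 F q => z.1.1) h1) x.1.2 (fun e => by
      rw [show x = 1 from Subtype.ext (Subtype.ext e), orderOf_one] at hx; omega)
    have e2 : ∀ w, (e x).1.1 w = (φ ⬝ᵥ w) • v - w := fun w => by
      rw [H11.suEquiv_apply]
      refine (congrArg (· *ᵥ w) e1).trans ?_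
      simp [sub_mulVec, vecMulVec_mulVec]
    have e3 : ∀ w, (φ ⬝ᵥ w) * S.h v v = 2 * S.h v w := fun w => by
      have := S.isom_h (e x).1 v w
      rw [e2, e2, h, two_smul, add_sub_cancel_right, map_sub, map_smul, smul_eq_mul] at this
      linear_combination this
    have hv : v ≠ 0 := by rintro rfl; simp at h; exact h2 h.symm
    have hvv : S.h v v ≠ 0 := fun e0 => by
      obtain ⟨w, hw⟩ := hN.exists_h_ne_zero hv
      have := e3 w
      rw [e0, mul_zero] at this
      exact mul_ne_zero h2 hw this.symm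
    obtain ⟨c, hc⟩ := H11.PForm.unit_exists_smul_norm hne hvv (map_one σ)
    refine ⟨c • v, hc, fun w => ?_⟩
    rw [S.h_smul_left, S.h_smul_right] at hc
    rw [e2, S.h_smul_left, smul_smul]
    congr 2
    apply mul_right_cancel₀ hvv
    linear_combination e3 w - 2 * S.h v w * hc
  obtain ⟨v, hv, ev⟩ := key x hx
  obtain ⟨w, hw, ew⟩ := key y hy
  obtain ⟨g, -, -, hg⟩ := hN.witt_step ⊤ (fun _ _ => trivial) (fun _ _ _ => trivial) ⊥ (u := v) (u' := w)
    (by rintro rfl; simp at hv) (by rintro rfl; simp at hw)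
    ((H11.PForm.unit_q_congr_iff S S _ _).2 (hw.trans hv.symm)) (by simp)
  obtain ⟨k, -, hk, hkw⟩ := H11.PForm.exists_det_eq_of_ne (S := S) (v := w) (by rw [hw]; exact one_ne_zero)
    ⟨_, hN.det_mem_normOne g⟩⁻¹
  have hm : k * g ∈ S.SIsom := by
    change S.detHom (k * g) = 1
    rw [map_mul, hk]; simp
  set c : F := Units.val (⟨_, hN.det_mem_normOne g⟩⁻¹ : H11.normOne σ).1 with hc
  have hc1 : σ c * c = 1 := (⟨_, hN.det_mem_normOne g⟩⁻¹ : H11.normOne σ).2
  have : IsConj (e x) (e y) := isConj_iff.2 ⟨⟨k * g, hm⟩, mul_inv_eq_of_eq_mul (Subtype.ext (S.isom_ext fun z => by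
    change (k * g).1 ((e x).1.1 z) = (e y).1.1 ((k * g).1 z)
    have e1 : (k * g).1 v = c • w := by rw [S.isom_mul_apply, hg, hkw]
    rw [ev, ew, map_sub, map_smul, ← S.isom_h (k * g) v z, e1, S.h_smul_left, smul_smul]
    congr 2
    linear_combination 2 * S.h w ((k * g).1 z) * hc1))⟩
  simpa using e.symm.toMonoidHom.map_isConj this

end H23.FS
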