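import Cfsg.Agent.H23.FSimp
import Cfsg.Agent.S1238
import Cfsg.Agent.S1248
import Cfsg.Agent.H10.Klein

/-! Dihedral, quasi-dihedral and wreathed 2-groups have no automorphisms of odd order and their derived subgroup is
generated by products of involutions (`R2`, `W2.r2`); the 2-fusion system of a perfect group of 2-rank two with one
class of involutions and a dihedral subgroup of order 8 is simple (`simple_of_rank_two`). -/

set_option autoImplicit false

namespace H23.FS

open Subgroup Cfsg H20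
open scoped commutatorElement

variable {T Q : Type*} [Group T] [Group Q]

theorem modEq_one_of_pow {m o e : ℕ} (ho : Odd o) (h : m ^ o ≡ 1 [MOD 2 ^ e]) : m ≡ 1 [MOD 2 ^ e] := by
  have h1 : ((m : ZMod (2 ^ e))) ^ o = 1 := by
    have := (ZMod.natCast_eq_natCast_iff _ _ _).2 h
    simpa using this
  let u : (ZMod (2 ^ e))ˣ := Units.ofPowEqOne _ o h1 ho.pos.ne'
  have h2 : u ^ o = 1 := Units.ext (by simpa [u] using h1)
  have h3 : u ^ 2 ^ e = 1 := by
    have h4 : Nat.totient (2 ^ e) ∣ 2 ^ e := by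
      rcases e with _ | e
      · simp
      · rw [Nat.totient_prime_pow_succ Nat.prime_two]; simp [pow_succ]
    exact orderOf_dvd_iff_pow_eq_one.1 ((orderOf_dvd_of_pow_eq_one (ZMod.pow_totient u)).trans h4)
  have h5 : u = 1 := by
    have := pow_gcd_eq_one.2 ⟨h2, h3⟩
    rwa [(Nat.Coprime.pow_right e (Nat.coprime_two_right.2 ho)).gcd_eq_one, pow_one] at this
  have h6 : (m : ZMod (2 ^ e)) = ((1 : ℕ) : ZMod (2 ^ e)) := by
    have := congrArg Units.val h5
    simpa [u] using this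
  exact (ZMod.natCast_eq_natCast_iff _ _ _).1 h6

theorem aut_cyc [Finite Q] (hQ : IsPGroup 2 Q) (π : T →* Q) {α : MulAut T} (ho : Odd (orderOf α))
    (hk : ∀ t, π t = 1 → π (α t) = 1) {x : T} (hx : π (α x) ∈ zpowers (π x)) : π (α x) = π x := by
  obtain ⟨m, hm⟩ := (Submonoid.mem_powers_iff _ _).1 ((isOfFinOrder_of_finite _).mem_powers_iff_mem_zpowers.2 hx)
  have h1 : ∀ a b, π a = π b → π (α a) = π (α b) := fun a b e => by
    have := hk (a⁻¹ * b) (by rw [map_mul, map_inv, e, inv_mul_cancel])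
    rwa [map_mul, map_mul, map_inv, map_inv, inv_mul_eq_one] at this
  have h2 : ∀ n : ℕ, π ((α ^ n) x) = π x ^ m ^ n := fun n => by
    induction n with
    | zero => simp
    | succ n ih =>
      rw [pow_succ', MulAut.mul_apply, h1 _ (x ^ m ^ n) (by rw [ih, map_pow]), map_pow, map_pow, ← hm, ← pow_mul,
        ← pow_succ']
  have h3 := h2 (orderOf α)
  rw [pow_orderOf_eq_one, MulAut.one_apply] at h3
  obtain ⟨e, he⟩ := IsPGroup.iff_orderOf.1 hQ (π x)
  have h4 : m ^ orderOf α ≡ 1 [MOD 2 ^ e] := by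
    rw [← he, ← pow_eq_pow_iff_modEq, pow_one]; exact h3.symm
  rw [← hm]
  conv_rhs => rw [← pow_one (π x)]
  rw [pow_eq_pow_iff_modEq, he]
  exact modEq_one_of_pow ho h4

theorem aut_stab (hT : IsPGroup 2 T) {α : MulAut T} (ho : Odd (orderOf α)) {h : T} (hn : α (h⁻¹ * α h) = h⁻¹ * α h) :
    α h = h := by
  set n := h⁻¹ * α h with hn'
  have h1 : ∀ k : ℕ, (α ^ k) h = h * n ^ k := fun k => by
    induction k with
    | zero => simp
    | succ k ih => rw [pow_succ', MulAut.mul_apply, ih, map_mul, map_pow, hn, pow_succ', ← mul_assoc, hn']; simp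
  have h2 := h1 (orderOf α)
  rw [pow_orderOf_eq_one, MulAut.one_apply, left_eq_mul] at h2
  have h3 : n = 1 := (pElt_of_mem (K := ⊤) (hT.of_equiv Subgroup.topEquiv.symm) (mem_top n)).eq_one
    (qElt_of_pow (Nat.coprime_two_right.2 ho) h2)
  rw [hn', inv_mul_eq_one] at h3
  exact h3.symm

/-- no automorphisms of odd order, derived subgroup generated by involutions -/
def R2 (T : Type*) [Group T] : Prop :=
  (∀ α : MulAut T, Odd (orderOf α) → α = 1) ∧ commutator T ≤ Subgroup.closure {t | orderOf t = 2}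

theorem R2.of_equiv (h : R2 Q) (e : T ≃* Q) : R2 T := by
  refine ⟨fun α hα => (MulAut.congr e).injective ?_, ?_⟩
  · rw [map_one]
    exact h.1 _ (by rwa [MulEquiv.orderOf_eq])
  · rw [← H11.map_commutator_equiv e.symm]
    refine (map_mono h.2).trans ?_
    rw [MonoidHom.map_closure]
    refine Subgroup.closure_mono ?_
    rintro _ ⟨t, ht, rfl⟩
    exact (MulEquiv.orderOf_eq e.symm t).trans ht

/-- an abelian subgroup `⟨x, x^y⟩` of index two and an involution `y` outside -/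
structure W2 (x y : T) : Prop where
  oy : orderOf y = 2
  comm : Commute x (y * x * y⁻¹)
  idx : (zpowers x ⊔ zpowers (y * x * y⁻¹)).index = 2
  nm : y ∉ zpowers x ⊔ zpowers (y * x * y⁻¹)

namespace W2

variable {x y : T} (h : W2 x y)
include h

theorem yy : y * y = 1 := by rw [← sq, ← h.oy, pow_orderOf_eq_one]

theorem ab {a b : T} (ha : a ∈ zpowers x ⊔ zpowers (y * x * y⁻¹)) (hb : b ∈ zpowers x ⊔ zpowers (y * x * y⁻¹)) :
    a * b = b * a := by
  have h1 : ∀ {c : T}, Commute c x → Commute c (y * x * y⁻¹) → ∀ a ∈ zpowers x ⊔ zpowers (y * x * y⁻¹),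
      Commute c a := fun {c} h1 h2 a ha =>
    (sup_le (zpowers_le.2 (mem_centralizer_singleton_iff.2 h1.symm))
      (zpowers_le.2 (mem_centralizer_singleton_iff.2 h2.symm)) ha : a ∈ centralizer {c}) c rfl
  exact h1 (h1 rfl h.comm a ha).symm (h1 h.comm.symm rfl a ha).symm b hb

theorem mul_mem {t : T} (ht : t ∉ zpowers x ⊔ zpowers (y * x * y⁻¹)) :
    t * y ∈ zpowers x ⊔ zpowers (y * x * y⁻¹) := (mul_mem_iff_of_index_two h.idx).2 (iff_of_false ht h.nm)

theorem c_mem : x⁻¹ * (y * x * y⁻¹) ∈ zpowers x ⊔ zpowers (y * x * y⁻¹) :=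
  Subgroup.mul_mem _ (inv_mem (mem_sup_left (mem_zpowers _))) (mem_sup_right (mem_zpowers _))

theorem conj_c {t : T} (ht : t ∉ zpowers x ⊔ zpowers (y * x * y⁻¹)) :
    t * (x⁻¹ * (y * x * y⁻¹)) * t⁻¹ = (x⁻¹ * (y * x * y⁻¹))⁻¹ := by
  have h1 : y⁻¹ = y := inv_eq_of_mul_eq_one_left h.yy
  have h2 : y * (x⁻¹ * (y * x * y⁻¹)) * y⁻¹ = (x⁻¹ * (y * x * y⁻¹))⁻¹ := by
    calc y * (x⁻¹ * (y * x * y⁻¹)) * y⁻¹ = (y * x * y⁻¹)⁻¹ * (y * y) * x * (y * y)⁻¹ := by group
      _ = _ := by rw [h.yy]; group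
  calc t * (x⁻¹ * (y * x * y⁻¹)) * t⁻¹ = t * y⁻¹ * (y * (x⁻¹ * (y * x * y⁻¹)) * y⁻¹) * (t * y⁻¹)⁻¹ := by group
    _ = t * y * (x⁻¹ * (y * x * y⁻¹))⁻¹ * (t * y)⁻¹ := by rw [h2]; simp only [h1]
    _ = _ := by rw [h.ab (h.mul_mem ht) (inv_mem h.c_mem), mul_inv_cancel_right]

theorem normal_c : (zpowers (x⁻¹ * (y * x * y⁻¹))).Normal := ⟨by
  rintro _ ⟨n, rfl⟩ g
  dsimp only
  rw [← conj_zpow]
  refine zpow_mem ?_ n
  by_cases hg : g ∈ zpowers x ⊔ zpowers (y * x * y⁻¹)
  · rw [h.ab hg h.c_mem, mul_inv_cancel_right]; exact mem_zpowers _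
  · rw [h.conj_c hg]; exact inv_mem (mem_zpowers _)⟩

theorem commutator_eq : commutator T = zpowers (x⁻¹ * (y * x * y⁻¹)) := by
  have := h.normal_c
  refine le_antisymm ?_ (zpowers_le.2 ?_)
  · set π := QuotientGroup.mk' (zpowers (x⁻¹ * (y * x * y⁻¹)))
    have h1 : π (y * x * y⁻¹) = π x := by
      rw [eq_comm, ← inv_mul_eq_one, ← map_inv, ← map_mul]
      exact (QuotientGroup.eq_one_iff _).2 (mem_zpowers _)
    have h2 : Commute (π x) (π y) := by
      rw [map_mul, map_mul, map_inv, mul_inv_eq_iff_eq_mul] at h1; exact h1.symm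
    have h3 : ∀ a ∈ zpowers x ⊔ zpowers (y * x * y⁻¹), π a ∈ zpowers (π x) := fun a ha =>
      (sup_le (zpowers_le.2 (mem_comap.2 (mem_zpowers _))) (zpowers_le.2 (mem_comap.2 (h1 ▸ mem_zpowers _))) :
        _ ≤ (zpowers (π x)).comap π) ha
    have h4 : ∀ {c}, Commute c (π x) → Commute c (π y) → ∀ t, Commute c (π t) := fun {c} c1 c2 t => by
      have h5 : ∀ a ∈ zpowers x ⊔ zpowers (y * x * y⁻¹), Commute c (π a) := fun a ha => by
        obtain ⟨n, e⟩ := h3 a ha
        rw [← e]; exact c1.zpow_right n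
      by_cases ht : t ∈ zpowers x ⊔ zpowers (y * x * y⁻¹)
      · exact h5 t ht
      · have := (h5 _ (h.mul_mem ht)).mul_right c2.inv_right
        rwa [← map_inv, ← map_mul, mul_inv_cancel_right] at this
    refine commutator_le.2 fun a _ b _ => (QuotientGroup.eq_one_iff _).1 ?_
    change π _ = 1
    rw [map_commutatorElement, commutatorElement_eq_one_iff_commute]
    exact h4 (h4 rfl h2 a).symm (h4 h2.symm rfl a).symm b
  · have := commutator_mem_commutator (mem_top x⁻¹) (mem_top y)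
    rw [commutatorElement_def, inv_inv] at this
    rw [commutator_def]
    simpa [mul_assoc] using this

theorem r2 [Finite T] (hT : IsPGroup 2 T)
    (hA : ∀ α : MulAut T, ∀ a ∈ zpowers x ⊔ zpowers (y * x * y⁻¹), α a ∈ zpowers x ⊔ zpowers (y * x * y⁻¹)) :
    R2 T := by
  refine ⟨fun α ho => ?_, ?_⟩
  · have := h.normal_c
    set c := x⁻¹ * (y * x * y⁻¹) with hc
    have h1 : ∀ d ∈ zpowers c, α d ∈ zpowers c := fun d hd => by
      rw [← h.commutator_eq] at hd ⊢
      exact (H11.mem_commutator_iff_equiv α d).1 hd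
    have h2 : α c = c := aut_cyc hT (MonoidHom.id T) ho (fun t e => by simpa using e) (h1 c (mem_zpowers c))
    have h3 : ∀ d ∈ zpowers c, α d = d := by
      rintro _ ⟨n, rfl⟩; simp only [map_zpow, h2]
    set π := QuotientGroup.mk' (zpowers c)
    have h4 : π (y * x * y⁻¹) = π x := by
      rw [eq_comm, ← inv_mul_eq_one, ← map_inv, ← map_mul]
      exact (QuotientGroup.eq_one_iff _).2 (mem_zpowers _)
    have h5 : ∀ a ∈ zpowers x ⊔ zpowers (y * x * y⁻¹), π a ∈ zpowers (π x) := fun a ha =>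
      (sup_le (zpowers_le.2 (mem_comap.2 (mem_zpowers _))) (zpowers_le.2 (mem_comap.2 (h4 ▸ mem_zpowers _))) :
        _ ≤ (zpowers (π x)).comap π) ha
    have h6 : π (α x) = π x := aut_cyc (hT.to_quotient _) π ho
      (fun t e => (QuotientGroup.eq_one_iff _).2 (h1 t ((QuotientGroup.eq_one_iff _).1 e)))
      (h5 _ (hA α x (mem_sup_left (mem_zpowers _))))
    have h7 : α x = x := aut_stab hT ho (h3 _ ((QuotientGroup.eq_one_iff _).1 (by
      change π _ = 1
      rw [map_mul, map_inv, h6, inv_mul_cancel])))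
    have h8 : ∀ a ∈ zpowers x ⊔ zpowers (y * x * y⁻¹), α a = a := fun a ha =>
      (sup_le (zpowers_le.2 h7) (zpowers_le.2 (by
        have : y * x * y⁻¹ = x * c := by rw [hc]; group
        change α _ = _
        rw [this, map_mul, h7, h2]; rfl)) ha : a ∈ α.toMonoidHom.eqLocus (MonoidHom.id T))
    ext t
    by_cases ht : t ∈ zpowers x ⊔ zpowers (y * x * y⁻¹)
    · exact h8 t ht
    · refine aut_stab hT ho (h8 _ ((mul_mem_iff_of_index_two h.idx).2 (iff_of_false (by simpa using ht) fun h9 => ?_)))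
      exact ht (by simpa using hA α⁻¹ _ h9)
  · rw [h.commutator_eq, zpowers_le]
    have e : x⁻¹ * (y * x * y⁻¹) = (x⁻¹ * y * x⁻¹⁻¹) * y⁻¹ := by group
    rw [e]
    exact Subgroup.mul_mem _ (Subgroup.subset_closure (H18.orderOf_conj.trans h.oy))
      (inv_mem (subset_closure h.oy))

theorem r2' [Finite T] (hT : IsPGroup 2 T) (hc : (x⁻¹ * (y * x * y⁻¹)) ^ 2 ≠ 1) : R2 T := by
  refine h.r2 hT fun α a ha => ?_
  by_contra hn
  have h1 := h.conj_c hn
  have h2 : α⁻¹ (x⁻¹ * (y * x * y⁻¹)) ∈ zpowers x ⊔ zpowers (y * x * y⁻¹) := by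
    refine zpowers_le.2 h.c_mem ?_
    rw [← h.commutator_eq]
    exact (H11.mem_commutator_iff_equiv α⁻¹ _).1 (h.commutator_eq ▸ mem_zpowers _)
  have h3 := congrArg α (h.ab ha h2)
  rw [map_mul α a, map_mul α _ a, MulAut.apply_inv_self] at h3
  rw [h3, mul_inv_cancel_right] at h1
  exact hc (by rw [sq]; nth_rewrite 1 [h1]; exact inv_mul_cancel _)

end W2

theorem index_eq_two_of_card [Finite T] {A : Subgroup T} (h : Nat.card T = 2 * Nat.card A) : A.index = 2 :=
  Nat.eq_of_mul_eq_mul_right (Nat.card_pos (α := A)) (by rw [A.index_mul_card, h])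

theorem r2_dihedral {m : ℕ} (hm : 3 ≤ m) (hT : IsPGroup 2 (DihedralGroup m)) : R2 (DihedralGroup m) := by
  have : NeZero m := ⟨by omega⟩
  have e : (DihedralGroup.sr 0 * DihedralGroup.r 1 * (DihedralGroup.sr 0)⁻¹ : DihedralGroup m) =
      (DihedralGroup.r 1)⁻¹ := by simp
  have e2 : zpowers (DihedralGroup.r 1 : DihedralGroup m) ⊔ zpowers (DihedralGroup.sr 0 * DihedralGroup.r 1 *
      (DihedralGroup.sr 0)⁻¹) = zpowers (DihedralGroup.r 1) := by rw [e, zpowers_inv, sup_idem]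
  have h1 : ∀ i, (DihedralGroup.r i : DihedralGroup m) ∈ zpowers (DihedralGroup.r 1) := fun i =>
    ⟨i.val, by simp [DihedralGroup.r_one_pow]⟩
  refine W2.r2 (x := DihedralGroup.r 1) (y := DihedralGroup.sr 0) ⟨DihedralGroup.orderOf_sr 0,
    by rw [e]; exact (Commute.refl _).inv_right, ?_, ?_⟩ hT fun α a ha => ?_
  · rw [e2]
    exact index_eq_two_of_card (by rw [DihedralGroup.nat_card, Nat.card_zpowers, DihedralGroup.orderOf_r_one])
  · rw [e2]
    rintro ⟨n, hn⟩
    simp [DihedralGroup.r_one_zpow] at hn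
  · rw [e2] at ha ⊢
    obtain ⟨n, rfl⟩ := ha
    dsimp only
    rw [map_zpow]
    refine zpow_mem ?_ n
    have h2 := MulEquiv.orderOf_eq α (DihedralGroup.r 1)
    rcases hα : α (DihedralGroup.r 1) with i | i
    · exact h1 i
    · rw [hα, DihedralGroup.orderOf_sr, DihedralGroup.orderOf_r_one] at h2; omega

theorem r2_qd [Finite T] (hT : IsPGroup 2 T) (h : IsQuasiDihedral T) : R2 T := by
  obtain ⟨n, hn, hc, x, y, ox, oy, e⟩ := h
  obtain ⟨n, rfl⟩ : ∃ k, n = k + 3 := ⟨n - 3, by omega⟩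
  have e1 : n + 3 - 1 = n + 2 := rfl
  rw [e1] at e
  have h4 : 4 ≤ 2 ^ (n + 2) := by rw [pow_add]; have := Nat.one_le_two_pow (n := n); omega
  have e2 : zpowers x ⊔ zpowers (y * x * y⁻¹) = zpowers x := sup_eq_left.2 (zpowers_le.2 (e ▸ pow_mem (mem_zpowers x) _))
  have e3 : x⁻¹ * (y * x * y⁻¹) = x ^ (2 ^ (n + 2) - 2) := by
    rw [e, inv_mul_eq_iff_eq_mul, ← pow_succ']; congr 1; omega
  have hc2 : (x⁻¹ * (y * x * y⁻¹)) ^ 2 ≠ 1 := by
    rw [e3, ← pow_mul]
    refine pow_ne_one_of_lt_orderOf (by omega) ?_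
    rw [ox, pow_succ 2 (n + 2)]; omega
  refine W2.r2' ⟨oy, e ▸ (Commute.refl x).pow_right _, ?_, ?_⟩ hT hc2
  · rw [e2]
    exact index_eq_two_of_card (by rw [hc, Nat.card_zpowers, ox, pow_succ'])
  · rw [e2]
    rintro ⟨k, rfl⟩
    exact hc2 (by dsimp only; rw [((Commute.refl x).zpow_left k).eq]; group)

theorem r2_wr [Finite T] (hT : IsPGroup 2 T) (h : IsWreathed T) : R2 T := by
  obtain ⟨n, hn, hc, x, y, z, ox, cm, dj, oz, rfl⟩ := h
  have hx2 : x ^ 2 ≠ 1 := pow_ne_one_of_lt_orderOf two_ne_zero (by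
    rw [ox]; calc 2 = 2 ^ 1 := rfl
      _ < 2 ^ n := Nat.pow_lt_pow_right one_lt_two (by omega))
  have hc2 : (x⁻¹ * (z * x * z⁻¹)) ^ 2 ≠ 1 := fun h => by
    rw [(Commute.inv_left cm).mul_pow, inv_pow, inv_mul_eq_one] at h
    exact hx2 (mem_bot.1 (dj.le ⟨pow_mem (mem_zpowers _) 2, h ▸ pow_mem (mem_zpowers _) 2⟩))
  have h1 : ∀ {c : T}, Commute c x → Commute c (z * x * z⁻¹) → ∀ a ∈ zpowers x ⊔ zpowers (z * x * z⁻¹),
      Commute c a := fun {c} h1 h2 a ha =>
    (sup_le (zpowers_le.2 (mem_centralizer_singleton_iff.2 h1.symm))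
      (zpowers_le.2 (mem_centralizer_singleton_iff.2 h2.symm)) ha : a ∈ centralizer {c}) c rfl
  refine W2.r2' ⟨oz, cm, index_eq_two_of_card ?_, fun hz => hc2 ?_⟩ hT hc2
  · rw [H18.card_sup_of_cent _ dj, Nat.card_zpowers, Nat.card_zpowers, H18.orderOf_conj, ox, hc]
    · ring
    · rintro _ ⟨i, rfl⟩ _ ⟨j, rfl⟩
      exact (Commute.zpow_zpow cm i j).symm
  · rw [← (h1 rfl cm z hz).eq]; group

variable {G G' : Type*} [Group G] [Group G'] [Finite G]

theorem crit_of_r2 (S : Sylow 2 G) (h : R2 S) (hp : commutator G = ⊤)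
    (hc : ∀ x y : G, orderOf x = 2 → orderOf y = 2 → IsConj x y) :
    (∀ T, SCl ⊤ (S : Subgroup G) T → T ≠ ⊥ → (S : Subgroup G) ≤ T) ∧
      ∀ g ∈ normalizer ((S : Subgroup G) : Set G), Gd 2 ⊤ (S : Subgroup G) S g := by
  have h1 : ∀ g ∈ normalizer ((S : Subgroup G) : Set G), QElt 2 g → ∀ y ∈ (S : Subgroup G), g * y = y * g :=
    fun g hg hq y hy => by
      have h2 := h.1 ((S : Subgroup G).normalizerMonoidHom ⟨g, hg⟩) (Odd.of_dvd_nat
        (Nat.coprime_two_right.1 hq) ((orderOf_map_dvd _ _).trans (by rw [← Subgroup.orderOf_coe])))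
      have h3 := congrArg (fun α : MulAut (S : Subgroup G) => (α ⟨y, hy⟩ : G)) h2
      exact mul_inv_eq_iff_eq_mul.1 h3
  refine ⟨fun T hT hT1 => ?_, fun g hg => ?_⟩
  · have hF := sat_group S
    have h2 : (groupFusionSystem (S : Subgroup G)).StronglyClosed T := sc_of hT.1 fun P σ hσ hP x hx => by
      obtain ⟨-, h3, g, h4⟩ := mor_group_iff.1 hσ
      rw [h4 x hx]; exact hT.2 x (hP hx) g (mem_top g) (h4 x hx ▸ h3 x hx)
    have h3 : IsPGroup 2 (AutF (groupFusionSystem (S : Subgroup G)) S) := by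
      rw [AutF_group le_rfl]
      refine pgroup_iff.2 fun σ hσ => ?_
      obtain ⟨g, -, hg, rfl⟩ := mem_AutK'.1 hσ
      obtain ⟨a, b, h3, h4, e⟩ := exists_parts' (p := 2) hg
      have h5 : cr (S : Subgroup G) (g ^ b) = 1 := (cr_eq_one_iff (pow_mem hg b)).2
        (mem_centralizer_iff.2 fun y hy => (h1 _ (pow_mem hg b) h4 y hy).symm)
      rw [e, (homOn_cr _).mul (pow_mem hg a) (pow_mem hg b), h5, mul_one]
      exact (homOn_cr _).pElt (pow_mem hg a) h3
    have := fin_of_le hT.1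
    obtain ⟨z, hz, oz⟩ := exists_order_p (S.2.to_le hT.1) hT1
    have h4 : ⁅(S : Subgroup G), (S : Subgroup G)⁆ ≤ T := by
      rw [← map_subtype_commutator]
      refine (map_mono h.2).trans ?_
      rw [MonoidHom.map_closure, Subgroup.closure_le]
      rintro _ ⟨t, ht, rfl⟩
      obtain ⟨g, hg⟩ := isConj_iff.1 (hc z t oz ((Subgroup.orderOf_coe t).trans ht))
      have := hT.2 z hz g (mem_top g) (hg ▸ t.2)
      rwa [hg] at this
    have h5 := H27.foc_le_of_sc S.2 hF h3 h2 h4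
    rw [groupFS_eq, H27.foc_group (syl_top S), ← commutator_def, hp, inf_top_eq] at h5
    exact h5
  · obtain ⟨a, b, h3, h4, e⟩ := exists_parts' (p := 2) hg
    rw [e]
    exact (mul_mem (pelt_mem_GdN le_rfl (mem_top _) (pow_mem hg a) h3)
      (cent_mem_GdN le_rfl (mem_top _) (h1 _ (pow_mem hg b) h4))).2

theorem simple_of_rank_two (φ : G →* G') (hs : Function.Surjective φ)
    (hk : ∀ x, φ x = 1 → Odd (orderOf x) ∧ x ∈ center G) (hp : commutator G = ⊤) (h2 : PRankLE 2 2 G)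
    (hc : ∀ x y : G, orderOf x = 2 → orderOf y = 2 → IsConj x y) {a b : G} (ha : a * a = 1) (hb : b * b = 1)
    (hab : Commute a (b * a * b⁻¹)) (hn : a * b ≠ b * a) (S' : Sylow 2 G') :
    (groupFusionSystem (S' : Subgroup G')).IsSimple 2 := by
  have a1 : a ≠ 1 := by rintro rfl; simp at hn
  have oa : orderOf a = 2 := orderOf_eq_prime (by rw [sq, ha]) a1
  have hK : H10.KPair a (b * a * b⁻¹) := ⟨ha, by rw [conj_mul, ha]; simp, a1, by simpa using a1,
    fun e => hn (eq_mul_inv_iff_mul_eq.1 e), hab.symm⟩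
  have hV : IsPGroup 2 (closure {a, b * a * b⁻¹} : Subgroup G) := IsPGroup.of_card (n := 2) hK.card_closure
  have hb' : b⁻¹ = b := inv_eq_of_mul_eq_one_left hb
  have hQ := pgroup_sup (pgroup_zpowers (p := 2) (k := 1) (x := b) (by rw [pow_one, sq, hb])) hV
    (zpowers_le.2 (mem_normalizer_of_conj (conj_mem_closure (by
      rintro x (rfl | rfl)
      · exact subset_closure (by simp)
      · have : b * (b * a * b⁻¹) * b⁻¹ = a := by
          calc b * (b * a * b⁻¹) * b⁻¹ = (b * b) * a * (b * b)⁻¹ := by group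
            _ = a := by rw [hb]; group
        rw [this]; exact subset_closure (by simp)))))
  obtain ⟨S, hS⟩ := hQ.exists_le_sylow
  have aS : a ∈ (S : Subgroup G) := hS (mem_sup_right (subset_closure (by simp)))
  have bS : b ∈ (S : Subgroup G) := hS (mem_sup_left (mem_zpowers b))
  have hn' : (⟨a, aS⟩ : (S : Subgroup G)) * ⟨b, bS⟩ ≠ ⟨b, bS⟩ * ⟨a, aS⟩ := fun e => hn (congrArg Subtype.val e)
  have hR : R2 S := by
    have : Fact (Nat.Prime 2) := ⟨Nat.prime_two⟩
    letI : Fintype (GaloisField 2 4) := Fintype.ofFinite _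
    have hF : Fintype.card (GaloisField 2 4) = 16 := by
      rw [← Nat.card_eq_fintype_card, GaloisField.card 2 4 (by norm_num)]; rfl
    let P : Sylow 2 (Cfsg.PSU 3 (GaloisField 2 4) 4) := Classical.arbitrary _
    rcases Cfsg.Agent.S1238.result h2 (fun h => by
        have := h _ (hK.isKleinFour.isMulCommutative) fun x hx => by
          rcases hK.mem_closure_iff.1 hx with rfl | rfl | rfl | rfl
          · simp
          · rw [sq, ha]
          · rw [sq, hK.yy]
          · rw [hab.mul_pow, sq, sq, ha, hK.yy, mul_one]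
        rw [hK.card_closure] at this; omega)
      (fun H hH => by
        have := normal_of_index_eq_two hH
        have h3 : commutator G ≤ H := commutator_le.2 fun x _ y _ => by
          rw [commutatorElement_def, mul_assoc, mul_assoc, mul_mem_iff_of_index_two hH,
            mul_mem_iff_of_index_two hH, mul_mem_iff_of_index_two hH, inv_mem_iff, inv_mem_iff]
          tauto
        rw [hp, top_le_iff] at h3
        rw [h3, index_top] at hH; omega)
      (fun z hz => by
        obtain ⟨g, rfl⟩ := isConj_iff.1 (hc a z oa hz.1)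
        have h3 := hz.2 (g * b * g⁻¹) (by
          have := hab.map (MulAut.conj g)
          simpa [mul_assoc] using this)
        refine hK.ne ?_
        have : g * (b * a * b⁻¹) * g⁻¹ = g * a * g⁻¹ := by rw [← h3]; group
        simpa using this.symm) S hF P with ⟨m, hm, ⟨e⟩⟩ | h | h | ⟨n, -, ⟨e⟩⟩ | ⟨⟨e⟩⟩
    · refine (r2_dihedral ?_ (S.2.of_equiv e)).of_equiv e
      by_contra h3
      obtain rfl : m = 2 := by omega
      exact hn' (e.injective (by
        rw [map_mul, map_mul]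
        generalize e _ = u
        generalize e _ = v
        revert u v; decide))
    · exact r2_qd S.2 h
    · exact r2_wr S.2 h
    · exact absurd (e.injective (by rw [map_mul, map_mul, mul_comm])) hn'
    · refine absurd (e.injective ?_) hn'
      rw [map_mul, map_mul]
      refine (mem_center_iff.1 ((Cfsg.Agent.S1248.result hF P).2.2.1.ge (subset_closure ?_)) _).symm
      exact (MulEquiv.orderOf_eq _ _).trans ((Subgroup.orderOf_coe _).symm.trans oa)
  obtain ⟨h3, h4⟩ := crit_of_r2 S hR hp hc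
  exact simple_of_gd (φ.comp (⊤ : Subgroup G).subtype) (fun y => by
      obtain ⟨x, rfl⟩ := hs y; exact ⟨⟨x, mem_top x⟩, rfl⟩)
    (fun x hx => ⟨Nat.coprime_two_right.2 (hk x hx).1, fun y _ => (mem_center_iff.1 (hk x hx).2 y).symm⟩)
    (syl_top S) (fun e => a1 (mem_bot.1 (e.le aS))) h3 (fun g _ => h4 g) S'

end H23.FS
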