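import Cfsg.Agent.H23.FCl
import Cfsg.Agent.H24.LSsl
import Cfsg.Agent.H10.SL

/-! The fusion system of `PSL_n`, `n ≥ 3`, in the defining characteristic is simple: unitriangular groups `UL L` of a
chain of subspaces, Sylow subgroups of `SL` are generated by transvections (`syl_le_closure_tv`), `simple_SL`. -/

set_option autoImplicit false

namespace H23.FS

open Subgroup Cfsg H20 Matrix H25 H24 Module

variable {F : Type*} [Field F] {p : ℕ} [Fact p.Prime] [CharP F p] {ι : Type*} [Fintype ι] [DecidableEq ι]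

theorem exists_fixed_quot {G V : Type*} [Group G] [AddCommGroup V] [Module F V] [Finite V] (ρ : G →* (V ≃ₗ[F] V))
    {Q : Subgroup G} (hQ : IsPGroup p Q) (U : Submodule F V) (hU : U ≠ ⊤) (h : ∀ g ∈ Q, ∀ x ∈ U, ρ g x ∈ U) :
    ∃ x, x ∉ U ∧ ∀ g ∈ Q, ρ g x - x ∈ U := by
  let _ : MulAction Q (V ⧸ U) :=
    { smul := fun g x => U.mapQ U (ρ g : V →ₗ[F] V) (h g g.2) x
      one_smul := fun x => by
        obtain ⟨x, rfl⟩ := U.mkQ_surjective x
        change U.mkQ (ρ 1 x) = _; simp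
      mul_smul := fun g g' x => by
        obtain ⟨x, rfl⟩ := U.mkQ_surjective x
        change U.mkQ (ρ (g * g') x) = U.mkQ (ρ g (ρ g' x)); simp }
  obtain ⟨y, hy⟩ : ∃ y, y ∉ U := by
    by_contra h; push Not at h; exact hU (eq_top_iff.2 fun y _ => h y)
  have hd : p ∣ Nat.card (V ⧸ U) := by
    have h1 : addOrderOf (U.mkQ y) = p := addOrderOf_eq_prime (by
      rw [← Nat.cast_smul_eq_nsmul F, CharP.cast_eq_zero, zero_smul]) (by simpa using hy)
    exact h1 ▸ addOrderOf_dvd_natCard _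
  have : Finite (V ⧸ U) := Finite.of_surjective _ U.mkQ_surjective
  obtain ⟨b, hb, hb0⟩ := hQ.exists_fixed_point_of_prime_dvd_card_of_fixed_point (V ⧸ U) hd (a := 0)
    (fun g => map_zero (U.mapQ U (ρ g : V →ₗ[F] V) (h g g.2)))
  obtain ⟨b, rfl⟩ := U.mkQ_surjective b
  refine ⟨b, fun e => hb0 ((Submodule.Quotient.mk_eq_zero U).2 e).symm, fun g hg => ?_⟩
  exact (Submodule.Quotient.eq U).1 (hb ⟨g, hg⟩)

omit [Fact p.Prime] [CharP F p] in
theorem sl_mul (g h : SpecialLinearGroup ι F) (x : ι → F) : (g * h).1 *ᵥ x = g.1 *ᵥ (h.1 *ᵥ x) :=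
  (mulVec_mulVec x g.1 h.1).symm

omit [Fact p.Prime] [CharP F p] in
theorem sl_inv (g : SpecialLinearGroup ι F) (x : ι → F) : (g⁻¹).1 *ᵥ (g.1 *ᵥ x) = x := by
  rw [← sl_mul, inv_mul_cancel]; exact one_mulVec x

omit [Fact p.Prime] [CharP F p] in
theorem sl_inv' (g : SpecialLinearGroup ι F) (x : ι → F) : g.1 *ᵥ ((g⁻¹).1 *ᵥ x) = x := by
  rw [← sl_mul, mul_inv_cancel]; exact one_mulVec x

omit [Fact p.Prime] [CharP F p] in
theorem sl_ext {g h : SpecialLinearGroup ι F} (e : ∀ x, g.1 *ᵥ x = h.1 *ᵥ x) : g = h :=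
  Subtype.ext (Matrix.ext_of_mulVec_single fun _ => e _)

/-- the elements acting trivially on the factors of the chain `L` -/
def UL (L : ℕ → Submodule F (ι → F)) (hL : ∀ i, L i ≤ L (i + 1)) : Subgroup (SpecialLinearGroup ι F) where
  carrier := {g | ∀ i, ∀ x ∈ L (i + 1), g.1 *ᵥ x - x ∈ L i ∧ (g⁻¹).1 *ᵥ x - x ∈ L i}
  one_mem' := fun i x _ => by
    have : (1 : SpecialLinearGroup ι F).1 *ᵥ x = x := one_mulVec x
    rw [inv_one, this, sub_self]; exact ⟨zero_mem _, zero_mem _⟩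
  inv_mem' := fun {a} ha i x hx => by rw [inv_inv]; exact (ha i x hx).symm
  mul_mem' := fun {a b} ha hb i x hx => by
    have h1 : b.1 *ᵥ x ∈ L (i + 1) := by simpa using add_mem (hL i (hb i x hx).1) hx
    have h2 : (a⁻¹).1 *ᵥ x ∈ L (i + 1) := by simpa using add_mem (hL i (ha i x hx).2) hx
    rw [_root_.mul_inv_rev, sl_mul, sl_mul]
    exact ⟨by simpa using add_mem (ha i _ h1).1 (hb i x hx).1, by simpa using add_mem (hb i _ h2).2 (ha i x hx).2⟩

theorem UL_pgroup {L : ℕ → Submodule F (ι → F)} (hL : ∀ i, L i ≤ L (i + 1)) (h0 : L 0 = ⊥) {N : ℕ} (hN : L N = ⊤) :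
    IsPGroup p (UL L hL) := by
  refine pgroup_iff.2 fun g hg => ⟨N, Subtype.ext (pow_eq_one_of_unip (F := F) (p := p) (A := g.1) ?_)⟩
  have h : ∀ k, ∀ x ∈ L k, (g.1 - 1) ^ k *ᵥ x = 0 := fun k => by
    induction k with
    | zero => intro x hx; rw [h0] at hx; simpa using hx
    | succ k ih => intro x hx; rw [pow_succ, ← mulVec_mulVec, sub_mulVec, one_mulVec]; exact ih _ (hg k x hx).1
  exact Matrix.ext_of_mulVec_single fun i => by rw [h N _ (hN ▸ trivial), zero_mulVec]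

omit [Fact p.Prime] [CharP F p] in
theorem exists_dot {M : Submodule F (ι → F)} {x : ι → F} (hx : x ∉ M) :
    ∃ φ : ι → F, (∀ y ∈ M, φ ⬝ᵥ y = 0) ∧ φ ⬝ᵥ x = 1 := by
  obtain ⟨f, h1, h2⟩ := M.exists_dual_map_eq_bot_of_notMem hx inferInstance
  have e : ∀ y, (fun i => f (Pi.single i 1)) ⬝ᵥ y = f y := fun y => by
    conv_rhs => rw [pi_eq_sum_univ' y, map_sum]
    simp [dotProduct, mul_comm]
  refine ⟨(f x)⁻¹ • fun i => f (Pi.single i 1), fun y hy => ?_, by rw [smul_dotProduct, e, smul_eq_mul, inv_mul_cancel₀ h1]⟩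
  have : f y ∈ M.map f := ⟨y, hy, rfl⟩
  rw [h2, Submodule.mem_bot] at this
  rw [smul_dotProduct, e, this, smul_zero]

omit [Fact p.Prime] [CharP F p] in
theorem UL_le_closure {L : ℕ → Submodule F (ι → F)} (hL : ∀ i, L i ≤ L (i + 1)) (h0 : L 0 = ⊥) {N : ℕ} (hN : L N = ⊤) :
    UL L hL ≤ Subgroup.closure {g | g ∈ UL L hL ∧ ∃ v φ, φ ⬝ᵥ v = 0 ∧ g = tv v φ} := by
  classical
  have hm : Monotone L := monotone_nat_of_le_succ hL
  have key : ∀ n, ∀ g ∈ UL L hL, ∀ M : Submodule F (ι → F), (∀ x ∈ M, g.1 *ᵥ x = x) →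
      finrank F (ι → F) ≤ finrank F M + n →
      g ∈ Subgroup.closure {g | g ∈ UL L hL ∧ ∃ v φ, φ ⬝ᵥ v = 0 ∧ g = tv v φ} := by
    intro n
    induction n with
    | zero =>
      intro g _ M hM hd
      rw [Submodule.eq_top_of_finrank_eq (le_antisymm M.finrank_le hd)] at hM
      rw [show g = 1 from sl_ext fun x => (hM x trivial).trans (one_mulVec x).symm]
      exact one_mem _
    | succ n ih =>
      intro g hg M hM hd
      by_cases hT : M = ⊤
      · exact ih g hg M hM (by rw [hT, finrank_top]; omega)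
      have hex : ∃ k, ¬ L k ≤ M := ⟨N, fun h => hT (top_unique (hN ▸ h))⟩
      obtain ⟨k, hk⟩ : ∃ k, Nat.find hex = k + 1 := Nat.exists_eq_succ_of_ne_zero fun h => by
        have := Nat.find_spec hex
        rw [h, h0] at this; exact this bot_le
      have h1 := Nat.find_spec hex
      have h2 : L k ≤ M := not_not.1 (Nat.find_min hex (by omega))
      rw [hk] at h1
      obtain ⟨x, hx, hxM⟩ := SetLike.not_le_iff_exists.1 h1
      obtain ⟨φ, hφ, hφx⟩ := exists_dot hxM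
      have hv := (hg k x hx).1
      have h3 := hφ _ (h2 hv)
      have h4 : ∀ ψ : ι → F, (∀ y ∈ M, ψ ⬝ᵥ y = 0) → ∀ i, ∀ y ∈ L (i + 1),
          (tv (g.1 *ᵥ x - x) ψ).1 *ᵥ y - y ∈ L i := fun ψ hψ i y hy => by
        rw [tv_mulVec (hψ _ (h2 hv)), add_sub_cancel_left]
        by_cases hi : k ≤ i
        · exact Submodule.smul_mem _ _ (hm hi hv)
        · rw [hψ y (h2 (hm (by omega) hy)), zero_smul]; exact zero_mem _
      have ht : tv (g.1 *ᵥ x - x) φ ∈ UL L hL := fun i y hy =>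
        ⟨h4 φ hφ i y hy, by rw [tv_inv h3]; exact h4 _ (fun y hy => by simp [hφ y hy]) i y hy⟩
      have h5 := ih _ (mul_mem (inv_mem ht) hg) (M ⊔ F ∙ x) (fun y hy => by
        obtain ⟨a, ha, _, hb, rfl⟩ := Submodule.mem_sup.1 hy
        obtain ⟨c, rfl⟩ := Submodule.mem_span_singleton.1 hb
        have : g.1 *ᵥ (a + c • x) = (tv (g.1 *ᵥ x - x) φ).1 *ᵥ (a + c • x) := by
          rw [tv_mulVec h3, mulVec_add, hM a ha, mulVec_smul, dotProduct_add, hφ a ha, dotProduct_smul, hφx]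
          module
        rw [sl_mul, this, sl_inv]) (by
          have := Submodule.finrank_lt_finrank_of_lt (lt_of_le_of_ne (le_sup_left : M ≤ M ⊔ F ∙ x) fun h =>
            hxM (h ▸ Submodule.mem_sup_right (Submodule.mem_span_singleton_self x)))
          omega)
      have h6 : tv (g.1 *ᵥ x - x) φ ∈ Subgroup.closure {g | g ∈ UL L hL ∧ ∃ v φ, φ ⬝ᵥ v = 0 ∧ g = tv v φ} :=
        Subgroup.subset_closure ⟨ht, _, _, h3, rfl⟩
      simpa using mul_mem h6 h5
  exact fun g hg => key _ g hg ⊥ (by simp) le_add_self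

/-- the upper Loewy series of a group of matrices -/
def loewy (Q : Subgroup (SpecialLinearGroup ι F)) : ℕ → Submodule F (ι → F)
  | 0 => ⊥
  | n + 1 =>
    { carrier := {x | ∀ g ∈ Q, g.1 *ᵥ x - x ∈ loewy Q n}
      add_mem' := fun ha hb g hg => by
        rw [mulVec_add, add_sub_add_comm]; exact add_mem (ha g hg) (hb g hg)
      zero_mem' := fun g _ => by simp
      smul_mem' := fun c x hx g hg => by
        rw [mulVec_smul, ← smul_sub]; exact Submodule.smul_mem _ _ (hx g hg) }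

theorem syl_le_closure_tv [Finite F] {Q : Subgroup (SpecialLinearGroup ι F)} (hQ : Syl p Q ⊤) :
    Q ≤ Subgroup.closure {g | g ∈ Q ∧ ∃ v φ, φ ⬝ᵥ v = 0 ∧ g = tv v φ} := by
  have hL : ∀ i, loewy Q i ≤ loewy Q (i + 1) := fun i => by
    induction i with
    | zero => exact bot_le
    | succ i ih => exact fun x hx g hg => ih (hx g hg)
  have h1 : ∀ i, loewy Q i = ⊤ ∨ i ≤ finrank F (loewy Q i) := fun i => by
    induction i with
    | zero => exact .inr (Nat.zero_le _)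
    | succ i ih =>
      by_cases h : loewy Q i = ⊤
      · exact .inl (top_unique (h ▸ hL i))
      obtain ⟨x, hx, h2⟩ := exists_fixed_quot SpecialLinearGroup.toLin' hQ.pgroup _ h fun g hg x hx => by
        rcases i with _ | i
        · rw [(Submodule.mem_bot F).1 hx, map_zero]; exact zero_mem _
        · change g.1 *ᵥ x ∈ _
          simpa using add_mem (hL i (hx g hg)) hx
      have := Submodule.finrank_lt_finrank_of_lt (lt_of_le_of_ne (hL i) fun e => hx (e ▸ h2))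
      have := ih.resolve_left h
      omega
  have hN : loewy Q (finrank F (ι → F)) = ⊤ := (h1 _).elim id fun h =>
    Submodule.eq_top_of_finrank_eq (le_antisymm (Submodule.finrank_le _) h)
  have h2 : Q ≤ UL _ hL := fun g hg i x hx => ⟨hx g hg, hx _ (inv_mem hg)⟩
  have h3 := le_antisymm h2 (hQ.2.2 _ h2 le_top (UL_pgroup hL rfl hN))
  have := UL_le_closure hL rfl hN
  rwa [← h3] at this

/-- the unipotent radical of the stabiliser of `U` -/
def RL (U : Submodule F (ι → F)) : Subgroup (SpecialLinearGroup ι F) where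
  carrier := {g | (∀ x ∈ U, g.1 *ᵥ x = x) ∧ ∀ x, g.1 *ᵥ x - x ∈ U}
  one_mem' := ⟨fun x _ => one_mulVec x, fun x => by
    rw [show (1 : SpecialLinearGroup ι F).1 *ᵥ x = x from one_mulVec x, sub_self]; exact zero_mem _⟩
  mul_mem' := fun {a b} ha hb => ⟨fun x hx => by rw [sl_mul, hb.1 x hx, ha.1 x hx], fun x => by
    rw [sl_mul]; simpa using add_mem (ha.2 (b.1 *ᵥ x)) (hb.2 x)⟩
  inv_mem' := fun {a} ha => ⟨fun x hx => by
      conv_lhs => rw [← ha.1 x hx]
      exact sl_inv a x, fun x => by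
    have := neg_mem (ha.2 ((a⁻¹).1 *ᵥ x))
    rwa [sl_inv', neg_sub] at this⟩

theorem RL_pgroup (U : Submodule F (ι → F)) : IsPGroup p (RL U) := by
  refine pgroup_iff.2 fun g hg => ⟨2, Subtype.ext (pow_eq_one_of_unip (F := F) (p := p) (A := g.1) ?_)⟩
  refine Matrix.ext_of_mulVec_single fun i => ?_
  rw [sq, ← mulVec_mulVec, sub_mulVec, sub_mulVec, one_mulVec, one_mulVec, hg.1 _ (hg.2 _), sub_self, zero_mulVec]

omit [Fact p.Prime] [CharP F p] in
theorem tv_mem_RL {U : Submodule F (ι → F)} {v φ : ι → F} (hv : v ∈ U) (hφ : ∀ y ∈ U, φ ⬝ᵥ y = 0) : tv v φ ∈ RL U :=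
  ⟨fun x hx => by rw [tv_mulVec (hφ v hv), hφ x hx, zero_smul, add_zero], fun x => by
    rw [tv_mulVec (hφ v hv), add_sub_cancel_left]; exact U.smul_mem _ hv⟩

omit [Fact p.Prime] [CharP F p] in
theorem mem_normalizer_RL [Finite F] {U : Submodule F (ι → F)} {g : SpecialLinearGroup ι F}
    (h : ∀ x ∈ U, g.1 *ᵥ x ∈ U) : g ∈ normalizer (RL U : Set (SpecialLinearGroup ι F)) := by
  have h1 : ∀ n : ℕ, ∀ x ∈ U, (g ^ n).1 *ᵥ x ∈ U := fun n => by
    induction n with
    | zero => intro x hx; rw [pow_zero]; exact (one_mulVec x).symm ▸ hx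
    | succ n ih => intro x hx; rw [pow_succ, sl_mul]; exact ih _ (h x hx)
  have h2 : ∀ x ∈ U, (g⁻¹).1 *ᵥ x ∈ U := by
    rw [inv_eq_of_mul_eq_one_right (a := g) (b := g ^ (orderOf g - 1)) (by
      rw [← pow_succ', Nat.sub_add_cancel (orderOf_pos g), pow_orderOf_eq_one])]
    exact h1 _
  refine mem_normalizer_of_conj fun r hr => ⟨fun x hx => by rw [sl_mul, sl_mul, hr.1 _ (h2 x hx), sl_inv'], fun x => ?_⟩
  have := h _ (hr.2 ((g⁻¹).1 *ᵥ x))
  rwa [mulVec_sub, sl_inv', ← sl_mul, ← sl_mul] at this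

theorem cen_RL {U : Submodule F (ι → F)} (h0 : U ≠ ⊥) (h1 : U ≠ ⊤) : Cen p ⊤ (RL U) := by
  intro x _ hx h
  have h2 : ∀ u ∈ U, ∀ φ, (∀ y ∈ U, φ ⬝ᵥ y = 0) → ∀ y, (φ ⬝ᵥ y) • x.1 *ᵥ u = (φ ⬝ᵥ x.1 *ᵥ y) • u := fun u hu φ hφ y => by
    have := congrArg (fun g : SpecialLinearGroup ι F => g.1 *ᵥ y) (h _ (tv_mem_RL hu hφ))
    simpa only [sl_mul, tv_mulVec (hφ u hu), mulVec_add, mulVec_smul, add_right_inj] using this
  obtain ⟨y, hy⟩ : ∃ y, y ∉ U := by
    by_contra h; push Not at h; exact h1 (eq_top_iff.2 fun y _ => h y)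
  obtain ⟨φ, hφ, hφy⟩ := exists_dot hy
  have h3 : ∀ u ∈ U, x.1 *ᵥ u = u := fun u hu => eig_one SpecialLinearGroup.toLin' hx (by
    have := h2 u hu φ hφ y
    rw [hφy, one_smul] at this
    exact Submodule.mem_span_singleton.2 ⟨_, this.symm⟩)
  refine ⟨h3, fun z => by_contra fun hz => ?_⟩
  obtain ⟨ψ, hψ, hψz⟩ := exists_dot hz
  obtain ⟨u, hu, hu0⟩ := (Submodule.ne_bot_iff U).1 h0
  have := h2 u hu ψ hψ z
  rw [h3 u hu] at this
  rw [dotProduct_sub, ← smul_left_injective F hu0 this, sub_self] at hψz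
  exact zero_ne_one hψz

omit [Fact p.Prime] [CharP F p] in
theorem eq_tv_of_mem_RL {e : ι → F} (he : e ≠ 0) {g : SpecialLinearGroup ι F} (hg : g ∈ RL (F ∙ e)) :
    ∃ φ, φ ⬝ᵥ e = 0 ∧ g = tv e φ := by
  choose c hc using fun i => Submodule.mem_span_singleton.1 (hg.2 (Pi.single i 1))
  have h : ∀ x, g.1 *ᵥ x = x + (c ⬝ᵥ x) • e := fun x => by
    conv_lhs => rw [pi_eq_sum_univ' x, mulVec_sum]
    simp only [mulVec_smul, ← add_eq_of_eq_sub (hc _), smul_add, Finset.sum_add_distrib, smul_smul]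
    rw [← pi_eq_sum_univ' x, ← Finset.sum_smul, add_comm, dotProduct_comm]; rfl
  have h1 : c ⬝ᵥ e = 0 := by
    have := h e
    rw [hg.1 e (Submodule.mem_span_singleton_self e)] at this
    simpa [he] using this
  exact ⟨c, h1, sl_ext fun x => by rw [h, tv_mulVec h1]⟩

theorem simple_SL [Finite F] {κ : Type*} [Fintype κ] [DecidableEq κ] (h2 : 2 ≤ Fintype.card κ) {G' : Type*} [Group G']
    (φ : SpecialLinearGroup (Unit ⊕ κ) F →* G') (hs : Function.Surjective φ)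
    (hk : ∀ x, φ x = 1 → x ∈ center (SpecialLinearGroup (Unit ⊕ κ) F)) (S' : Sylow p G') :
    (groupFusionSystem (S' : Subgroup G')).IsSimple p := by
  have : Nontrivial κ := Fintype.one_lt_card_iff_nontrivial.1 h2
  obtain ⟨j, j', hj⟩ := exists_pair_ne κ
  set e : Unit ⊕ κ → F := Pi.single (.inl ()) 1 with he
  set e₂ : Unit ⊕ κ → F := Pi.single (.inr j) 1 with he₂
  have he0 : e ≠ 0 := by simp [he]
  set U : Submodule F (Unit ⊕ κ → F) := (F ∙ e) ⊔ F ∙ e₂ with hU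
  have hUe : e ∈ U := Submodule.mem_sup_left (Submodule.mem_span_singleton_self e)
  have hUe₂ : e₂ ∈ U := Submodule.mem_sup_right (Submodule.mem_span_singleton_self e₂)
  have hU0 : U ≠ ⊥ := fun h => he0 (by rwa [h] at hUe)
  have hU1 : U ≠ ⊤ := fun h => by
    obtain ⟨_, h3, _, h4, h5⟩ := Submodule.mem_sup.1 (h ▸ trivial : Pi.single (.inr j') 1 ∈ U)
    obtain ⟨c, rfl⟩ := Submodule.mem_span_singleton.1 h3
    obtain ⟨d, rfl⟩ := Submodule.mem_span_singleton.1 h4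
    simpa [he, he₂, hj] using congrFun h5 (.inr j')
  have hE0 : (F ∙ e) ≠ ⊥ := by simpa using he0
  have hE1 : (F ∙ e) ≠ ⊤ := fun h => hU1 (top_unique (h ▸ le_sup_left))
  have hnX : ∀ g : SpecialLinearGroup (Unit ⊕ κ) F, g.1 *ᵥ e ∈ F ∙ e →
      g ∈ normalizer (RL (F ∙ e) : Set (SpecialLinearGroup (Unit ⊕ κ) F)) := fun g h => mem_normalizer_RL fun x hx => by
    obtain ⟨c, rfl⟩ := Submodule.mem_span_singleton.1 hx
    rw [mulVec_smul]; exact Submodule.smul_mem _ _ h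
  obtain ⟨Q, hQ1, hQ⟩ := exists_syl_ge (p := p) (L := RL (F ∙ e) ⊔ RL U) le_top
    (pgroup_sup (RL_pgroup _) (RL_pgroup U) fun g hg => mem_normalizer_RL fun x hx => by
      simpa using add_mem ((le_sup_left : (F ∙ e) ≤ U) (hg.2 x)) hx)
  have hX : RL (F ∙ e) ≤ Q := le_sup_left.trans hQ1
  have hR : RL U ≤ Q := le_sup_right.trans hQ1
  have htX : ∀ ψ, ψ ⬝ᵥ e = 0 → tv e ψ ∈ RL (F ∙ e) := fun ψ h =>
    tv_mem_RL (Submodule.mem_span_singleton_self e) fun y hy => by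
      obtain ⟨c, rfl⟩ := Submodule.mem_span_singleton.1 hy
      simp [h]
  have hfix : ∀ x, (∀ k ∈ RL (F ∙ e), k.1 *ᵥ x = x) → x ∈ F ∙ e := fun x h => by_contra fun hx => by
    obtain ⟨ψ, h1, h2⟩ := exists_dot hx
    have h3 := h1 e (Submodule.mem_span_singleton_self e)
    have := h _ (htX ψ h3)
    rw [tv_mulVec h3, h2, one_smul] at this
    exact he0 (by simpa using this)
  have hQe : ∀ g ∈ Q, g.1 *ᵥ e = e := by
    obtain ⟨x, -, hx0, hx⟩ := exists_fixed_vec SpecialLinearGroup.toLin' hQ.pgroup ⊤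
      (fun h => he0 (by have : e ∈ (⊤ : Submodule F _) := trivial; rwa [h] at this)) (fun _ _ _ _ => trivial)
    obtain ⟨c, rfl⟩ := Submodule.mem_span_singleton.1 (hfix x fun k hk => hx k (hX hk))
    intro g hg
    have : g.1 *ᵥ (c • e) = c • e := hx g hg
    rw [mulVec_smul] at this
    exact smul_right_injective _ (left_ne_zero_of_smul hx0) this
  have ptv : ∀ v ψ : Unit ⊕ κ → F, PElt p (tv v ψ) := fun v ψ => ⟨1, by rw [pow_one, tv_pow_char]⟩
  refine simple_of_gd (φ.comp (⊤ : Subgroup _).subtype) (fun y => (hs y).imp' (fun x => ⟨x, trivial⟩) fun _ h => h)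
    (fun x hx => ⟨?_, fun y _ => (mem_center_iff.1 (hk x hx) y).symm⟩) hQ (fun h => ?_) (fun T hT h1 => ?_)
    (fun g _ hn => ?_) S'
  · have h1 := Subgroup.orderOf_dvd_natCard _ (hk x hx)
    rw [H10.card_center_SL] at h1
    refine Nat.Coprime.coprime_dvd_left (h1.trans (Nat.gcd_dvd_right _ _)) ?_
    have := Fintype.ofFinite F
    obtain ⟨n, -, hn⟩ := FiniteField.card F p
    rw [Nat.card_eq_fintype_card, hn, Nat.coprime_comm, (Fact.out : p.Prime).coprime_iff_not_dvd]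
    intro h
    have := (Nat.dvd_sub_iff_right (Nat.one_le_pow _ _ (Fact.out : p.Prime).pos) (dvd_pow_self p n.ne_zero)).1 h
    exact (Fact.out : p.Prime).one_lt.ne' (Nat.dvd_one.1 this)
  · have h1 : e₂ ⬝ᵥ e = 0 := by simp [he, he₂]
    have h3 := congrArg (fun g : SpecialLinearGroup (Unit ⊕ κ) F => g.1 *ᵥ e₂) (mem_bot.1 (h ▸ hX (htX e₂ h1)))
    simp only [tv_mulVec h1] at h3
    exact he0 (by simpa [he₂] using h3.trans (one_mulVec e₂))
  · obtain ⟨x, hx, hx', hx1⟩ := hT.exists_mem le_top hQ.pgroup h1 (cen_RL hE0 hE1) hX fun g hg =>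
      hnX g (by rw [hQe g hg]; exact Submodule.mem_span_singleton_self e)
    obtain ⟨ψ, hψ, rfl⟩ := eq_tv_of_mem_RL he0 hx'
    refine (syl_le_closure_tv hQ).trans ((Subgroup.closure_le T).2 ?_)
    rintro _ ⟨h3, v, χ, h4, rfl⟩
    by_cases hv : v = 0
    · rw [hv, tv_zero_left]; exact one_mem _
    by_cases hχ : χ = 0
    · rw [hχ, tv_zero_right]; exact one_mem _
    obtain ⟨g, hg⟩ := exists_SL_flag (by simp; omega) he0 (by rintro rfl; exact hx1 (tv_zero_right e)) hψ hv hχ h4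
    exact hg ▸ hT.2 _ hx g trivial (hg ▸ h3)
  · have hge : g.1 *ᵥ e ∈ F ∙ e := hfix _ fun k hk => by
      have := hQe _ (conj_mem_of_mem_normalizer' hn (hX hk))
      rw [sl_mul, sl_mul] at this
      have h2 := congrArg (g.1 *ᵥ ·) this
      simpa only [sl_inv'] using h2
    obtain ⟨c, hc⟩ := Submodule.mem_span_singleton.1 hge
    have hc0 : c ≠ 0 := by
      rintro rfl
      have := sl_inv g e
      rw [← hc, zero_smul, mulVec_zero] at this
      exact he0 this.symm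
    have hij : (Sum.inl () : Unit ⊕ κ) ≠ Sum.inr j := by simp
    have hd : (SpecialLinearGroup.diag2n hij c hc0).1 *ᵥ e = c • e := by
      rw [SpecialLinearGroup.diag2n_coe, he, diagonal_mulVec_single, ← Pi.single_smul]; simp
    obtain ⟨a, x, hx⟩ := exists_eq_qS_mul_emb ((SpecialLinearGroup.diag2n hij c hc0)⁻¹ * g) (by
      rw [sl_mul, ← he, ← hc, ← hd, sl_inv])
    have pR : ∀ v ∈ U, ∀ ψ, ψ ⬝ᵥ v = 0 → tv v ψ ∈ GdN p ⊤ Q _ hR := fun v hv ψ h =>
      pelt_mem_GdN hR trivial (mem_normalizer_RL fun x hx => by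
        rw [tv_mulVec h]; exact add_mem hx (U.smul_mem _ hv)) (ptv _ _)
    have h1 : SpecialLinearGroup.diag2n hij c hc0 ∈ GdN p ⊤ Q _ hR := by
      have t1 : ∀ b : F, SpecialLinearGroup.transvection hij b ∈ GdN p ⊤ Q _ hR := fun b => by
        rw [LinG.transvection_eq_tv]; exact pR _ hUe _ (by simp [he])
      have t2 : ∀ b : F, SpecialLinearGroup.transvection hij.symm b ∈ GdN p ⊤ Q _ hR := fun b => by
        rw [LinG.transvection_eq_tv]; exact pR _ hUe₂ _ (by simp [he₂])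
      rw [H10.diag2n_decompose]
      exact mul_mem (mul_mem (mul_mem (mul_mem (mul_mem (t1 _) (t2 _)) (t1 _)) (t1 _)) (t2 _)) (t1 _)
    have h2 := hnX _ (hd ▸ Submodule.smul_mem _ c (Submodule.mem_span_singleton_self e))
    have h3 : SpecialLinearGroup.diag2n hij c hc0 ∈ GdN p ⊤ Q _ hX :=
      ⟨h2, Gd.move (cen_RL hU0 hU1) hX h2 h1.1 h1.2⟩
    have pX : ∀ v ψ, ψ ⬝ᵥ v = 0 → ψ ⬝ᵥ e = 0 → tv v ψ ∈ GdN p ⊤ Q _ hX := fun v ψ h h' =>
      pelt_mem_GdN hX trivial (hnX _ (by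
        rw [tv_mulVec h, h', zero_smul, add_zero]; exact Submodule.mem_span_singleton_self e)) (ptv _ _)
    have h4 : qS a ∈ GdN p ⊤ Q _ hX := by
      rw [qS_eq_tv]; exact pX _ _ (by simp) (by simp [he])
    have h5 : emb (SpecialLinearGroup.toGL x) ∈ GdN p ⊤ Q _ hX := by
      refine H10.SL_transvection_induction (fun x => emb (SpecialLinearGroup.toGL x) ∈ GdN p ⊤ Q _ hX)
        (fun i k h b => ?_) (fun A B h h' => by simpa only [map_mul] using mul_mem h h') x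
      have h6 : (Pi.single k b : κ → F) ⬝ᵥ Pi.single i 1 = 0 := by simp [h.symm]
      rw [LinG.transvection_eq_tv, emb_tv h6]
      exact pX _ _ (by rw [sumElim_dotProduct_sumElim, h6]; simp) (by simp [he])
    have h6 := mul_mem h3 (mul_mem h5 h4)
    rw [← hx, mul_inv_cancel_left] at h6
    exact Gd.up (cen_RL hE0 hE1) hX le_rfl (fun x hx => conj_mem_of_mem_normalizer hn hx) h6.2

end H23.FS
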