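import Cfsg.Agent.H23.G2m

/-! Two-generation of the orthogonal groups `Ω` (`orth_gen_minus`, `orth_gen_plus`, `orth_gen_odd`).
-/

set_option autoImplicit false

namespace H23.G2
open H11 H11.PForm Module

variable {F : Type*} [Field F] [Finite F] {V W : Type*} [AddCommGroup V] [Module F V] [AddCommGroup W] [Module F W]
  [FiniteDimensional F V] [FiniteDimensional F W]

theorem orth_gen {S : PForm (orthP F) V} {T : PForm (orthP F) W} (hS : S.Nondeg) (h5 : 5 ≤ finrank F V) {e f : V} (H : S.IsHyp e f)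
    (hT : T.Nondeg) (hE : Eqv T (S.restrict (S.perp (Submodule.span F {e, f})))) {γ ν : T.Isom} (h1 : hT.dick γ = 1) (h3 : hT.dick ν = -1)
    {c : Fˣ} (h2 : sqSign (c : F) = hT.spin γ) (h : Good2 T γ ν c) :
    ∃ a b : commutator S.Isom, Subgroup.closure ({a, b} : Set (commutator S.Isom)) = ⊤ := by
  obtain ⟨ι, hι⟩ := hE
  obtain ⟨d, hd⟩ := hT.exists_sqSign_eq_spin ν
  obtain ⟨y, hy, hK⟩ := core_cl hS (Or.inr (by omega)) H (-d) (h.congr ι hι) fun a ha =>
    ⟨0, zero_mem _, 0, zero_mem _, by simpa [eq_comm, orthP] using ha⟩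
  rw [hS.orth_commutator_eq_E (Or.inr (Or.inl (by omega))) (by omega)]
  refine gen2_sub ((hS.mem_E_iff (by omega) H _).2 ?_) (mul_mem hy ((hS.mem_E_iff (by omega) H _).2 ?_)) fun K _ => hK K
  · simp [hS.dick_tor, hS.spin_tor, hS.dick_ext2, hS.spin_ext2, hT.dick_isomCongr, hT.spin_isomCongr, h1, h2]
  · simp [hS.dick_swp, hS.spin_swp, hS.dick_ext2, hS.spin_ext2, hT.dick_isomCongr, hT.spin_isomCongr, h3, hd]

omit [FiniteDimensional F V] in
theorem pow_apply {σ : F →+* F} {P : FParam σ} {L : Type*} [Field L] [Algebra F L] {T : PForm P L} {g : T.Isom} {γ : L}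
    (h : ∀ x, g.1 x = γ * x) (m : ℕ) (x : L) : (g ^ m).1 x = γ ^ m * x := by
  induction m with
  | zero => simp
  | succ m ih => rw [pow_succ', isom_mul_apply, ih, h, pow_succ', mul_assoc]

theorem not_hasTS {L : Type*} [Field L] [Algebra F L] [Finite L] {T : PForm (orthP F) L} (hT : T.Nondeg) {k : ℕ} (hk : k ≠ 0)
    (h2 : finrank F L = 2 * k) {g : T.Isom} {γ : Lˣ} (h : ∀ x, g.1 x = γ * x) (hγ : orderOf γ = Nat.card F ^ k + 1) : ¬ T.HasTS k := fun t => by
  have h3 : orderOf g = orderOf γ := orderOf_eq_orderOf_iff.2 fun n => ⟨fun e => Units.ext (by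
    simpa [e] using (pow_apply h n 1).symm), fun e => isom_ext fun x => by rw [pow_apply h, ← Units.val_pow_eq_pow_val, e]; simp⟩
  let _ : MulAction (Subgroup.zpowers g) {x // T.q x = 1} :=
    { smul k x := ⟨k.1.1 x.1, by simpa using x.2⟩, one_smul _ := rfl, mul_smul _ _ _ := rfl }
  have h5 := Nat.card_congr (MulAction.selfEquivOrbitsQuotientProd (G := Subgroup.zpowers g) (X := {x // T.q x = 1}) fun x =>
    (Subgroup.eq_bot_iff_forall _).2 fun k hk => by
      have := finite_isom (S := T)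
      obtain ⟨k, m, rfl⟩ := k
      obtain ⟨m, hm⟩ := (mem_powers_iff_mem_zpowers).2 (Subgroup.zpow_mem_zpowers g m)
      have e : (γ : L) ^ m * x = x := (pow_apply h m _).symm.trans ((congrArg (·.1 x.1) hm).trans (congrArg Subtype.val hk))
      have x0 : x.1 ≠ 0 := fun e => by simpa [e, orth_q_zero] using x.2
      refine Subtype.ext (hm.symm.trans (isom_ext fun z => ?_))
      rw [pow_apply h, (mul_eq_right₀ x0).1 e]; simp)
  have h6 := orth_cnt_even 1 _ hT h2
  rw [orth_cnt_def, h5, Nat.card_prod, Nat.card_zpowers, h3, hγ, if_pos t, if_neg one_ne_zero] at h6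
  generalize Nat.card (Quotient _) = j at h6
  have q1 := Nat.one_lt_pow hk (Finite.one_lt_card (α := F))
  rw [two_mul, pow_add, ← Nat.cast_pow] at h6
  have h7 : ((Nat.card F ^ k + 1 : ℕ) : ℤ) ∣ ((Nat.card F ^ k : ℕ) - 1) * (Nat.card F ^ k : ℕ) := ⟨Nat.card F * j, by
    push_cast at h6 ⊢; linear_combination -h6⟩
  have := Int.le_of_dvd (by omega) (IsCoprime.dvd_of_dvd_mul_right ⟨1, -1, by push_cast; ring⟩ h7)
  omega

theorem map_pow_card {L : Type*} [Field L] [Algebra F L] (c : F) (k : ℕ) : algebraMap F L c ^ Nat.card F ^ k = algebraMap F L c := by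
  have := Fintype.ofFinite F
  rw [← map_pow, Nat.card_eq_fintype_card, FiniteField.pow_card_pow]

theorem minus_model (F : Type*) [Field F] [Finite F] {k : ℕ} (hk : k ≠ 0) :
    ∃ (L : Type) (_ : Field L) (_ : Algebra F L) (_ : Finite L) (T : PForm (orthP F) L) (hT : T.Nondeg) (γ : Lˣ) (g ν : T.Isom),
      finrank F L = 2 * k ∧ Nat.card L = (Nat.card F ^ k) ^ 2 ∧ ¬ T.HasTS k ∧ orderOf γ = Nat.card F ^ k + 1 ∧ (∀ x, g.1 x = γ * x) ∧
      (∀ x, (ν * g * ν⁻¹).1 x = γ ^ Nat.card F * x) ∧ hT.dick g = 1 ∧ hT.dick ν = -1 ∧ ((2 : F) ≠ 0 → hT.spin g = -1) := by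
  obtain ⟨L, _, _, _, τ, h1, h2, h3, h4, h5⟩ := exists_ext F (m := 2 * k) (N := Nat.card F ^ k) (by omega) (by ring)
  obtain ⟨T, hT, h6, h7⟩ := model (orthP F) rfl (τ := τ) (fun a => by rw [h3, map_pow_card]; rfl) h4 h5
  obtain ⟨β, hβ, -⟩ := exists_prim L
  have hγ := exists_ord h2 hβ
  have q1 := Nat.one_lt_pow hk (Finite.one_lt_card (α := F))
  generalize hN : Nat.card F ^ k = N at *
  obtain ⟨g, hg⟩ := h6 (β ^ (N - 1) : Lˣ) (by rw [h3, ← pow_succ, ← Units.val_pow_eq_pow_val, ← hγ, pow_orderOf_eq_one, Units.val_one])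
  have := Fintype.ofFinite F
  obtain ⟨ν, hν⟩ := h7 (FiniteField.frobeniusAlgEquivOfAlgebraic F L) fun x => by
    simp [FiniteField.coe_frobeniusAlgEquivOfAlgebraic]
  simp only [FiniteField.coe_frobeniusAlgEquivOfAlgebraic, ← Nat.card_eq_fintype_card] at hν
  have ne : ∀ i, 0 < i → i ≤ 2 → ((β ^ (N - 1) : Lˣ) : L) ^ i ≠ 1 := fun i h0 h2 e => by
    rw [← Units.val_pow_eq_pow_val, Units.val_eq_one, ← orderOf_dvd_iff_pow_eq_one, hγ] at e
    have := Nat.le_of_dvd h0 e; omega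
  refine ⟨L, _, _, ‹_›, T, hT, _, g, ν, h1, h2, not_hasTS hT hk h1 hg (hN ▸ hγ), hγ, hg, fun x => ?_, ?_, ?_, fun two => ?_⟩
  · rw [isom_mul_apply, isom_mul_apply, hg, hν, mul_pow, ← hν ((ν⁻¹).1 x), isom_apply_inv_self]
  · have : fixSp g = ⊥ := (Submodule.eq_bot_iff _).2 fun x hx => by
      rw [mem_fixSp, hg] at hx
      by_contra h; exact ne 1 one_pos one_le_two (by rw [pow_one, (mul_eq_right₀ h).1 hx])
    rw [hT.dick_eq_of_codim (k := 2 * k) (by rw [this, finrank_bot, zero_add, h1]), pow_mul]; simp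
  · have : fixSp ν = F ∙ (1 : L) := Submodule.ext fun x => by
      rw [mem_fixSp, hν, fix_iff_mem_range, Submodule.mem_span_singleton]; simp [Algebra.smul_def]
    rw [hT.dick_eq_of_codim (k := 2 * (k - 1) + 1) (by rw [this, finrank_span_singleton one_ne_zero, h1]; omega), pow_succ, pow_mul]; simp
  · have two' : (2 : L) ≠ 0 := by simpa [map_ofNat] using (map_ne_zero (algebraMap F L)).2 two
    have n1 : ((β ^ (N - 1) : Lˣ) : L) + 1 ≠ 0 := fun e => ne 2 two_pos le_rfl (by rw [eq_neg_of_add_eq_zero_left e]; simp)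
    have e1 : iE g + 1 = Algebra.lmul F L (((β ^ (N - 1) : Lˣ) : L) + 1) := LinearMap.ext fun x => by
      change g.1 x + x = _; simp [hg, add_mul]
    have u1 : IsUnit (iE g + 1) := by
      rw [e1]; exact (LinearMap.isUnit_iff_ker_eq_bot _).2 (LinearMap.ker_eq_bot.2 (mul_right_injective₀ n1))
    rw [hT.spin_eq_det two u1, e1, ← map_smul, ← Algebra.norm_apply, sqSign_eq_neg_one_iff]
    rintro ⟨r, hr⟩
    have e2 := congrArg (algebraMap F L) hr
    rw [FiniteField.algebraMap_norm_eq_pow, map_mul] at e2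
    have hq : Odd (Nat.card F) := by rw [Nat.card_eq_fintype_card]; exact two_ne_zero_iff_odd.1 two
    obtain ⟨s, hs⟩ := hq
    obtain ⟨t, ht⟩ : Odd N := hN ▸ Odd.pow ⟨s, hs⟩
    obtain ⟨M, hM⟩ : Nat.card F - 1 ∣ Nat.card L - 1 := by rw [h2, ← hN, ← pow_mul]; exact Nat.sub_one_dvd_pow_sub_one _ _
    have s0 : 0 < s := by have := Finite.one_lt_card (α := F); omega
    have hM2 : s * M = 2 * t * (t + 1) := by
      rw [h2, ht, hs, show (2 * t + 1) ^ 2 - 1 = 2 * (2 * t * (t + 1)) from Nat.sub_eq_of_eq_add (by ring), Nat.add_sub_cancel, mul_assoc 2 s] at hM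
      omega
    rw [hM, Nat.mul_div_cancel_left _ (by omega)] at e2
    set z : L := (2 : F)⁻¹ • (((β ^ (N - 1) : Lˣ) : L) + 1) with hz
    have z0 : z ≠ 0 := smul_ne_zero (inv_ne_zero two) n1
    have r0 : algebraMap F L r ≠ 0 := fun e => pow_ne_zero M z0 (by rw [e2, e, zero_mul])
    have e3 : z ^ (M * s) = 1 := by
      have := map_pow_card (L := L) r 1
      rw [pow_one, hs, pow_succ, mul_eq_right₀ r0] at this
      rw [pow_mul, e2, ← sq, ← pow_mul, this]
    have e4 : (z * β) ^ (2 * t) = 1 := by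
      have b1 : ((β ^ (N - 1) : Lˣ) : L) * β = τ β := by rw [h3, Units.val_pow_eq_pow_val, ← pow_succ, Nat.sub_add_cancel q1.le]
      have b2 : τ (z * β) = z * β := by
        rw [hz, smul_mul_assoc, add_mul, b1, Algebra.smul_def, map_mul, h3, ← hN, map_pow_card, map_add, h4, one_mul, add_comm]
      rw [h3, ht, pow_succ, mul_eq_right₀ (mul_ne_zero z0 β.ne_zero)] at b2
      exact b2
    have e5 : β ^ (2 * t * (t + 1)) = 1 := Units.ext (by
      have := congrArg (· ^ (t + 1)) e4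
      simp only [← pow_mul, mul_pow, one_pow] at this
      rwa [← hM2, mul_comm s, e3, one_mul, mul_comm M, hM2] at this)
    rw [← orderOf_dvd_iff_pow_eq_one, hβ, hM, hs, Nat.add_sub_cancel, mul_assoc, hM2] at e5
    have := Nat.le_of_dvd (by have : 0 < t := by omega
                              positivity) e5
    have : 0 < t * (t + 1) := by have : 0 < t := by omega
                                 positivity
    nlinarith

theorem ne_one_of {L : Type*} [Field L] {N : ℕ} (hN : 2 ≤ N) {c γ : Lˣ} (hγ : orderOf γ = N + 1) (hc : c ^ N = c) {i : ℕ} (hi : i.Coprime (N + 1)) :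
    ((c : L) * γ ^ i) ≠ 1 := fun e => by
  have e : c * γ ^ i = 1 := Units.ext (by simpa using e)
  have e1 : γ ^ i = c⁻¹ := eq_inv_of_mul_eq_one_right e
  have e2 : (γ ^ i) ^ (N - 1) = 1 := by
    apply mul_right_cancel (b := γ ^ i); rw [← pow_succ, Nat.sub_add_cancel (by omega), e1, inv_pow, hc, one_mul]
  rw [← pow_mul, ← orderOf_dvd_iff_pow_eq_one, hγ] at e2
  have := Nat.le_of_dvd (by omega) (hi.symm.dvd_of_dvd_mul_left e2)
  omega

theorem cop {q k : ℕ} (hk : k ≠ 0) : q.Coprime (q ^ k + 1) := by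
  obtain ⟨k, rfl⟩ := Nat.exists_eq_succ_of_ne_zero hk
  rw [pow_succ, Nat.coprime_mul_right_add_right]; simp

theorem umap_pow {L : Type*} [Field L] [Algebra F L] (c : Fˣ) (k : ℕ) :
    Units.map (algebraMap F L : F →* L) c ^ Nat.card F ^ k = Units.map (algebraMap F L : F →* L) c := Units.ext (map_pow_card (c : F) k)

theorem orth_gen_minus {S : PForm (orthP F) V} (hS : S.Nondeg) {k : ℕ} (hk : 2 ≤ k) (hV : finrank F V = 2 * (k + 1)) (h : ¬ S.HasTS (k + 1)) :
    ∃ a b : commutator S.Isom, Subgroup.closure ({a, b} : Set (commutator S.Isom)) = ⊤ := by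
  obtain ⟨e, f, H⟩ := hS.orth_exists_hyp (by omega)
  obtain ⟨L, _, _, _, T, hT, γ, g, ν, h1, h2, h3, h4, h5, h6, h7, h8, -⟩ := minus_model F (k := k) (by omega)
  obtain ⟨c, hc⟩ := hT.exists_sqSign_eq_spin g
  have q1 := Nat.one_lt_pow (show k ≠ 0 by omega) (Finite.one_lt_card (α := F))
  refine orth_gen hS (by omega) H hT (orth_eqv_even k hT (hS.restrict_perp H.nondeg) h1 (by have := H.finrank_perp; omega)
    (iff_of_false h3 (mt (H.hasTS_iff hS k).2 h))) h7 h8 hc ⟨isom_ext fun x => ?_, 1, fun A a1 a2 => ?_⟩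
  · rw [isom_mul_apply, isom_mul_apply _ g, h5, h6, h6, h5, mul_left_comm]
  · refine top_of_gen (gen_orth h2 q1 h4 (umap_pow c k)) (mul_ne_zero (sub_ne_zero.2 (ne_one_of q1 h4 (umap_pow c k) (i := 1) (by simp)))
      (sub_ne_zero.2 (ne_one_of q1 h4 (umap_pow c⁻¹ k) (cop (by omega))))) (fun x hx => ?_) ?_
    · simpa [h5, Algebra.smul_def, mul_assoc] using a1 x hx
    · convert neg_mem a2 using 1
      rw [h6]; simp [h5, Algebra.smul_def]; ring

theorem dick_prodI {V' : Type*} [AddCommGroup V'] [Module F V'] [FiniteDimensional F V'] {T : PForm (orthP F) W} {R : PForm (orthP F) V'}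
    (hT : T.Nondeg) (hR : R.Nondeg) (a : T.Isom) (b : R.Isom) : (hT.prod hR).dick (prodI T R (a, b)) = hT.dick a * hR.dick b ∧
      (hT.prod hR).spin (prodI T R (a, b)) = hT.spin a * hR.spin b := by
  obtain ⟨φ, h1, h2, h3⟩ := (oSum_prod T R).exists_hom hT hR
  rw [show prodI T R (a, b) = φ (a, b) from isom_ext fun x => by simpa using (h1 (a, b) x.1 x.2).symm]
  exact ⟨h2 _, h3 _⟩

theorem orth_gen_plus {S : PForm (orthP F) V} (hS : S.Nondeg) {k : ℕ} (hk : 2 ≤ k) (hV : finrank F V = 2 * (1 + k + 1)) (h : S.HasTS (1 + k + 1)) :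
    ∃ a b : commutator S.Isom, Subgroup.closure ({a, b} : Set (commutator S.Isom)) = ⊤ := by
  obtain ⟨e, f, H⟩ := hS.orth_exists_hyp (by omega)
  obtain ⟨L, _, _, _, T, hT, γ, g, ν, h1, h2, h3, h4, h5, h6, h7, h8, -⟩ := minus_model F (k := 1) (by omega)
  obtain ⟨L', _, _, _, T', hT', γ', g', -, k1, k2, k3, k4, k5, -, k7, -, -⟩ := minus_model F (k := k) (by omega)
  obtain ⟨c, hc⟩ := (hT.prod hT').exists_sqSign_eq_spin (prodI T T' (g, g'))
  have q1 := Nat.one_lt_pow (show k ≠ 0 by omega) (Finite.one_lt_card (α := F))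
  have q2 := Nat.one_lt_pow one_ne_zero (Finite.one_lt_card (α := F))
  have e1 : prodI T T' (ν, 1) * prodI T T' (g, g') * (prodI T T' (ν, 1))⁻¹ = prodI T T' (ν * g * ν⁻¹, g') := by
    rw [← map_inv, ← map_mul, ← map_mul]; simp
  refine orth_gen hS (by omega) H (hT.prod hT') (orth_eqv_even (1 + k) (hT.prod hT') (hS.restrict_perp H.nondeg)
    (by rw [finrank_prod, h1, k1]; ring) (by have := H.finrank_perp; omega)
    (iff_of_true ((hasTS_prod hT hT' h1 k1).2 (iff_of_false h3 k3)) ((H.hasTS_iff hS _).1 h))) (ν := prodI T T' (ν, 1))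
    (by rw [(dick_prodI hT hT' _ _).1, h7, k7, one_mul]) (by rw [(dick_prodI hT hT' _ _).1, h8, map_one, mul_one]) hc
    ⟨isom_ext fun x => ?_, (1, 1), fun A a1 a2 => ?_⟩
  · rw [e1, isom_mul_apply, isom_mul_apply _ (prodI T T' (g, g'))]; simp only [prodI_apply, h5, h6, mul_left_comm]
  · refine sep_top (gen_orth h2 q2 h4 (umap_pow c 1)) (gen_orth k2 q1 k4 (umap_pow c k))
      (mul_ne_zero (sub_ne_zero.2 (ne_one_of q2 h4 (umap_pow c 1) (i := 1) (by simp)))
      (sub_ne_zero.2 (ne_one_of q2 h4 (umap_pow c⁻¹ 1) (cop (by omega)))))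
      (mul_ne_zero (sub_ne_zero.2 (ne_one_of q1 k4 (umap_pow c k) (i := 1) (by simp)))
      (sub_ne_zero.2 (ne_one_of q1 k4 (umap_pow c⁻¹ k) (i := 1) (by simp)))) (M := Nat.card F ^ 2) ?_ (fun e => ?_) (fun x hx => ?_) ?_
    · have := Fintype.ofFinite L
      rw [pow_one] at h2; rw [← h2, Nat.card_eq_fintype_card, FiniteField.pow_card]
    · rw [← Units.val_pow_eq_pow_val, Units.val_inj, mul_pow, umap_pow, mul_right_inj] at e
      have := pow_pred (Nat.one_le_pow _ _ Nat.card_pos) e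
      rw [← orderOf_dvd_iff_pow_eq_one, k4] at this
      have := Nat.le_of_dvd (by have := Nat.one_lt_pow two_ne_zero (Finite.one_lt_card (α := F)); omega) this
      have := Nat.pow_le_pow_right (Nat.card_pos (α := F)) hk
      omega
    · simpa [h5, k5, Algebra.smul_def, mul_assoc] using a1 x hx
    · convert neg_mem a2 using 1
      rw [e1]
      generalize ν * g * ν⁻¹ = κ at h6
      ext <;> simp [h5, h6, k5, Algebra.smul_def] <;> ring

theorem orth_gen_odd {S : PForm (orthP F) V} (hS : S.Nondeg) {k : ℕ} (hk : 1 ≤ k) (hV : finrank F V = 2 * (k + 1) + 1) :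
    ∃ a b : commutator S.Isom, Subgroup.closure ({a, b} : Set (commutator S.Isom)) = ⊤ := by
  have two := hS.two_ne_zero_of_odd (hV ▸ odd_two_mul_add_one _)
  obtain ⟨e, f, H⟩ := hS.orth_exists_hyp (by omega)
  obtain ⟨L', _, _, _, T', hT', γ', g', -, k1, k2, k3, k4, k5, -, k7, -, k8⟩ := minus_model F (k := k) (by omega)
  obtain ⟨d, d0, hd⟩ : ∃ d : F, d ≠ 0 ∧ sqSign d = (hS.restrict_perp H.nondeg).disc * hT'.disc := by
    rcases Int.units_eq_one_or ((hS.restrict_perp H.nondeg).disc * hT'.disc) with h | h <;> rw [h]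
    · exact ⟨1, one_ne_zero, sqSign_one⟩
    · obtain ⟨a, a0, ha⟩ := exists_not_isSquare two; exact ⟨a, a0, sqSign_eq_neg_one_iff.2 ha⟩
  let T : PForm (orthP F) F := orthS (d • QuadraticMap.sq)
  have hT : T.Nondeg := fun x h => by
    have := h 1
    simp only [T, orthS_h, QuadraticMap.polar, smul_apply, QuadraticMap.sq_apply, smul_eq_mul] at this
    exact (mul_eq_zero.1 (show (2 * d) * x = 0 by linear_combination this)).resolve_left (mul_ne_zero two d0)
  have dT : hT.disc = sqSign d := by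
    simpa [T] using (hT.disc_eq_prod two (Basis.singleton Unit F) (by simp)).2
  obtain ⟨c, hc, hc'⟩ := exists_prim F
  have q1 := Nat.one_lt_pow (show k ≠ 0 by omega) (Finite.one_lt_card (α := F))
  have ns : ¬ IsSquare (c : F) := fun hs => by
    obtain ⟨a, a0, ha⟩ := exists_not_isSquare two
    obtain ⟨i, hi⟩ := hc' (Units.mk0 a a0)
    exact ha (by simpa [← Units.val_pow_eq_pow_val, hi] using hs.pow i)
  have c1 : (c : F) ≠ 1 := fun e => ns (e ▸ IsSquare.one)
  have e1 : prodI T T' (T.negOne, 1) * prodI T T' (1, g') * (prodI T T' (T.negOne, 1))⁻¹ = prodI T T' (1, g') := by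
    rw [← map_inv, ← map_mul, ← map_mul]; simp
  refine orth_gen hS (by omega) H (hT.prod hT') (orth_eqv_of_disc two (2 * k + 1) (hT.prod hT') (hS.restrict_perp H.nondeg)
    (by rw [finrank_prod, k1, finrank_self]; ring) (by have := H.finrank_perp; omega)
    (by rw [(oSum_prod T T').disc_eq hT hT', dT, hd, mul_assoc, Int.units_mul_self, mul_one])) (γ := prodI T T' (1, g'))
    (ν := prodI T T' (T.negOne, 1)) (c := c)
    (by rw [(dick_prodI hT hT' _ _).1, map_one, k7, one_mul]) (by rw [(dick_prodI hT hT' _ _).1, hT.dick_negOne two, map_one]; simp)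
    (by rw [(dick_prodI hT hT' _ _).2, map_one, k8 two, one_mul, sqSign_eq_neg_one_iff.2 ns]) ⟨by rw [e1], (1, 1), fun A a1 a2 => ?_⟩
  refine sep_top (a := (c : F)) (by simpa using gen_pow hc (m := 1) (by simp)) (gen_orth k2 q1 k4 (umap_pow c k))
      (mul_ne_zero (sub_ne_zero.2 c1) (sub_ne_zero.2 (inv_ne_one.2 c1)))
      (mul_ne_zero (sub_ne_zero.2 (ne_one_of q1 k4 (umap_pow c k) (i := 1) (by simp)))
      (sub_ne_zero.2 (ne_one_of q1 k4 (umap_pow c⁻¹ k) (i := 1) (by simp)))) (M := Nat.card F ^ 1) (map_pow_card (L := F) _ 1) (fun e => ?_)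
      (fun x hx => ?_) ?_
  · rw [← Units.val_pow_eq_pow_val, Units.val_inj, mul_pow, umap_pow, mul_right_inj] at e
    have := pow_pred (by rw [pow_one]; exact Nat.card_pos) e
    rw [← orderOf_dvd_iff_pow_eq_one, k4] at this
    have := Nat.le_of_dvd (by have := Nat.one_lt_pow one_ne_zero (Finite.one_lt_card (α := F)); omega) this
    have := Nat.pow_le_pow_right (Nat.card_pos (α := F)) hk
    omega
  · simpa [k5, Algebra.smul_def, mul_assoc] using a1 x hx
  · convert neg_mem a2 using 1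
    rw [e1]
    ext <;> simp [k5, Algebra.smul_def] <;> ring

theorem pomega_gen {ι : Type} [Fintype ι] [DecidableEq ι] (Q : QuadraticForm F (ι → F))
    (h : ∃ a b : commutator (orthS Q).Isom, Subgroup.closure ({a, b} : Set (commutator (orthS Q).Isom)) = ⊤) :
    ∃ a b : Cfsg.POmega F ⇑Q, Subgroup.closure ({a, b} : Set (Cfsg.POmega F ⇑Q)) = ⊤ :=
  gen2_of_surj ((pomegaEquiv Q).symm.toMonoidHom.comp (QuotientGroup.mk' _))
    ((pomegaEquiv Q).symm.surjective.comp (QuotientGroup.mk'_surjective _)) h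

end H23.G2
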