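import Cfsg.Agent.H23.G2o

/-! Two-generation of the special unitary groups in dimension `3` and `≥ 5` (`unit_gen_three`, `unit_gen_odd`, `unit_gen_even`). -/

set_option autoImplicit false

namespace H23.G2
open H11 H11.PForm Module

variable {F : Type*} [Field F] [Finite F] {V W : Type*} [AddCommGroup V] [Module F V] [AddCommGroup W] [Module F W]
  [FiniteDimensional F V] [FiniteDimensional F W] {σ : F →+* F} {hσ : ∀ a, σ (σ a) = a} (hne : σ ≠ RingHom.id F)
include hne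

theorem unit_gen {S : PForm (unitP σ hσ) V} {T : PForm (unitP σ hσ) W} (hS : S.Nondeg) (h3 : 3 ≤ finrank F V) (hT : T.Nondeg)
    (hW : finrank F W + 2 = finrank F V) {γ : T.Isom} {c : Fˣ} (h1 : (c : F) * (σ c)⁻¹ * T.detHom γ = 1) (h : Good2 T γ 1 c) :
    ∃ a b : S.SIsom, Subgroup.closure ({a, b} : Set S.SIsom) = ⊤ := by
  obtain ⟨e, f, H⟩ := hS.unit_exists_hyp hne (by omega)
  have hp := H.finrank_perp
  obtain ⟨ι, hι⟩ := unit_eqv hne _ hT (hS.restrict_perp H.nondeg) rfl (by omega)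
  obtain ⟨a, a0, ha⟩ := exists_mem_unit_Λ hσ hne
  obtain ⟨y, hy, hK⟩ := core_cl hS (unit_rich hne S 3) H (Units.mk0 (-(σ a)⁻¹) (by simpa using a0)) (h.congr ι hι) fun b hb => by
    obtain ⟨v, h1, h2⟩ := unit_exists_norm_mem hne (hS.restrict_perp H.nondeg) (by omega) (map_one σ)
    obtain ⟨θ, hθ⟩ := exists_trace_one hσ hne
    refine ⟨v, h1, (θ * b) • v, Submodule.smul_mem _ _ h1, ?_⟩
    rw [h_smul_left, h_smul_right, h2, map_mul]
    have hb : b + σ b = 0 := hb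
    linear_combination b * hθ - σ θ * hb
  have hE := H.unit_SIsom_eq_E hne hS
  refine gen2_sub ?_ ?_ fun K _ h1 h2 => hE ▸ hK K h1 h2
  · change S.detHom _ = 1
    rw [map_mul, Units.ext_iff, Units.val_mul, H.det_tor, detHom_apply, det_ext2, ← detHom_apply, detHom_isomCongr, h1, Units.val_one]
  · rw [map_one, map_one, mul_one, hE]; exact mul_mem hy (S.T_le_E (H.swp_mem_T ha a0))

omit hne [Finite F] in
theorem det_mul {P : FParam σ} {L : Type*} [Field L] [Algebra F L] {T : PForm P L} {g : T.Isom} {γ : L} (h : ∀ x, g.1 x = γ * x) :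
    (T.detHom g : F) = Algebra.norm F γ := by
  rw [← det_iE, Algebra.norm_apply]; congr 1; exact LinearMap.ext h

theorem unit_gen_three {S : PForm (unitP σ hσ) V} (hS : S.Nondeg) (hV : finrank F V = 3) {q : ℕ} (hF : Nat.card F = q ^ 2) (hq : q ≠ 2) :
    ∃ a b : S.SIsom, Subgroup.closure ({a, b} : Set S.SIsom) = ⊤ := by
  obtain ⟨T, hT, h1, -⟩ := model (L := F) (τ := σ) (unitP σ hσ) rfl (fun _ => rfl) hσ hne
  obtain ⟨c, hc, -⟩ := exists_prim F
  have s0 : σ c ≠ 0 := by simp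
  obtain ⟨g, hg⟩ := h1 (σ c * (c : F)⁻¹) (by simp [hσ, mul_assoc, s0])
  have q2 := two_le_of_card_sq hF
  have q4 : Nat.card F ≠ 4 := fun e => hq (Nat.pow_left_injective two_ne_zero (hF.symm.trans e))
  have e1 : (σ c * (σ c * (c : F)⁻¹)) ^ (2 * q + 1) = c ^ 3 := by
    have e := unit_σ_eq hσ hne hF
    have : (σ c * (σ c * (c : F)⁻¹)) ^ q = c * (c * (σ c)⁻¹) := by rw [← e]; simp [hσ]
    rw [pow_succ, mul_comm 2, pow_mul, this]; field_simp
  have e2 : σ c * (σ c * (c : F)⁻¹) ≠ 1 := fun e => by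
    rw [e, one_pow, eq_comm, ← Units.val_pow_eq_pow_val, Units.val_eq_one, ← orderOf_dvd_iff_pow_eq_one, hc] at e1
    have := Nat.le_of_dvd three_pos e1
    have := Nat.pow_le_pow_left q2 2
    omega
  have e3 : (c : F)⁻¹ * (σ c * (c : F)⁻¹) ≠ 1 := fun e => e2 (by
    have := congrArg (fun z => (σ z)⁻¹) e
    simpa [hσ, mul_comm, mul_left_comm] using this)
  have e4 : Gen (σ c * (σ c * (c : F)⁻¹)) := (gen_pow hc (m := 3) (by simp [q4])).of_mem (by
    rw [← e1]; exact pow_mem (Subring.subset_closure (Set.mem_singleton _)) _)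
  refine unit_gen hne hS hV.ge hT (by simp [hV]) (γ := g) (c := c) (by rw [det_mul hg, Algebra.norm_self]; simp [mul_assoc, s0])
    ⟨by simp, 1, fun A a1 a2 => top_of_gen e4
      (mul_ne_zero (sub_ne_zero.2 e2) (sub_ne_zero.2 e3)) (fun x hx => by simpa [hg, mul_assoc] using a1 x hx) ?_⟩
  convert neg_mem a2 using 1
  simp [hg]; ring

omit hne [Finite F] in
theorem pow_odd {M : Type*} [Monoid M] {a : M} {q j : ℕ} (h : a ^ q ^ 2 = a) (ho : Odd j) : a ^ q ^ j = a ^ q := by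
  obtain ⟨i, rfl⟩ := ho
  induction i with
  | zero => simp
  | succ i ih => rw [show 2 * (i + 1) + 1 = 2 + (2 * i + 1) by ring, pow_add, pow_mul, h, ih]

theorem unit_model (hσ : ∀ a, σ (σ a) = a) {q j : ℕ} (hF : Nat.card F = q ^ 2) (ho : Odd j) :
    ∃ (L : Type) (_ : Field L) (_ : Algebra F L) (_ : Finite L) (T : PForm (unitP σ hσ) L) (γ : Lˣ) (g : T.Isom), T.Nondeg ∧
      finrank F L = j ∧ Nat.card L = (q ^ j) ^ 2 ∧ orderOf γ = q ^ j + 1 ∧ (∀ x, g.1 x = γ * x) ∧ orderOf (T.detHom g) = q + 1 := by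
  obtain ⟨L, _, _, _, τ, h1, h2, h3, h4, h5⟩ := exists_ext F (m := j) (N := q ^ j) ho.pos.ne' (by rw [hF]; ring)
  obtain ⟨T, hT, h6, -⟩ := model (unitP σ hσ) rfl (τ := τ) (fun a => by
    rw [h3, pow_odd (by simpa [hF] using map_pow_card (L := L) a 1) ho, unit_σ_eq hσ hne hF, map_pow]) h4 h5
  obtain ⟨β, hβ, -⟩ := exists_prim L
  have hγ := exists_ord h2 hβ
  obtain ⟨g, hg⟩ := h6 (β ^ (q ^ j - 1) : Lˣ) (by rw [h3, ← pow_succ, ← Units.val_pow_eq_pow_val, ← hγ, pow_orderOf_eq_one, Units.val_one])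
  refine ⟨L, _, _, ‹_›, T, _, g, hT, h1, h2, hγ, hg, ?_⟩
  have q2 := two_le_of_card_sq hF
  have q4 := Nat.pow_le_pow_left q2 2
  obtain ⟨M, hM⟩ : Nat.card F - 1 ∣ Nat.card L - 1 := by rw [h2, hF, ← pow_mul, mul_comm, pow_mul]; exact Nat.sub_one_dvd_pow_sub_one _ _
  have M0 : M ≠ 0 := by rintro rfl; have := Finite.one_lt_card (α := L); omega
  have e1 : orderOf (β ^ M) = (q + 1) * (q - 1) := by
    rw [orderOf_pow' _ M0, hβ, hM, Nat.gcd_mul_left_left, Nat.mul_div_cancel _ (by omega), hF, ← Nat.sq_sub_sq, one_pow]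
  have e2 : (β ^ M) ^ q ^ 2 = β ^ M := by
    rw [show q ^ 2 = (q + 1) * (q - 1) + 1 by rw [← Nat.sq_sub_sq]; omega, pow_succ, ← e1, pow_orderOf_eq_one, one_mul]
  have e3 : Units.map (algebraMap F L : F →* L) (T.detHom g) = (β ^ M) ^ (q - 1) := by
    apply mul_right_cancel (b := β ^ M)
    rw [← pow_succ, Nat.sub_add_cancel (by omega), ← pow_odd e2 ho]
    apply Units.ext
    simp only [Units.val_mul, Units.coe_map, MonoidHom.coe_coe, det_mul hg, FiniteField.algebraMap_norm_eq_pow, Units.val_pow_eq_pow_val]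
    rw [hM, Nat.mul_div_cancel_left _ (by omega), ← mul_pow, ← pow_succ, Nat.sub_add_cancel (Nat.one_le_pow _ _ (by omega)), ← pow_mul, ← pow_mul,
      mul_comm]
  rw [← orderOf_injective (Units.map (algebraMap F L : F →* L)) (Units.map_injective (algebraMap F L).injective), e3, orderOf_pow' _ (by omega), e1, Nat.gcd_mul_left_left,
    Nat.mul_div_cancel _ (by omega)]

omit hne in
theorem ne_pow_u {L : Type*} [Field L] {q j : ℕ} (hq : 2 ≤ q) (hj : 2 ≤ j) {c γ : Lˣ} (hγ : orderOf γ = q ^ j + 1) (hc : c ^ q ^ 2 = c) :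
    ((c * γ : Lˣ) : L) ^ q ^ 2 ≠ (c * γ : Lˣ) := fun e => by
  rw [← Units.val_pow_eq_pow_val, Units.val_inj, mul_pow, hc, mul_right_inj] at e
  have := Nat.pow_le_pow_left hq 2
  have e2 : γ ^ (q ^ 2 - 1) = 1 := by
    apply mul_right_cancel (b := γ); rw [← pow_succ, Nat.sub_add_cancel (by omega), e, one_mul]
  rw [← orderOf_dvd_iff_pow_eq_one, hγ] at e2
  have := Nat.le_of_dvd (by omega) e2
  have := Nat.pow_le_pow_right (show 0 < q by omega) hj
  omega

theorem unit_gen_odd {S : PForm (unitP σ hσ) V} (hS : S.Nondeg) {j : ℕ} (hj : 3 ≤ j) (ho : Odd j) (hV : finrank F V = j + 2) :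
    ∃ a b : S.SIsom, Subgroup.closure ({a, b} : Set S.SIsom) = ⊤ := by
  obtain ⟨q, hF, -⟩ := unit_field_facts hσ hne
  obtain ⟨L, _, _, _, T, γ, g, hT, h1, h2, h3, h4, -⟩ := unit_model hne hσ hF ho
  have q2 := two_le_of_card_sq hF
  obtain ⟨c, c0, hc⟩ := exists_div_σ_eq hσ hne (mem_normOne.1 (inv_mem (hT.det_mem_normOne g)))
  have hp : ∀ u : Fˣ, Units.map (algebraMap F L : F →* L) u ^ q ^ 2 = Units.map (algebraMap F L : F →* L) u := fun u => by
    simpa [hF] using umap_pow (L := L) u 1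
  have ne : ∀ u : Fˣ, ((Units.map (algebraMap F L : F →* L) u * γ : Lˣ) : L) - 1 ≠ 0 := fun u e =>
    ne_pow_u q2 (by omega) h3 (hp u) (by rw [sub_eq_zero.1 e, one_pow])
  refine unit_gen hne hS (by omega) hT (by omega) (γ := g) (c := Units.mk0 c c0) (by simp [hc]) ⟨by simp, 1, fun A a1 a2 =>
    top_of_gen (gen_unit h2 q2 hj ho h3 (hp (Units.mk0 (σ c) (by simpa)))) (mul_ne_zero (ne (Units.mk0 (σ c) (by simpa))) (ne (Units.mk0 c c0)⁻¹))
      (fun x hx => by simpa [h4, Algebra.smul_def, mul_assoc] using a1 x hx) ?_⟩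
  convert neg_mem a2 using 1
  simp [h4, Algebra.smul_def]; ring

theorem unit_gen_even {S : PForm (unitP σ hσ) V} (hS : S.Nondeg) {j : ℕ} (hj : 3 ≤ j) (ho : Odd j) (hV : finrank F V = j + 3) :
    ∃ a b : S.SIsom, Subgroup.closure ({a, b} : Set S.SIsom) = ⊤ := by
  obtain ⟨q, hF, -⟩ := unit_field_facts hσ hne
  obtain ⟨L, _, _, _, T, γ, g, hT, h1, h2, h3, h4, h5⟩ := unit_model hne hσ hF ho
  have q2 := two_le_of_card_sq hF
  obtain ⟨R, hR, k1, -⟩ := model (L := F) (τ := σ) (unitP σ hσ) rfl (fun _ => rfl) hσ hne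
  obtain ⟨k, hk⟩ := k1 _ (mem_normOne.1 (inv_mem (hT.det_mem_normOne g)))
  rw [← orderOf_inv] at h5
  have q1 := Nat.one_lt_pow (show j ≠ 0 by omega) (show 1 < q from q2)
  have n1 := sub_ne_zero.2 (ne_one_of q2 h5 (one_pow q) (i := 1) (by simp))
  have n2 := sub_ne_zero.2 (ne_one_of q1 h3 (one_pow _) (i := 1) (by simp))
  refine unit_gen hne hS (by omega) (hR.prod hT) (by rw [finrank_prod, finrank_self]; omega) (γ := prodI R T (k, g)) (c := 1) (by
      rw [← det_iE, iE_prodI, LinearMap.det_prodMap, det_iE, det_iE, det_mul hk, Algebra.norm_self]; simp) ⟨by simp, (1, 1), fun A a1 a2 =>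
    sep_top (gen_orth hF q2 h5 (one_pow q)) (gen_orth h2 q1 h3 (one_pow _)) (mul_ne_zero n1 n1) (mul_ne_zero n2 n2) (M := q ^ 2) ?_
      (ne_pow_u q2 (by omega) h3 (one_pow _)) (fun x hx => by simpa [h4, hk] using a1 x hx) ?_⟩
  · simpa [hF] using map_pow_card (L := F) ((1 * (T.detHom g)⁻¹ : Fˣ) : F) 1
  · convert neg_mem a2 using 1
    ext <;> simp [h4, hk] <;> ring

end H23.G2
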