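import Cfsg.Agent.H8.Blich
import Cfsg.Agent.H8.Ito
import Cfsg.Agent.H6.Extension
import Cfsg.Agent.H2.FTCop

/-! Ito's lemma on normal Sylow `p`-subgroups of linear groups of degree `< p - 1`. -/

set_option autoImplicit false
set_option linter.unusedSectionVars false
open H5 H6 H8 Cfsg H18 Subgroup
open scoped commutatorElement

namespace H23

section
variable {G : Type*} [Group G] [Finite G] {χ : G → ℂ} {p : ℕ}

theorem exists_const (hχ : IsCharacter G χ) {g : G} (hg : χ g ≠ χ 1) :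
    ∃ ψ θ, IsIrrCharacter G ψ ∧ IsCharacter G θ ∧ χ = ψ + θ ∧ g ∉ charKer ψ := by
  revert hg
  refine hχ.induction_irr (P := fun χ => χ g ≠ χ 1 → ∃ ψ θ, IsIrrCharacter G ψ ∧ IsCharacter G θ ∧ χ = ψ + θ ∧
    g ∉ charKer ψ) (by simp) fun φ θ hφ hθ ih h => ?_
  by_cases e : g ∈ charKer φ
  · obtain ⟨ψ, θ', h1, h2, rfl, h3⟩ := ih fun e' => h (by
      rw [Pi.add_apply, Pi.add_apply, e', apply_eq_of_mem_charKer e])
    exact ⟨ψ, φ + θ', h1, hφ.isCharacter.add h2, add_left_comm _ _ _, h3⟩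
  · exact ⟨φ, θ, hφ, hθ, rfl, e⟩

theorem res_irr {N : Subgroup G} [N.Normal] (hp : p.Prime) (hi : PiNat {p} N.index) (hχ : IsIrrCharacter G χ)
    (hd : ¬ p ∣ charDegree χ) : IsIrrCharacter N fun n => χ n := by
  letI := Fintype.ofFinite G
  letI := Fintype.ofFinite N
  obtain ⟨θ, hθ, h⟩ := exists_irr_under (N := N) hχ
  obtain ⟨b, hb, e⟩ := degree_ratio_dvd hθ hχ h
  have : b = 1 := (hi.of_dvd hb).eq_one ((piNat_compl_iff hp).2 fun h' => hd (h'.trans ⟨charDegree θ, by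
    rw [← hχ.coe_charDegree, ← hθ.coe_charDegree] at e; exact_mod_cast e⟩))
  rwa [eq_of_constituent_of_apply_one (hχ.isCharacter.restrict N) hθ h (by simpa [this] using e)]

theorem detChar_pow_arg (hχ : IsCharacter G χ) {k : ℕ} (hk : k.Coprime (Nat.card G)) :
    detChar (fun g => χ (g ^ k)) = detChar χ ^ k := by
  funext g
  obtain ⟨n, ε, -, -, h1, h2⟩ := exists_eigenvalues_det hχ g
  rw [detChar_eq_prod (hχ.pow_arg hk) g (fun i => ε i ^ k) fun j => by simp only [← pow_mul, h1, mul_comm],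
    Pi.pow_apply, h2, Finset.prod_pow]

theorem mem_ker_of_rat (hχ : IsCharacter G χ) (hp : p.Prime) (hd : charDegree χ + 1 < p)
    (h : ∀ j : ℕ, j.Coprime p → ∃ k, k ≡ j [MOD p] ∧ ∀ g, χ (g ^ k) = χ g) {x : G} (hx : PiElt {p} x) :
    x ∈ charKer χ := by
  haveI := hχ.normal_charKer
  obtain ⟨ψ, hψ, e⟩ := hχ.exists_deflate _ le_rfl
  obtain ⟨a, ha⟩ := hx.eq_pow (orderOf_pos x).ne'
  have ha' : x ^ p ^ a ∈ charKer χ := by rw [← ha, pow_orderOf_eq_one]; exact one_mem _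
  clear ha hx
  induction a with
  | zero => simpa using ha'
  | succ a ih =>
    refine ih (by_contra fun hn => ?_)
    haveI := Fact.mk hp
    have ho : orderOf ((x ^ p ^ a : G) : G ⧸ charKer χ) = p := orderOf_eq_prime (by
      rw [← QuotientGroup.mk_pow, ← pow_mul, ← pow_succ, QuotientGroup.eq_one_iff]; exact ha')
      (mt (QuotientGroup.eq_one_iff _).1 hn)
    obtain ⟨j, hj, h1⟩ := exists_pow_ne_of_order hψ hp (by
      rwa [charDegree_eq_of_apply_one (n := charDegree χ) ((e 1).trans hχ.coe_charDegree.symm)]) ho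
      fun e' => hn (hχ.mem_charKer.2 (by rw [← e, e', ← e 1]; rfl))
    obtain ⟨k, hk, h2⟩ := h j hj
    rw [← (pow_eq_pow_iff_modEq.2 (ho.symm ▸ hk) : _ ^ k = _ ^ j), ← QuotientGroup.mk_pow, e, e, h2] at h1
    exact h1 rfl

theorem ito_ker {N : Subgroup G} [hN : N.Normal] (hp : p.Prime) (hN' : PiGrp {p}ᶜ N) (hi : PiNat {p} N.index)
    (hχ : IsIrrCharacter G χ) (hd : charDegree χ + 1 < p) {x y : G} (hx : PiElt {p} x) (hy : y ∈ N) :
    ⁅x, y⁆ ∈ charKer χ := by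
  have hd' : ¬ p ∣ charDegree χ := fun h => by have := Nat.le_of_dvd hχ.charDegree_pos h; omega
  have hθ := res_irr hp hi hχ hd'
  have h0 : N.index.Coprime (detOrder fun n : N => χ n) := hi.coprime (hN'.of_dvd (detOrder_dvd_card _))
  obtain ⟨ψ, ⟨hψ, e, ho⟩, hu⟩ := exists_canonical_ext hθ (cj_res hχ.isClassFunction) hχ.coe_charDegree.symm
    (h0.mul_right (hi.coprime ((piNat_compl_iff hp).2 hd')))
  have e1 : ψ 1 = χ 1 := e 1
  have hk := mem_ker_of_rat hψ.isCharacter hp (by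
    rwa [charDegree_eq_of_apply_one (n := charDegree χ) (e1.trans hχ.coe_charDegree.symm)]) (fun j hj => by
      obtain ⟨k, h1, h2, h3⟩ := exists_pow_fix G hp hj
      refine ⟨k, h2, congrFun (hu _ (hψ.pow_arg h1) (fun n => by
        rw [h3 _ ((piNat_compl_iff hp).1 (hN'.elt n.2)), e]) ?_)⟩
      rw [detOrder, detChar_pow_arg hψ.isCharacter h1]
      exact (ho ▸ h0).coprime_dvd_right (orderOf_pow_dvd k)) hx
  have hm : ⁅x, y⁆ ∈ N := mul_mem (hN.conj_mem y hy x) (inv_mem hy)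
  have : ⁅x, y⁆ ∈ charKer ψ := by
    have := mul_mem hk (hψ.isCharacter.normal_charKer.conj_mem _ (inv_mem hk) y)
    simpa [commutatorElement_def, mul_assoc] using this
  exact hχ.mem_charKer.2 ((e ⟨_, hm⟩).symm.trans ((apply_eq_of_mem_charKer this).trans e1))

theorem ito_pair (hχ : IsCharacter G χ) (hf : ∀ g, χ g = χ 1 → g = 1) (hp : p.Prime) (hd : charDegree χ < p)
    {q : ℕ} (hqp : q ≠ p) {P Q : Subgroup G} (hP : PiGrp {p} P) (hQ : PiGrp {q} Q) (hn : P ≤ N(Q))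
    (hc : ¬ P ≤ C(Q)) : charDegree χ + 1 = p ∧ (∃ k, charDegree χ = q ^ k) ∧ IsIrrCharacter G χ := by
  simp only [cent_iff, not_forall] at hc
  obtain ⟨x, hx, y, hy, hc⟩ := hc
  set K := P ⊔ Q
  haveI := (nml_sup_right hn).subgroupOf_normal
  let x' : K := ⟨x, mem_sup_left hx⟩
  let y' : K := ⟨y, mem_sup_right hy⟩
  obtain ⟨ψ, θ, hψ, hθ, e, h⟩ := exists_const (hχ.restrict K) (g := ⁅x', y'⁆) fun e =>
    hc (commutatorElement_eq_one_iff_mul_comm.1 (hf _ e))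
  have hi : PiNat {p} (Q.subgroupOf K).index := by
    change PiNat {p} (Q.relIndex _); rw [relIndex_sup_of_norm hn]; exact hP.relIndex
  have hQ' : PiGrp {q} (Q.subgroupOf K) := by rwa [PiGrp, H18.card_subgroupOf le_sup_right]
  have h1 : ¬ charDegree ψ + 1 < p := fun h' => h (ito_ker hp (hQ'.p'_of_ne hqp) hi hψ h'
    (by rw [PiElt, ← Subgroup.orderOf_coe]; exact hP.elt hx) (show y' ∈ Q.subgroupOf K from hy))
  have h2 : charDegree χ = charDegree ψ + charDegree θ := by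
    rw [← charDegree_add' hψ.isCharacter hθ, ← e]
    exact (charDegree_eq_of_apply_one hχ.coe_charDegree.symm).symm
  have h3 : θ = 0 := hθ.eq_zero_of_apply_one (by rw [← hθ.coe_charDegree, show charDegree θ = 0 by omega]; simp)
  rw [h3, add_zero] at e
  have h4 := (res_irr hp hi hψ fun h => by have := Nat.le_of_dvd hψ.charDegree_pos h; omega).degree_dvd_card
    (n := charDegree χ) (by rw [← e, hχ.coe_charDegree]; rfl)
  exact ⟨by omega, (hQ'.of_dvd h4).eq_pow (by have := hψ.charDegree_pos; omega),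
    irr_of_comp_irr K.subtype hχ (e ▸ hψ)⟩

theorem nsyl_iff [hp : Fact p.Prime] {K : Subgroup G} : NSyl p K ↔ ∀ P, Hall {p} P K → K ≤ N(P) :=
  ⟨fun h P hP => by
    obtain ⟨S, rfl⟩ := hP.exists_sylow hp.out
    haveI := h S
    exact nml_map_subtype.norm, fun h S => normal_of_nml_map ⟨map_subtype_le _, h _ (hall_map_sylow hp.out S)⟩⟩

theorem ito_exists_pair [hp : Fact p.Prime] (ih : ∀ K : Subgroup G, K ≠ ⊤ → NSyl p K) {P M : Subgroup G}
    (hP : Hall {p} P ⊤) (hA : Abel P) (hn : ¬ P ⊴ ⊤) (hM : M ⊴ ⊤) (h1 : M ≠ ⊤)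
    (hi : PiNat {p} M.index ∨ PiNat {p}ᶜ M.index) :
    ∃ q Q, q.Prime ∧ q ≠ p ∧ PiGrp {q} Q ∧ P ≤ N(Q) ∧ ¬ P ≤ C(Q) := by
  have key : ∀ K, K ⊴ ⊤ → K ≠ ⊤ → P ⊓ K ⊴ ⊤ := fun K hK h => by
    rw [← (hP.inf_nml hK).eq_pcore (nsyl_iff.1 (ih K h) _ (hP.inf_nml hK))]; exact hK.pcore
  have key' : ∀ K, K ⊴ ⊤ → P ≤ K → K = ⊤ := fun K hK h => by_contra fun e => hn (inf_eq_left.2 h ▸ key K hK e)
  rcases hi with hi | hi
  swap
  · exact absurd (key' M hM (hP.pi.le_of_nml le_top hM (by rwa [relIndex_top_right]))) h1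
  have h2 : C(P ⊓ M) = ⊤ := key' _ ⟨le_top, norm_C (key M hM h1).norm⟩ (cent_mono hA le_rfl inf_le_left)
  obtain ⟨H, hH⟩ := (hP.inf_nml hM).exists_sd (cent_norm (h2 ▸ le_top))
  have h3 := hH.hall_compl (hP.inf_nml hM)
  have h4 : H ⊴ ⊤ := by rw [← h3.eq_pcore (hH.dp (cent_symm (h2 ▸ le_top))).nml_right.norm]; exact hM.pcore
  by_contra hc
  push Not at hc
  have h5 : H ≤ C(P) := le_of_sylows fun q hq hd => by
    obtain ⟨Q, hQ, h⟩ := H2.cop_sylow hq (le_top.trans h4.norm) (hP.pi.coprime h3.pi) (Or.inl hA.solv)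
    exact ⟨Q, hQ, cent_symm (hc q Q hq (h3.pi q hq hd) hQ.pi h)⟩
  refine hn ⟨le_top, ?_⟩
  rw [← hP.sup_of_idx le_top (by rwa [relIndex_top_right]), ← hH.sup]
  exact sup_le le_N (sup_le (inf_le_left.trans le_N) (cent_norm h5))

end

end H23
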