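import Cfsg.Agent.H13.Km0

/-! Bridge from the ambient statement `H13.Km.Main` to Frobenius groups acting as automorphism groups. -/
set_option autoImplicit false
namespace H23.KmF
open Cfsg H18 H1 Subgroup SemidirectProduct
universe u v

theorem fin (h : H13.Km.Main.{max u v}) {G : Type u} {A : Type v} [Group G] [Finite G] [Group A] [Finite A]
    [MulDistribMulAction A G] (Fk Hc : Subgroup A) [Fk.Normal] (hHc : Cfsg.IsFrobeniusComplement Hc)
    (hker : Cfsg.frobeniusKernel Hc = (Fk : Set A)) (hCF : ∀ g : G, (∀ f ∈ Fk, f • g = g) → g = 1)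
    (hnil : Group.IsNilpotent (Subgroup.closure {g : G | ∀ h ∈ Hc, h • g = g})) : Group.IsNilpotent G := by
  let φ : A →* MulAut G := MulDistribMulAction.toMulAut A G
  have hL : ∀ h ∈ Hc, ∀ f ∈ Fk, h * f = f * h → h = 1 ∨ f = 1 := fun h hh f hf e => by
    by_cases hfH : f ∈ Hc
    · have : f ∈ frobeniusKernel Hc := hker ▸ hf
      exact Or.inr (this.resolve_right fun h' => h' 1 (by simpa using hfH))
    · refine Or.inl (mem_bot.1 (hHc.2.2 f hfH ▸ mem_inf.2 ⟨hh, ?_⟩))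
      have := smul_mem_pointwise_smul _ (MulAut.conj f) _ hh
      simpa [← e] using this
  have hn : hr φ Hc ≤ N(hr φ Fk) := norm_iff.2 <| by
    rintro _ ⟨a, -, rfl⟩ _ ⟨f, hf, rfl⟩
    rw [← map_inv, ← map_mul, ← map_mul]
    exact inr_mem_hr.2 ((inferInstance : Fk.Normal).conj_mem f hf a)
  have sr : Semireg (hr φ Fk) (hr φ Hc) := by
    rintro _ ⟨a, ha, rfl⟩ h1
    refine eq_bot_iff.2 ?_
    rintro _ ⟨⟨f, hf, rfl⟩, hc⟩
    have e : (inr (a * f) : G ⋊[φ] A) = inr (f * a) := by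
      rw [map_mul, map_mul]
      first | exact (mem_C1.1 hc) | exact (mem_C1.1 hc).symm
    rcases hL a ha f hf (inr_injective e) with rfl | rfl
    · exact absurd (map_one _) h1
    · rw [map_one]; exact one_mem _
  have hne : hr φ Hc ≠ ⊥ := fun e => hHc.1 (hr_eq_bot.1 e)
  have cf : hl φ ⊤ ⊓ C(hr φ Fk) = ⊥ := by
    rw [hl_top_inf_C, hl_eq_bot, eq_bot_iff]
    exact fun g hg => mem_bot.2 (hCF g hg)
  have e : Subgroup.closure {g : G | ∀ h ∈ Hc, h • g = g} = fixS φ Hc := closure_eq (fixS φ Hc)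
  have := h (K := hl φ ⊤) (F := hr φ Fk) (H := hr φ Hc)
    ⟨hr_norm_top, hr_norm_top, hn, H23.nil_of_semireg hn hne sr, sr, cf, by rw [← hr_sup, hl_inf_hr]⟩
    (by rw [hl_top_inf_C, nil_hl, ← e]; exact hnil)
  have : Group.IsNilpotent (⊤ : Subgroup G) := nil_hl.1 this
  exact Group.nilpotent_of_mulEquiv Subgroup.topEquiv

end H23.KmF
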