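import Cfsg.Agent.H2.Nd0b

/-! Piece PS of S4781: the commutators `[a, w]`, `w ∈ C`, lie in a proper subgroup of `Y` (`H23.NdS.pS`). -/

set_option autoImplicit false

namespace H23.NdS

open Subgroup Cfsg H18 H5 H6 H8
open scoped commutatorElement

universe u

theorem comm_div {H : Type*} [Group H] {t a b : H} (h : ⁅t, a⁆ = ⁅t, b⁆) : ⁅t, b⁻¹ * a⁆ = 1 := by
  have : ⁅t, b⁻¹ * a⁆ = (t * b * t⁻¹)⁻¹ * ⁅t, a⁆ * b := by simp only [commutatorElement_def]; group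
  rw [this, h, commutatorElement_def]
  group

theorem comm_div_mem {G : Type*} [Group G] {Y : Subgroup G} [Y.Normal] {t a b : G}
    (h : ((⁅t, a⁆ : G) : G ⧸ Y) = ((⁅t, b⁆ : G) : G ⧸ Y)) : ⁅t, b⁻¹ * a⁆ ∈ Y := by
  have e : ∀ x : G, ((⁅t, x⁆ : G) : G ⧸ Y) = ⁅(t : G ⧸ Y), (x : G ⧸ Y)⁆ := fun x =>
    map_commutatorElement (QuotientGroup.mk' Y) t x
  rw [← QuotientGroup.eq_one_iff, e, QuotientGroup.mk_mul, QuotientGroup.mk_inv]
  rw [e, e] at h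
  exact comm_div h

theorem surj {G : Type*} [Group G] [Finite G] {Y L : Subgroup G} [Y.Normal] {t : G} (h1 : ∀ z ∈ L, ⁅t, z⁆ ∈ L)
    (h2 : ∀ z ∈ L, ⁅t, z⁆ ∈ Y → z ∈ Y) {a : G} (ha : a ∈ L) :
    ∃ z ∈ L, ((⁅t, z⁆ : G) : G ⧸ Y) = (a : G ⧸ Y) := by
  have e : ∀ x : G, ((⁅t, x⁆ : G) : G ⧸ Y) = ⁅(t : G ⧸ Y), (x : G ⧸ Y)⁆ := fun x =>
    map_commutatorElement (QuotientGroup.mk' Y) t x
  let g : L.map (QuotientGroup.mk' Y) → L.map (QuotientGroup.mk' Y) := fun z => ⟨⁅(t : G ⧸ Y), z.1⁆, by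
    obtain ⟨_, z, hz, rfl⟩ := z
    exact ⟨⁅t, z⁆, h1 z hz, e z⟩⟩
  have hg : Function.Injective g := by
    rintro ⟨_, x, hx, rfl⟩ ⟨_, y, hy, rfl⟩ hxy
    have h3 : ((⁅t, x⁆ : G) : G ⧸ Y) = ((⁅t, y⁆ : G) : G ⧸ Y) := by
      rw [e, e]; exact congrArg Subtype.val hxy
    have := h2 _ (L.mul_mem (L.inv_mem hy) hx) (comm_div_mem h3)
    exact Subtype.ext (QuotientGroup.eq.2 this).symm
  obtain ⟨⟨_, z, hz, rfl⟩, h⟩ := Finite.injective_iff_surjective.1 hg ⟨a, a, ha, rfl⟩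
  exact ⟨z, hz, (e z).trans (congrArg Subtype.val h)⟩

theorem pS : H2.Nd.PS.{u} := by
  intro G _ _ N Y C Q B c t a q r h htN htC htY hc haQ haY
  have := h.nN
  have := h.nY
  have := h.nC
  have := h.nQ
  have hQL : Q ≤ ⁅N, N⁆ := h.sup ▸ le_sup_left
  have hQC : Q ≤ C := hQL.trans h.LC
  have cY : ∀ x ∈ C, ∀ y ∈ C, ⁅x, y⁆ ∈ Y := fun x hx y hy => h.CC ▸ commutator_mem_commutator hx hy
  have cen : ∀ x ∈ C, ∀ y ∈ Y, y * x = x * y := fun x hx y hy => h.CY hx y hy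
  have mul : ∀ x ∈ C, ∀ y ∈ C, ∀ z ∈ C, ⁅x, y * z⁆ = ⁅x, y⁆ * ⁅x, z⁆ := fun x hx y hy z hz => by
    have e : ⁅x, y * z⁆ = ⁅x, y⁆ * (y * ⁅x, z⁆) * y⁻¹ := by simp only [commutatorElement_def]; group
    rw [e, ← cen y hy _ (cY x hx z hz)]
    group
  let f : Q →* G := MonoidHom.mk' (fun x => ⁅a, (x : G)⁆) fun x y => mul a (hQC haQ) x (hQC x.2) y (hQC y.2)
  have hsur : ∀ b ∈ ⁅N, N⁆, ∃ z ∈ ⁅N, N⁆, ((⁅t, z⁆ : G) : G ⧸ Y) = (b : G ⧸ Y) := fun b hb =>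
    surj (fun z hz => commutator_mem_commutator htN (h.CN (h.LC hz)))
      (fun z hz hy => (h.srq t htN z hz hy).resolve_right htC) hb
  refine ⟨f.range, ?_, fun hle => ?_, fun w hw => ?_⟩
  · rintro _ ⟨x, rfl⟩
    exact cY a (hQC haQ) x (hQC x.2)
  · have h1 : Y.subgroupOf Q < f.ker := by
      refine lt_of_le_of_ne (fun y hy => ?_) fun e => haY ?_
      · exact commutatorElement_eq_one_iff_mul_comm.2 (cen a (hQC haQ) y hy).symm
      · have : (⟨a, haQ⟩ : Q) ∈ f.ker := commutatorElement_eq_one_iff_mul_comm.2 rfl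
        rwa [← e] at this
    have h2 := Subgroup.index_strictAnti h1
    have h3 := Subgroup.card_le_of_le hle
    rw [Subgroup.index_ker] at h2
    rw [Subgroup.relIndex] at hc
    omega
  · obtain ⟨z, hz, e⟩ := hsur _ (commutator_mem_commutator htN (h.CN hw))
    have hw' : z⁻¹ * w ∈ C := C.mul_mem (C.inv_mem (h.LC hz)) hw
    have hy := comm_div_mem e.symm
    generalize hw1 : z⁻¹ * w = w' at hw' hy
    obtain ⟨u, hu, eu⟩ := hsur a (hQL haQ)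
    have huC := h.LC hu
    have htu : ⁅t, u⁆ ∈ C := h.LC (commutator_mem_commutator htN (h.CN huC))
    have k1 : ⁅w', ⁅t, u⁆⁆ = 1 := by
      have e1 : t * ⁅w', u⁆ * t⁻¹ = ⁅⁅t, w'⁆ * w', ⁅t, u⁆ * u⁆ := by simp only [commutatorElement_def]; group
      have e2 : t * ⁅w', u⁆ * t⁻¹ = ⁅w', u⁆ := by rw [← htY _ (cY w' hw' u huC), mul_inv_cancel_right]
      have e3 : ∀ y ∈ Y, ∀ v ∈ C, ⁅y * w', v⁆ = ⁅w', v⁆ := fun y hy v hv => by
        have : ⁅y * w', v⁆ = y * (w' * v * w'⁻¹) * y⁻¹ * v⁻¹ := by simp only [commutatorElement_def]; group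
        rw [this, cen _ (C.mul_mem (C.mul_mem hw' hv) (C.inv_mem hw')) y hy, commutatorElement_def]
        group
      rw [e2, e3 _ hy _ (C.mul_mem htu huC), mul _ hw' _ htu _ huC] at e1
      exact mul_eq_right.1 e1.symm
    have k2 : w' * a = a * w' := by
      have hy' := QuotientGroup.eq.1 eu
      have : a = ⁅t, u⁆ * (⁅t, u⁆⁻¹ * a) := by group
      rw [this, ← mul_assoc, commutatorElement_eq_one_iff_mul_comm.1 k1, mul_assoc, ← cen w' hw' _ hy']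
      simp only [mul_assoc]
    rw [← h.sup] at hz
    obtain ⟨x, hx, b, hb, rfl⟩ := Subgroup.mem_sup_of_normal_left.1 hz
    have k3 : a * b = b * a := h.BQ hb a haQ
    refine ⟨⟨x, hx⟩, ?_⟩
    have hw2 : w = x * b * w' := by rw [← hw1]; group
    have k4 : a * (b * w') = (b * w') * a := by rw [← mul_assoc, k3, mul_assoc, ← k2, mul_assoc]
    change ⁅a, x⁆ = ⁅a, w⁆
    have : ⁅a, w⁆ = a * x * (b * w' * a⁻¹ * (b * w')⁻¹) * x⁻¹ := by
      rw [hw2]; simp only [commutatorElement_def]; group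
    rw [this, (show b * w' * a⁻¹ * (b * w')⁻¹ = a⁻¹ by
      rw [mul_inv_eq_iff_eq_mul, eq_inv_mul_iff_mul_eq, ← mul_assoc, k4, mul_inv_cancel_right]), commutatorElement_def]

end H23.NdS
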