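import Cfsg.Agent.H11.Rg
import Cfsg.Agent.H29.Bridge
import Cfsg.Agent.H23.G2m

/-! Generation of symplectic and unitary groups by conjugate regular unipotent elements: the chain `Ch` of a regular unipotent element,
the subgroup `Bt` (directions of Eichler maps in `K` modulo the centre), and the `core` argument with a conjugate moving `e` to `e₂`. -/

set_option autoImplicit false

namespace H23.RU
open H11 H11.PForm H29 Module

variable {F : Type*} [Field F] {σ : F →+* F} {P : FParam σ} {V : Type*} [AddCommGroup V] [Module F V] {S : PForm P V}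

/-- directions of Eichler maps in `K`, modulo `e` -/
def Bt (K : Subgroup S.Isom) {e : V} (he : S.Sing e) : AddSubgroup V where
  carrier := {v | ∃ κ : F, v + κ • e ∈ BSet K he}
  zero_mem' := ⟨0, by simpa using zero_mem _⟩
  add_mem' := fun ⟨a, ha⟩ ⟨b, hb⟩ => ⟨a + b, by convert add_mem ha hb using 1; module⟩
  neg_mem' := fun ⟨a, ha⟩ => ⟨-a, by convert neg_mem ha using 1; module⟩

section
variable {K : Subgroup S.Isom} {e : V} {he : S.Sing e}

theorem Bt_self (κ : F) : κ • e ∈ Bt K he := ⟨-κ, by simpa using zero_mem _⟩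

theorem Bt_of {v : V} {a : F} (h : S.ECond e v a) (h' : S.eich e v a ∈ K) : v ∈ Bt K he := ⟨0, by simpa using (mem_BSet he).2 ⟨a, h, h'⟩⟩

theorem Bt_map {g : S.Isom} (hg : g ∈ K) {μ : F} (hμ : μ ≠ 0) (h : g.1 e = μ • e) {v : V} (hv : v ∈ Bt K he) : σ μ • g.1 v ∈ Bt K he := by
  obtain ⟨κ, hκ⟩ := hv
  refine ⟨σ μ * κ * μ, ?_⟩
  convert BSet_smul hμ (BSet_map (hu' := he.smul μ) hκ hg h) using 1
  rw [map_add, map_smul, h]; module

theorem Bt_N {u : S.Isom} (hu : u ∈ K) (h : u.1 e = e) (j : ℕ) {v : V} (hv : v ∈ Bt K he) : ((iE u - 1) ^ j) v ∈ Bt K he := by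
  induction j with
  | zero => simpa
  | succ j ih =>
    have := Bt_map hu one_ne_zero (by simpa) ih
    rw [pow_succ', End.mul_apply]
    simpa using sub_mem this ih

theorem transv_apply {a : F} (ha : a ∈ P.Λ) (he : S.Sing e) (x : V) : (S.eich e 0 a).1 x = x - (P.ε * (a * S.h e x)) • e := by
  simp [eich_apply (ECond.of_mem he ha)]

theorem transv_smul {a : F} (ha : a ∈ P.Λ) (he : S.Sing e) (s : F) : S.eich (s • e) 0 a = S.eich e 0 (s * a * σ s) := by
  simpa using eich_smul (ECond.of_mem he ha) s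

theorem conj_mem' {a : F} (ha : a ∈ P.Λ) (s : F) : s * a * σ s ∈ P.Λ := by simpa [P.σσ] using P.conj_mem (σ s) a ha

theorem two_transv {e2 : V} (he : S.Sing e) (h2 : S.Sing e2) (h : S.h e e2 = 0) {m : F} (hm : m ∈ P.Λ) :
    S.ECond e ((-P.ε * m) • e2) m ∧ S.eich (e2 + e) 0 m * (S.eich e2 0 m)⁻¹ = S.eich e ((-P.ε * m) • e2) m := by
  have h' := S.h_swap_zero h
  have c : S.ECond e ((-P.ε * m) • e2) m := ⟨he, by simp [h], P.Λ.sub_mem hm (h2.smul _)⟩
  refine ⟨c, mul_inv_eq_iff_eq_mul.2 (isom_ext fun x => ?_)⟩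
  have e1 := P.mem_imp m hm
  have e2 := P.εε
  rw [isom_mul_apply, transv_apply hm (h2.add he h'), transv_apply hm h2, eich_apply c]
  simp [h, h2.h_self, P.σε]
  match_scalars
  · ring
  · ring
  · linear_combination (-P.ε * S.h _ x) * e1
end

/-- the chain of a regular unipotent element in dimension `m + 4` -/
structure Ch (S : PForm P V) (u : S.Isom) (m : ℕ) (x e e2 e3 : V) : Prop where
  d3 : ((iE u - 1) ^ (m + 1)) x = e3
  d2 : ((iE u - 1) ^ (m + 2)) x = e2
  d1 : ((iE u - 1) ^ (m + 3)) x = e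
  nil : (iE u - 1) ^ (m + 4) = 0
  top : S.h e x ≠ 0
  perp : ∀ y, S.h e y = 0 → ∃ w, y = (iE u - 1) w
  sing : ∀ y, S.h y y = 0 → S.Sing y

namespace Ch
variable {u : S.Isom} {m : ℕ} {x e e2 e3 : V} (C : Ch S u m x e e2 e3)
include C

theorem u1 : u.1 e = e := by
  have := congr($(C.nil) x)
  rw [pow_succ', End.mul_apply, C.d1] at this
  simpa [sub_eq_zero] using this

theorem u2 : u.1 e2 = e2 + e := by
  have := C.d1
  rw [pow_succ', End.mul_apply, C.d2] at this
  simp [← this]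

theorem u3 : u.1 e3 = e3 + e2 := by
  have := C.d2
  rw [pow_succ', End.mul_apply, C.d3] at this
  simp [← this]

theorem h1 (w : V) : S.h e ((iE u - 1) w) = 0 := by
  have := isom_h u e w
  rw [C.u1] at this; simp [this]

theorem h2 (w : V) : S.h e2 ((iE u - 1) w) = -S.h e w := by
  have := isom_h u e2 w
  have h := C.h1 w
  rw [C.u2] at this; simp at this h ⊢; linear_combination this - h

theorem h13 : S.h e e3 = 0 := by rw [← C.d3, pow_succ', End.mul_apply, C.h1]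
theorem h12 : S.h e e2 = 0 := by nth_rw 1 [← C.d2]; rw [pow_succ', End.mul_apply, C.h1]
theorem s1 : S.Sing e := C.sing _ (by nth_rw 2 [← C.d1]; rw [pow_succ', End.mul_apply, C.h1])
theorem s2 : S.Sing e2 := C.sing _ (by nth_rw 2 [← C.d2]; rw [pow_succ', End.mul_apply, C.h2, C.d3, C.h13, neg_zero])

theorem dec {w : V} (hw : S.h e w ≠ 0) (y : V) : ∃ y', y = (S.h e y / S.h e w) • w + (iE u - 1) y' := by
  obtain ⟨y', h⟩ := C.perp (y - (S.h e y / S.h e w) • w) (by simp [hw])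
  exact ⟨y', by rw [← h]; abel⟩

theorem last (y : V) : ((iE u - 1) ^ (m + 3)) y = (S.h e y / S.h e x) • e := by
  obtain ⟨y', h⟩ := C.dec C.top y
  nth_rw 1 [h]
  rw [map_add, map_smul, C.d1, ← End.mul_apply, ← pow_succ, C.nil]; simp

theorem li : LinearIndependent F ![e, e2] := by
  refine LinearIndependent.pair_iff.2 fun a b h => ?_
  have h1 := congrArg u.1 h
  have e0 : e ≠ 0 := fun h => C.top (by simp [h])
  rw [map_add, map_smul, map_smul, C.u1, C.u2, smul_add, ← add_assoc, h] at h1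
  obtain rfl : b = 0 := by simpa [e0] using h1
  simpa [e0] using h

variable {K : Subgroup S.Isom} (hu : u ∈ K)
include hu

/-- all of `e^⊥` from the line of `e₂` and an element lifting it to the top -/
theorem all {g : S.Isom} (hg : g ∈ K) {μ : F} (hμ : μ ≠ 0) (h : g.1 e = μ • e) (hb : S.h e2 (g.1 e2) ≠ 0)
    (hM : ∀ α : F, α • e2 ∈ Bt K C.s1) (v : V) (hv : S.h e v = 0) : v ∈ Bt K C.s1 := by
  have s0 : σ μ ≠ 0 := by simpa
  obtain ⟨w, hw⟩ := C.perp (g.1 e2) (by have := isom_h g e e2; rw [h, C.h12] at this; simpa [hμ] using this)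
  have w0 : S.h e w ≠ 0 := by rwa [hw, C.h2, neg_ne_zero] at hb
  have key : ∀ i j, i + j = m + 3 → ∀ y, ((iE u - 1) ^ (j + 1)) y ∈ Bt K C.s1 := fun i => by
    induction i with
    | zero => intro j hj y; rw [show j + 1 = m + 4 by omega, C.nil]; exact zero_mem _
    | succ i ih =>
      intro j hj y
      obtain ⟨y', e'⟩ := C.dec w0 y
      rw [e', map_add, ← End.mul_apply _ (iE u - 1) y', ← pow_succ]
      refine add_mem ?_ (ih _ (by omega) _)
      have := Bt_N hu C.u1 j (Bt_map hg hμ h (hM (S.h e y / S.h e w / σ μ)))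
      rwa [map_smul, map_smul, map_smul, smul_smul, mul_div_cancel₀ _ s0, hw, ← End.mul_apply, ← pow_succ, ← map_smul] at this
  obtain ⟨y, rfl⟩ := C.perp v hv
  simpa using key (m + 3) 0 rfl y

theorem lift {g : S.Isom} (hg : g ∈ K) {μ : F} (hμ : μ ≠ 0) (h : g.1 e = μ • e) {α : F} (hα : α • e2 ∈ Bt K C.s1) :
    (-(σ μ * S.h e2 (g.1 e2) / S.h e x) * α) • e2 ∈ Bt K C.s1 := by
  obtain ⟨w, hw⟩ := C.perp (g.1 e2) (by have := isom_h g e e2; rw [h, C.h12] at this; simpa [hμ] using this)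
  obtain ⟨y', e'⟩ := C.dec C.top w
  have := Bt_N hu C.u1 (m + 1) (Bt_map hg hμ h hα)
  rw [map_smul, map_smul, map_smul, hw, ← End.mul_apply, ← pow_succ, e', map_add, map_smul, C.d2, ← End.mul_apply, ← pow_succ, C.last] at this
  convert sub_mem this (Bt_self (σ μ * α * (S.h e y' / S.h e x))) using 1
  rw [hw, C.h2]; module

variable {g : S.Isom} (hg : g * u * g⁻¹ ∈ K) {z : V} {s c β : F} (gz : g.1 z = e) (guz : g.1 (u.1 z) = s • e2)
include hg gz guz

omit hu in
theorem t2 {a : F} (ha : a ∈ P.Λ) (h : S.eich e 0 a ∈ K) : S.eich e2 0 (s * a * σ s) ∈ K := by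
  have := mul_mem (mul_mem hg h) (inv_mem hg)
  rwa [conj_eich, map_zero, show (g * u * g⁻¹).1 e = s • e2 by simp [← gz, guz], transv_smul ha C.s2] at this

theorem x2 {a : F} (ha : a ∈ P.Λ) (h : S.eich e 0 a ∈ K) : S.eich e ((-P.ε * (s * a * σ s)) • e2) (s * a * σ s) ∈ K := by
  have h1 := C.t2 hg gz guz ha h
  have := mul_mem (mul_mem (mul_mem hu h1) (inv_mem hu)) (inv_mem h1)
  rwa [conj_eich, map_zero, C.u2, (two_transv C.s1 C.s2 C.h12 (conj_mem' ha s)).2] at this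

omit hu in
theorem core (hs : s ≠ 0) (z1 : S.h z (u.1 z) = 0) (z2 : S.h z (u.1 (u.1 z)) = β) (hc : c ∈ P.Λ) (hcβ : c * σ c * (β * σ β) = 1)
    (ht : S.eich e 0 c ∈ K) : ∃ g0 ∈ K, ∃ μ, μ ≠ 0 ∧ g0.1 e = μ • e ∧ S.h e2 (g0.1 e2) ≠ 0 ∧
      -(σ μ * S.h e2 (g0.1 e2) / S.h e x) = P.ε / (c * (s * σ s) * S.h e x) ∧ ∃ k ∈ K, S.h e (k.1 e) ≠ 0 := by
  obtain ⟨k, hk⟩ : ∃ k, k = g * u * g⁻¹ := ⟨_, rfl⟩
  rw [← hk] at hg
  have ke : ∀ y, k.1 (g.1 y) = g.1 (u.1 y) := fun y => by simp [hk]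
  obtain ⟨f, hf⟩ : ∃ f, f = (k * k).1 e := ⟨_, rfl⟩
  have sf : S.Sing f := by rw [hf, isom_sing]; exact C.s1
  have f1 : f = g.1 (u.1 (u.1 z)) := by rw [hf, ← gz, isom_mul_apply, ke, ke]
  have b1 : S.h e f = β := by rw [f1, ← gz, isom_h, z2]
  have b2 : S.h f e = P.ε * σ β := by rw [S.symm, b1]
  have s0 : σ s ≠ 0 := by simpa
  have b3 : S.h e2 f = 0 := by
    have : S.h (s • e2) f = 0 := by rw [f1, ← guz, isom_h, isom_h, z1]
    simpa [hs] using this
  have b4 : σ s * (s * S.h e2 ((k * k).1 e2)) = β := by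
    rw [← S.h_smul_right, ← S.h_smul_left, ← map_smul, ← guz, isom_mul_apply, ke, ke, isom_h, isom_h, z2]
  have tf : S.eich f 0 c ∈ K := by
    have := mul_mem (mul_mem (mul_mem hg hg) ht) (inv_mem (mul_mem hg hg))
    rwa [conj_eich, map_zero, ← hf] at this
  have c0 : c ≠ 0 := fun h => by simp [h] at hcβ
  have β0 : β ≠ 0 := fun h => by simp [h] at hcβ
  have e1 := P.mem_imp c hc
  have e2' := P.εε
  have b5 : S.h e2 ((S.eich f 0 c * S.eich e 0 c * (k * k)).1 e2) = β / (s * σ s) := by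
    rw [isom_mul_apply, isom_mul_apply, transv_apply hc sf, transv_apply hc C.s1]
    simp only [map_sub, map_smul, b3, S.h_swap_zero C.h12, smul_zero, sub_zero]
    rw [← b4]; field_simp
  refine ⟨_, mul_mem (mul_mem tf ht) (mul_mem hg hg), -(P.ε * (c * β)), by simp [c0, β0, P.ε_ne_zero], ?_, by rw [b5]; simp [β0, hs], ?_,
    _, mul_mem hg hg, by rwa [← hf, b1]⟩
  · rw [isom_mul_apply, isom_mul_apply, ← hf, transv_apply hc sf, transv_apply hc C.s1]
    simp only [map_sub, map_smul, b1, b2, sf.h_self, smul_eq_mul]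
    match_scalars
    · linear_combination (P.ε ^ 3 * c * β * σ β) * e1 - (P.ε ^ 2 + 1) * (c * σ c * β * σ β) * e2' - hcβ
    · ring
  · have := C.top
    rw [b5]; simp only [map_neg, map_mul, P.σε]; field_simp
    linear_combination P.ε * hcβ

end Ch

theorem E_le_of_full [FiniteDimensional F V] (hS : S.Nondeg) {K : Subgroup S.Isom} {e : V} (he : S.Sing e) (h : Full K e) {k : S.Isom}
    (hk : k ∈ K) (h' : S.h e (k.1 e) ≠ 0) : S.E ≤ K :=
  S.E_le_iff.2 fun a v b _ => full_all_of_pair hS he ((isom_sing k e).2 he) h (h.map hk) h' a v b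

theorem exists_ch [FiniteDimensional F V] (hS : S.Nondeg) (hs : ∀ y, S.h y y = 0 → S.Sing y) {u : S.Isom} (h : Reg (iE u)) {m : ℕ}
    (hm : finrank F V = m + 4) : ∃ x e e2 e3, Ch S u m x e e2 e3 := by
  obtain ⟨x, hx⟩ := hS.exists_top h
  rw [hm] at hx
  have n := h.unip.pow_finrank
  rw [hm] at n
  have hx' : S.h (((iE u - 1) ^ (m + 3)) x) x ≠ 0 := fun h => hx (S.h_swap_zero h)
  refine ⟨x, _, _, _, rfl, rfl, rfl, n, hx', fun y hy => ?_, hs⟩
  have e0 : ((iE u - 1) ^ (m + 3)) x ≠ 0 := fun h => hx' (by simp [h])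
  have h1 := hS.finrank_perp (F ∙ ((iE u - 1) ^ (m + 3)) x)
  rw [finrank_span_singleton e0] at h1
  have h2 : LinearMap.range (iE u - 1) = S.perp (F ∙ ((iE u - 1) ^ (m + 3)) x) := Submodule.eq_of_le_of_finrank_eq (by
    rintro _ ⟨w, rfl⟩
    refine S.mem_perp_singleton.2 (S.h_swap_zero ?_)
    simpa using h_range_ker u (k := 1) w (y := ((iE u - 1) ^ (m + 3)) x) (by rw [← End.mul_apply, ← pow_add, add_comm, n]; rfl))
    (by rw [h.rank]; omega)
  obtain ⟨w, hw⟩ := h2.ge (S.mem_perp_singleton.2 hy)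
  exact ⟨w, hw.symm⟩

end H23.RU
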