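import Cfsg.Agent.H23.RU1

/-! Regular unipotent elements with a singular vector `z`, `h z (u z) = 0`, `h z (u² z) ≠ 0` (`reg_step'`, `step2`), and generation of
unitary groups of dimension `≥ 5` (`unit_three`) and symplectic groups of dimension `≥ 4` (`symp_three`) by three conjugates. -/

set_option autoImplicit false

namespace H23.RU
open H11 H11.PForm H29 Module

universe u v
variable {F : Type u} [Field F] {σ : F →+* F} {P : FParam σ} {V : Type v} [AddCommGroup V] [Module F V] [FiniteDimensional F V] {S : PForm P V}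

/-- cyclic vectors -/
def Cyc (S : PForm P V) (g : S.Isom) (w : V) : Prop := S.h w (((iE g - 1) ^ (finrank F V - 1)) w) ≠ 0

theorem reg_step' {e f : V} (H : S.IsHyp e f) {k : (S.restrict (S.perp (Submodule.span F {e, f}))).Isom} (hk : Reg (iE k))
    {w : S.perp (Submodule.span F {e, f})} (hw : Cyc _ k w) {a : F} (ha : a - S.q w ∈ P.Λ) : ∃ g : S.Isom, Reg (iE g) ∧ Cyc S g f ∧
      g.1 f = f + w - (P.ε * a) • e ∧ ∀ x : S.perp (Submodule.span F {e, f}), g.1 x = k.1 x - (P.ε * S.h w (k.1 x)) • e := by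
  have he : ∀ x : S.perp (Submodule.span F {e, f}), S.h e x = 0 := fun x => (S.mem_perp_pair.1 x.2).1
  have hE : S.ECond e w a := ⟨H.sing_e, he w, ha⟩
  obtain ⟨g, hg⟩ : ∃ g, g = S.eich e w a * ext2 H.nondeg k := ⟨_, rfl⟩
  have g2 : ∀ x : S.perp (Submodule.span F {e, f}), g.1 x = k.1 x - (P.ε * S.h w (k.1 x)) • e := fun x => by
    simp [hg, ext2_right, eich_apply_of_perp hE (he _)]
  have g3 : g.1 f = f + w - (P.ε * a) • e := by
    simp [hg, ext2_left H.nondeg k (Submodule.subset_span (by simp : f ∈ _)), eich_apply hE, H.h_ef, S.h_swap_zero (S.mem_perp_pair.1 w.2).2]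
  obtain ⟨N, hN⟩ : ∃ N, N = iE g - 1 := ⟨_, rfl⟩
  have h1 : N e = 0 := by simp [hN, hg, ext2_left H.nondeg k (Submodule.subset_span (by simp : e ∈ _)), eich_apply_self]
  have h2 : ∀ x : S.perp (Submodule.span F {e, f}), N x = (iE k - 1) x - (P.ε * S.h w (k.1 x)) • e := fun x => by
    simp [hN, g2]; abel
  have h3 : N f = w - (P.ε * a) • e := by simp [hN, g3]; abel
  have h4 : ∀ j (x : S.perp (Submodule.span F {e, f})), (N ^ (j + 1)) x =
      ((iE k - 1) ^ (j + 1)) x - (P.ε * S.h w (k.1 (((iE k - 1) ^ j) x))) • e := fun j x => by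
    induction j with
    | zero => simpa using h2 x
    | succ j ih => rw [pow_succ', End.mul_apply, ih, map_sub, map_smul, h1, h2, pow_succ' _ (j + 1)]; simp
  have h5 := H.finrank_perp
  obtain ⟨n, hn⟩ := Nat.exists_eq_add_one_of_ne_zero hk.pos.ne'
  have h6 := hk.unip.pow_finrank
  have h7 : ∀ j (c : F), (N ^ (j + 1)) (c • e) = 0 := fun j c => by simp [pow_succ, h1]
  have h8 : ∀ x : S.perp (Submodule.span F {e, f}), (N ^ (n + 2)) x = 0 := fun x => by
    rw [pow_succ', End.mul_apply, h4, ← hn, h6]; simp [h1]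
  have u : Unip (iE g) := ⟨n + 3, LinearMap.ext fun x => by
    obtain ⟨y, hy, e⟩ := H.exists_decomp x
    rw [e, ← hN, map_add, map_add, h7, map_smul, pow_succ _ (n + 2), End.mul_apply, h3, map_sub, h7, h8, ← pow_succ,
      pow_succ', End.mul_apply, h8 ⟨y, hy⟩]
    simp⟩
  have c : Cyc S g f := fun h => hw (by
    rw [← hN, ← h5, hn, show n + 1 + 2 - 1 = n + 1 + 1 from rfl, pow_succ, End.mul_apply, h3, map_sub, h7, h4, ← hn, h6] at h
    have h9 := congr($h6 w)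
    rw [hn, pow_succ', End.mul_apply, LinearMap.sub_apply, LinearMap.zero_apply, sub_eq_zero] at h9
    rw [hn]; simpa [H.h_fe, P.ε_ne_zero, show k.1 _ = _ from h9] using h)
  exact ⟨g, ⟨u, u.JT_eq_singleton' fun h => c (by simp [h])⟩, c, g3, g2⟩

theorem step1 {e f : V} (H : S.IsHyp e f) {k : (S.restrict (S.perp (Submodule.span F {e, f}))).Isom} (hk : Reg (iE k))
    {w : S.perp (Submodule.span F {e, f})} (hw : Cyc _ k w) {a : F} (ha : a - S.q w ∈ P.Λ) :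
    ∃ g : S.Isom, Reg (iE g) ∧ Cyc S g f ∧ S.h f (g.1 f) = -a := by
  obtain ⟨g, h1, h2, h3, -⟩ := reg_step' H hk hw ha
  refine ⟨g, h1, h2, ?_⟩
  simp [h3, H.h_ff, H.h_fe, (S.mem_perp_pair.1 w.2).2]
  linear_combination a * P.εε

theorem step2 {e f : V} (H : S.IsHyp e f) {k : (S.restrict (S.perp (Submodule.span F {e, f}))).Isom} (hk : Reg (iE k))
    {w : S.perp (Submodule.span F {e, f})} (hw : Cyc _ k w) (ha : S.Sing w) :
    ∃ g : S.Isom, Reg (iE g) ∧ g.1 f = f + w ∧ S.h f (g.1 f) = 0 ∧ S.h f (g.1 (g.1 f)) = -S.h w (k.1 w) := by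
  obtain ⟨g, h1, -, h3, h4⟩ := reg_step' H hk hw (a := 0) (by simpa using P.Λ.neg_mem ha)
  have hf : ∀ x : S.perp (Submodule.span F {e, f}), S.h f x = 0 := fun x => (S.mem_perp_pair.1 x.2).2
  simp only [mul_zero, zero_smul, sub_zero] at h3
  refine ⟨g, h1, h3, by simp [h3, H.h_ff, hf], ?_⟩
  rw [h3, map_add, h3, h4]
  simp [H.h_ff, hf, H.h_fe]
  linear_combination S.h w (k.1 w) * P.εε

namespace Ch
variable {u : S.Isom} {m : ℕ} {x e e2 e3 : V} (C : Ch S u m x e e2 e3)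
include C

theorem exists_g (hS : S.Nondeg) {z : V} (z0 : S.Sing z) (z1 : S.h z (u.1 z) = 0) (z2 : S.h z (u.1 (u.1 z)) ≠ 0) {s : F} (hs : s ≠ 0) :
    ∃ g : S.Isom, g.1 z = e ∧ g.1 (u.1 z) = s • e2 := by
  refine hS.witt_pair (LinearIndependent.pair_iff.2 fun a b h => ?_) (LinearIndependent.pair_iff.2 fun a b h => ?_)
    (P.Λ.sub_mem C.s1 z0) (P.Λ.sub_mem (C.s2.smul s) ((isom_sing u z).2 z0)) (by simp [C.h12, z1])
  · have h1 := congr(S.h z (u.1 $h))
    obtain rfl : b = 0 := by simpa [z1, z2] using h1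
    simpa [show z ≠ 0 from fun h => z2 (by simp [h])] using h
  · simpa [hs] using LinearIndependent.pair_iff.1 C.li a (b * s) (by rwa [mul_smul])

omit [FiniteDimensional F V] in
theorem comm2 {γ a : F} (h : S.ECond e (γ • e2) a) :
    u * S.eich e (γ • e2) a * u⁻¹ * (S.eich e (γ • e2) a)⁻¹ = S.eich e 0 (σ γ - P.ε * γ) := by
  have l : σ γ - P.ε * γ ∈ P.Λ := by simpa [P.σσ] using P.sub_mem (σ γ)
  have h' : S.ECond e (γ • e2) (σ γ - P.ε * γ + a) := ⟨h.sing, h.perp, by simpa [add_sub_assoc] using add_mem l h.q⟩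
  have := (eich_add_smul h' γ).2
  rw [show σ γ - P.ε * γ + a + (P.ε * γ - σ γ) = a by ring] at this
  rw [conj_eich, C.u1, map_smul, C.u2, smul_add, this, mul_inv_eq_iff_eq_mul, eich_mul (ECond.of_mem h.sing l) h]
  simp

omit [FiniteDimensional F V] in
theorem comm3 {γ a : F} (h : S.ECond e (γ • e3) a) : S.ECond e (γ • e2) (a + P.ε * σ a - S.h (γ • e3 + γ • e2) (γ • e3)) ∧
    u * S.eich e (γ • e3) a * u⁻¹ * (S.eich e (γ • e3) a)⁻¹ = S.eich e (γ • e2) (a + P.ε * σ a - S.h (γ • e3 + γ • e2) (γ • e3)) := by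
  have h' := h.map u
  rw [C.u1, map_smul, C.u3, smul_add] at h'
  have h2 := h'.add h.neg
  rw [conj_eich, C.u1, map_smul u.1, C.u3, smul_add, eich_inv h, eich_mul h' h.neg]
  rw [show γ • e3 + γ • e2 + -(γ • e3) = γ • e2 by abel, map_neg, ← sub_eq_add_neg] at h2 ⊢
  exact ⟨h2, rfl⟩

end Ch

theorem exists_gen_div {L : Type*} [Field L] [Finite L] {κ : L} (h : κ ≠ 0) : ∃ r, r ≠ 0 ∧ Gen (κ / r ^ 2) := by
  obtain ⟨ζ, h1, h2⟩ := exists_prim L
  obtain ⟨i, hi⟩ := h2 (Units.mk0 κ h)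
  obtain rfl : (ζ : L) ^ i = κ := by simpa using congrArg Units.val hi
  obtain ⟨j, rfl | rfl⟩ := Nat.even_or_odd' i
  · exact ⟨ζ ^ j / ζ, by simp, by convert gen_pow h1 (m := 2) (by simp) using 1; field_simp; ring⟩
  · exact ⟨ζ ^ j, by simp, by convert gen_pow h1 (m := 1) (by simp) using 1; field_simp; ring⟩

/-- multiples of `e₂` in `Bt` -/
def M2 (A : AddSubgroup V) (v : V) : AddSubgroup F := A.comap (LinearMap.toSpanSingleton F V v).toAddMonoidHom

theorem mem_SIsom_of_reg {u : S.Isom} (h : Reg (iE u)) : u ∈ S.SIsom := Units.ext ((det_iE u).symm.trans h.unip.det)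

section unit
variable [Finite F] {hσ : ∀ a, σ (σ a) = a} (hne : σ ≠ RingHom.id F) {S : PForm (unitP σ hσ) V}
include hne

omit [Finite F] in
theorem exists_gen_pos : ∃ a : F, σ a ≠ a ∧ σ a ≠ -a := by
  obtain ⟨a, ha⟩ := exists_σ_ne hne
  by_cases h : σ a = -a
  · refine ⟨a + 1, by simpa using ha, fun h' => ha ?_⟩
    rw [map_add, map_one, h] at h'
    linear_combination h + (-a) * h'
  · exact ⟨a, ha, h⟩

theorem unit_cyc (hS : S.Nondeg) {k : S.Isom} (hk : Reg (iE k)) {μ : F} (h : σ μ = μ) (h0 : μ ≠ 0) : ∃ w, Cyc S k w ∧ S.h w w = μ := by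
  obtain ⟨w, hw, h1⟩ : ∃ w, Cyc S k w ∧ S.h w w ≠ 0 := by
    obtain ⟨w, hw⟩ := hS.exists_top hk
    by_cases h1 : S.h w w = 0
    swap; · exact ⟨w, hw, h1⟩
    obtain ⟨n, hn⟩ : ∃ n, finrank F V - 1 = n + 1 := Nat.exists_eq_add_one_of_ne_zero fun e => hw (by simpa [e])
    obtain ⟨θ, hθ⟩ := exists_trace_one hσ hne
    obtain ⟨y, hy⟩ : ∃ y, y = ((iE k - 1) ^ (finrank F V - 1)) w := ⟨_, rfl⟩
    have y0 : ((iE k - 1) ^ (finrank F V - 1)) y = 0 := by
      rw [hy, ← End.mul_apply, ← pow_add, show finrank F V - 1 + (finrank F V - 1) = n + finrank F V by omega, pow_add, hk.unip.pow_finrank]; simp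
    have y1 : S.h y y = 0 := by nth_rw 1 [hy]; exact h_range_ker k w y0
    rw [← hy] at hw
    have s0 : σ (S.h w y) ≠ 0 := by simpa
    refine ⟨w + (θ / S.h w y) • y, by simpa [Cyc, y0, ← hy, y1], ?_⟩
    simp [h1, y1, unit_symm S w y, hw, s0, hθ, add_comm (σ θ)]
  obtain ⟨c, hc⟩ := unit_exists_smul_norm hne h1 h
  have c0 : c ≠ 0 := fun e => h0 (by simpa [e] using hc.symm)
  exact ⟨c • w, by simpa [Cyc, c0] using hw, hc⟩

theorem unit_three (hS : S.Nondeg) (hV : 5 ≤ finrank F V) : ∃ u ∈ S.SIsom, ∃ g ∈ S.SIsom, ∃ y ∈ S.SIsom, Reg (iE u) ∧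
    ∀ K : Subgroup S.Isom, u ∈ K → g * u * g⁻¹ ∈ K → y * u * y⁻¹ ∈ K → S.E ≤ K := by
  obtain ⟨α, α1, α2⟩ := exists_gen_pos hne
  obtain ⟨c, hc⟩ : ∃ c, c = σ α - α := ⟨_, rfl⟩
  have c0 : c ≠ 0 := hc ▸ sub_ne_zero.2 α1
  have σc : σ c = -c := by simp [hc, hσ]
  have α0 : α ≠ 0 := fun e => α1 (by simp [e])
  have σα : σ α ≠ 0 := by simpa
  have α3 : σ α + α ≠ 0 := fun e => α2 (by linear_combination e)
  obtain ⟨β, hβ⟩ : ∃ β, β = σ α / α / c := ⟨_, rfl⟩
  have β0 : β + σ β ≠ 0 := by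
    rw [show β + σ β = (σ α + α) / (α * σ α) by simp only [hβ, map_div₀, σc, hσ]; field_simp; rw [hc]; ring]
    positivity
  have β1 : c * σ c * (β * σ β) = 1 := by simp only [hβ, map_div₀, σc, hσ]; field_simp
  obtain ⟨e0, f, H⟩ := hS.unit_exists_hyp hne (by omega)
  have hW := hS.restrict_perp H.nondeg
  have d1 := H.finrank_perp
  obtain ⟨e', f', H'⟩ := hW.unit_exists_hyp hne (by omega)
  have d2 := H'.finrank_perp
  obtain ⟨k', hk'⟩ := (hW.restrict_perp H'.nondeg).unit_reg hne (by omega)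
  obtain ⟨w, w1, w2⟩ := unit_cyc hne (hW.restrict_perp H'.nondeg) hk' (μ := β + σ β) (by simp [hσ, add_comm]) β0
  obtain ⟨k, hk, k1, k2⟩ := step1 H' hk' w1 (a := β) ((unit_congr_iff _ _ _).2 w2)
  obtain ⟨u, hu, u1, z1, z2⟩ := step2 H hk k1 H'.sing_f
  rw [show S.h f' (k.1 f') = -β from k2, neg_neg] at z2
  obtain ⟨m, hm⟩ : ∃ m, finrank F V = m + 4 := ⟨finrank F V - 4, by omega⟩
  obtain ⟨x, e, e2, e3, C⟩ := exists_ch hS (fun y => (unit_sing S y).2) hu hm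
  have δ0 := C.top
  have σδ : σ (S.h e x) ≠ 0 := by simpa
  let F0 := RingHom.eqLocusField σ (RingHom.id F)
  obtain ⟨r, r0, hr⟩ := exists_gen_div (L := F0) (κ := ⟨1 / (c * σ c * (S.h e x * σ (S.h e x))), by simp [F0, hσ, mul_comm]⟩)
    (fun e => by simpa [c0, δ0] using congrArg Subtype.val e)
  obtain ⟨s, hs⟩ := exists_norm_eq hσ hne (μ := r) r.2
  have r0' : (r : F) ≠ 0 := by simpa using r0
  have s0 : s ≠ 0 := fun e => r0' (by simp [← hs, e])
  obtain ⟨g, g1, g2⟩ := C.exists_g hS H.sing_f z1 (by rw [z2]; exact fun e => β0 (by simp [e])) s0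
  have v0 : S.h w w ≠ 0 := by rwa [← show S.h w w = β + σ β from w2] at β0
  obtain ⟨ρ, ρ1, ρ2, -⟩ := exists_det_eq_of_ne v0 ⟨_, inv_mem (hS.det_mem_normOne g)⟩
  have f1 : S.h w f = 0 := S.h_swap_zero (S.mem_perp_pair.1 w.1.2).2
  have ρ3 : ρ.1 f = f := ρ1 _ (S.mem_perp_singleton.2 f1)
  have ρ4 : ρ.1 (u.1 f) = u.1 f := ρ1 _ (S.mem_perp_singleton.2 (by
    rw [u1, map_add, f1, zero_add]; exact S.h_swap_zero ((S.restrict _).mem_perp_pair.1 w.2).2))
  have y0 := ECond.of_q C.s1 (v := α • e3) (by simp [C.h13])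
  refine ⟨u, mem_SIsom_of_reg hu, g * ρ, by rw [SIsom, MonoidHom.mem_ker, map_mul, ρ2]; simp, _, eich_mem_SIsom S e (α • e3) (S.q (α • e3)), hu,
    fun K hu hg hy => ?_⟩
  obtain ⟨y1, y2⟩ := C.comm3 y0
  have a1 := mul_mem hu (inv_mem hy)
  rw [show ∀ y : S.Isom, u * (y * u * y⁻¹)⁻¹ = u * y * u⁻¹ * y⁻¹ by intro y; group, y2] at a1
  have a2 := mul_mem (mul_mem (mul_mem hu a1) (inv_mem hu)) (inv_mem a1)
  rw [C.comm2 y1, unitP_ε, one_mul, ← hc] at a2
  have cΛ : c ∈ (unitP σ hσ).Λ := mem_unitP_Λ.2 (by simp [σc])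
  have gz : (g * ρ).1 f = e := by rw [isom_mul_apply, ρ3, g1]
  have guz : (g * ρ).1 (u.1 f) = s • e2 := by rw [isom_mul_apply, ρ4, g2]
  obtain ⟨g0, b1, μ, b2, b3, b4, b5, k0, b6, b7⟩ := C.core hg gz guz s0 z1 z2 cΛ β1 a2
  refine E_le_of_full hS C.s1 (full_of_BSet_mod hS (lmin_unit hσ hne) (by omega) C.s1 (C.all hu b1 b2 b3 b4 fun t => ?_)) b6 b7
  obtain ⟨q, -, hq, -⟩ := unit_field_facts hσ hne
  obtain ⟨l, hl⟩ : ∃ l, l = 1 / (c * (s * σ s) * S.h e x) := ⟨_, rfl⟩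
  have l1 : ∀ (i : ℕ) (a : F), a • e2 ∈ Bt K C.s1 → (l ^ i * a) • e2 ∈ Bt K C.s1 := fun i a ha => by
    induction i with
    | zero => simpa
    | succ i ih => have := C.lift hu b1 b2 b3 ih; rwa [b5, unitP_ε, ← hl, ← mul_assoc, ← pow_succ'] at this
  have l2 : ∀ a : F, a • e2 ∈ Bt K C.s1 → ∀ t : F, σ t = t → (t * a) • e2 ∈ Bt K C.s1 := fun a ha t ht => by
    have := G2.top_of_gen hr one_ne_zero (A := (M2 (Bt K C.s1) (a • e2)).comap F0.subtype.toAddMonoidHom) (fun y hy => ?_) (by simpa [M2])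
    · simpa [M2, smul_smul] using this.ge (AddSubgroup.mem_top ⟨t, ht⟩)
    · have := l1 (q + 1) (y * a) (by simpa [M2, smul_smul] using hy)
      rw [pow_succ, ← hq, hl, mul_comm s, hs] at this
      simp only [map_div₀, map_mul, map_one, show σ r = r from r.2] at this
      simp only [M2, AddSubgroup.mem_comap]
      convert this using 1
      simp [smul_smul]; congr 1; field_simp
  have a3 := Bt_of (he := C.s1) (two_transv C.s1 C.s2 C.h12 (conj_mem' cΛ s)).1 (C.x2 hu hg gz guz cΛ a2)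
  have sc : s * c * σ s = c * r := by rw [← hs]; ring
  convert add_mem (l2 _ (Bt_of y1 a1) ((t + σ t) / (σ α + α)) (by simp [hσ, add_comm])) (l2 _ a3 (((t + σ t) / (σ α + α) * α - t) / (c * r))
    (by simp only [map_div₀, map_sub, map_mul, map_add, hσ, σc, show σ r = r from r.2, add_comm α]; field_simp; ring)) using 1
  rw [← add_smul, sc, unitP_ε]; congr 1; field_simp; ring

end unit

omit [FiniteDimensional F V] in
theorem eich_div {e v : V} {a b : F} (h : S.ECond e v a) (h' : S.ECond e v b) : S.eich e v a * (S.eich e v b)⁻¹ = S.eich e 0 (a - b) := by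
  rw [mul_inv_eq_iff_eq_mul, eich_mul (ECond.of_mem h.sing (by simpa using sub_mem h.q h'.q)) h']; simp

section symp
variable {S : PForm (sympP F) V}

theorem symp_A (hS : S.Nondeg) (h : 0 < finrank F V) : ∃ k : S.Isom, Reg (iE k) ∧ ∃ w, Cyc S k w ∧ S.h w (k.1 w) ≠ 0 := by
  obtain ⟨e, f, H⟩ := hS.symp_exists_hyp h
  have d := H.finrank_perp
  by_cases h2 : finrank F V = 2
  · exact ⟨S.eich e 0 1, reg_of_two h2 (by ext x; simp [sq, symp_transv_apply, H.h_ee]) fun h => by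
      simpa [symp_transv_apply, H.h_ef, H.e_ne] using congr($h f), f, by simp [Cyc, h2, symp_transv_apply, H.h_ef, H.h_fe, H.h_ff],
      by simp [symp_transv_apply, H.h_ef, H.h_fe, H.h_ff]⟩
  obtain ⟨k, hk⟩ := symp_reg (hS.restrict_perp H.nondeg) (by omega)
  obtain ⟨w, hw⟩ := (hS.restrict_perp H.nondeg).exists_top hk
  obtain ⟨g, h1, h2, h3⟩ := step1 H hk hw (a := 1) (by simp)
  exact ⟨g, h1, f, h2, by simp [h3]⟩

theorem symp_three [Finite F] (hS : S.Nondeg) (hV : 4 ≤ finrank F V) (h4 : finrank F V = 4 → ∃ t : F, t ≠ 0 ∧ t ≠ 1) :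
    ∃ u g y : S.Isom, Reg (iE u) ∧ ∀ K : Subgroup S.Isom, u ∈ K → g * u * g⁻¹ ∈ K → y * u * y⁻¹ ∈ K → S.E ≤ K := by
  obtain ⟨e0, f, H⟩ := hS.symp_exists_hyp (by omega)
  have d1 := H.finrank_perp
  obtain ⟨k, hk, w, k1, k2⟩ := symp_A (hS.restrict_perp H.nondeg) (by omega)
  obtain ⟨u, hu, -, z1, z2⟩ := step2 H hk k1 (symp_sing _ _)
  obtain ⟨β, hβ⟩ : ∃ β, β = S.h f (u.1 (u.1 f)) := ⟨_, rfl⟩
  have β0 : β ≠ 0 := by rwa [hβ, z2, neg_ne_zero]
  obtain ⟨m, hm⟩ : ∃ m, finrank F V = m + 4 := ⟨finrank F V - 4, by omega⟩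
  obtain ⟨x, e, e2, e3, C⟩ := exists_ch hS (fun y _ => symp_sing S y) hu hm
  have δ0 := C.top
  have ec : ∀ {v : V} (a : F), S.h e v = 0 → S.ECond e v a := fun a h => ⟨C.s1, h, by simp⟩
  have h23 : S.h e2 e3 = 0 ∨ S.h e2 e3 = -S.h e x ∧ ∃ t : F, t ≠ 0 ∧ t ≠ 1 := by
    rw [← C.d3, pow_succ', End.mul_apply, C.h2]
    rcases m with _ | m
    · exact Or.inr ⟨by simp, h4 hm⟩
    · left; rw [pow_succ', End.mul_apply, C.h1, neg_zero]
  have sq : (2 : F) = 0 → ∀ a : F, ∃ r, a = r * r := fun h2 a => by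
    have : CharP F 2 := (CharP.charP_iff_prime_eq_zero Nat.prime_two).2 h2
    exact FiniteField.isSquare_of_char_two (ringChar.eq F 2) a
  obtain ⟨y, c, r, hc, hy⟩ : ∃ (y : S.Isom) (c r : F), c * (r * r * β) = 1 ∧ (y * u * y⁻¹)⁻¹ = u⁻¹ * S.eich e 0 c := by
    simp only [show ∀ (y t : S.Isom), (y * u * y⁻¹)⁻¹ = u⁻¹ * t ↔ u * y * u⁻¹ * y⁻¹ = t from fun y t => by
      rw [eq_inv_mul_iff_mul_eq]; simp only [mul_inv_rev, inv_inv, mul_assoc]]
    by_cases h2 : (2 : F) = 0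
    · obtain ⟨α, α0, α1⟩ : ∃ α : F, α ≠ 0 ∧ 1 + α * S.h e2 e3 ≠ 0 := by
        rcases h23 with h | ⟨h, t, t0, t1⟩
        · exact ⟨1, one_ne_zero, by simp [h]⟩
        · exact ⟨t / S.h e x, by positivity, by rw [h, mul_neg, div_mul_cancel₀ _ δ0, ← sub_eq_add_neg]; exact sub_ne_zero.2 t1.symm⟩
      obtain ⟨r, hr⟩ := sq h2 (1 / (α * (1 + α * S.h e2 e3) * β))
      refine ⟨S.eich e (α • e3) 0 * S.eich e2 0 α, α * (1 + α * S.h e2 e3), r, by rw [← hr]; field_simp, ?_⟩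
      have a1 := (two_transv C.s1 C.s2 C.h12 (m := α) (by simp)).2
      rw [show ∀ a b : S.Isom, u * (a * b) * u⁻¹ * (a * b)⁻¹ = (u * a * u⁻¹) * ((u * b * u⁻¹) * b⁻¹) * a⁻¹ by intro a b; group,
        conj_eich, conj_eich, map_zero, C.u1, C.u2, a1, map_smul, C.u3, eich_mul (ec _ (by simp [C.h12, C.h13])) (ec _ (by simp [C.h12])),
        show α • (e3 + e2) + (-(sympP F).ε * α) • e2 = α • e3 by simp only [sympP_ε]; match_scalars; ring; linear_combination α * h2,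
        eich_div (ec _ (by simp [C.h13])) (ec _ (by simp [C.h13]))]
      congr 1
      simp [symp_h_self, symp_symm S e2 e3]
      linear_combination (-α ^ 2 * S.h e2 e3) * h2
    · refine ⟨S.eich e ((1 / (2 * β)) • e2) 0, 1 / β, 1, by field_simp, ?_⟩
      rw [C.comm2 (ec _ (by simp [C.h12]))]; congr 1; simp; field_simp; ring
  have c0 : c ≠ 0 := fun e => by simp [e] at hc
  obtain ⟨s, s0, hs⟩ := exists_gen_div (κ := -1 / (c * S.h e x)) (by simp [c0, δ0])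
  have z1' : S.h (r • f) (u.1 (r • f)) = 0 := by simp [z1]
  have z2' : S.h (r • f) (u.1 (u.1 (r • f))) = r * r * β := by simp [hβ, mul_assoc]
  obtain ⟨g, gz, guz⟩ := C.exists_g hS (symp_sing S _) z1' (by rw [z2']; exact fun e => by simp [e] at hc) s0
  refine ⟨u, g, y, hu, fun K hu hg hy' => ?_⟩
  have a2 := mul_mem hu (inv_mem hy')
  rw [hy, mul_inv_cancel_left] at a2
  obtain ⟨g0, b1, μ, b2, b3, b4, b5, k0, b6, b7⟩ := C.core hg gz guz s0 z1' z2' (by simp) (by simp; linear_combination (c * (r * r * β) + 1) * hc) a2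
  have a3 := C.x2 hu hg gz guz (by simp) a2
  have a4 := C.t2 hg gz guz (by simp) a2
  simp only [RingHom.id_apply, sympP_ε, neg_neg, one_mul] at a3 a4 b5
  have hl : -1 / (c * (s * s) * S.h e x) = -1 / (c * S.h e x) / s ^ 2 := by field_simp
  have hB := C.all hu b1 b2 b3 b4 fun t => by
    have := G2.top_of_gen hs (v := s * c * s) (by positivity) (A := M2 (Bt K C.s1) e2) (fun y hy => by
      have := C.lift hu b1 b2 b3 hy
      simp only [RingHom.id_apply] at this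
      rwa [b5, hl] at this) (Bt_of (ec _ (by simp [C.h12])) a3)
    exact this.ge (AddSubgroup.mem_top t)
  refine E_le_of_full hS C.s1 ?_ b6 b7
  by_cases h2 : (2 : F) = 0
  swap; · exact full_of_BSet_mod hS (lmin_symp h2) (by omega) C.s1 hB
  have hB' : ∀ v, S.h e v = 0 → ∃ a, S.eich e v a ∈ K := fun v hv => by
    obtain ⟨κ, a, -, ha⟩ := hB v hv
    refine ⟨a + 2 * κ, ?_⟩
    rw [← (eich_add_smul (ec _ hv) κ).2]
    convert ha using 2; simp; ring
  refine full_of_BSet C.s1 (fun v hv => (hB' v hv).imp fun a ha => ⟨ec a hv, ha⟩) fun t _ => ?_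
  obtain ⟨n, hn⟩ : ∃ n, n = s * c * s := ⟨_, rfl⟩
  rw [← hn] at a4
  have n0 : n ≠ 0 := by rw [hn]; positivity
  have n1 : n * S.h e2 e3 - 1 ≠ 0 := by
    rcases h23 with h | ⟨h, t, t0, t1⟩
    · simp [h]
    · intro h'
      rw [← hl, show c * (s * s) * S.h e x = -1 by rw [h, hn] at h'; linear_combination -h'] at hs
      refine (hs.ind (P := fun a => a = 0 ∨ a = 1) (Or.inl rfl) ?_ (by simp) t).elim t0 t1
      rintro _ _ (rfl | rfl) (rfl | rfl) <;> simp [one_add_one_eq_two, h2]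
  obtain ⟨ρ, hρ⟩ := sq h2 (t / (n * (n * S.h e2 e3 - 1)))
  obtain ⟨v, v1, v2⟩ : ∃ v, S.h e v = 0 ∧ S.h e2 v = ρ :=
    ⟨(-ρ / S.h e x) • (iE u - 1) x, by rw [map_smul, C.h1, smul_zero], by rw [map_smul, C.h2, smul_eq_mul]; field_simp⟩
  obtain ⟨a, ha⟩ := hB' v v1
  obtain ⟨b, hb⟩ := hB' ((n * ρ) • e3) (by simp [C.h13])
  have c1 := mul_mem (mul_mem (mul_mem a4 ha) (inv_mem a4)) (inv_mem ha)
  have c2 := mul_mem (mul_mem (mul_mem hu hb) (inv_mem hu)) (inv_mem hb)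
  rw [(C.comm3 (ec _ (by simp [C.h13]))).2] at c2
  rw [conj_eich, symp_transv_apply, symp_transv_apply, S.h_swap_zero C.h12, mul_zero, zero_smul, add_zero, v2, eich_inv (ec _ v1),
    eich_mul (ec _ (by simp [v1, C.h12])) (ec _ (by simp [v1])), add_neg_cancel_comm] at c1
  have := mul_mem c1 (inv_mem c2)
  rw [eich_div (ec _ (by simp [C.h12])) (ec _ (by simp [C.h12]))] at this
  convert this using 2
  rw [div_eq_iff (by positivity)] at hρ
  simp [symp_h_self, v2]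
  linear_combination hρ

end symp

end H23.RU
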