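import Cfsg.Agent.H23.RU2
import Cfsg.Agent.H11.ThC

/-! `SU₃(q)`, `q ≥ 3`, is generated by two conjugate regular unipotent elements (`unit_two`). -/

set_option autoImplicit false

namespace H23.RU
open H11 H11.PForm H29 Module

universe u v
variable {F : Type u} [Field F] {σ : F →+* F} {hσ : ∀ a, σ (σ a) = a} {V : Type v} [AddCommGroup V] [Module F V] [FiniteDimensional F V]
  {S : PForm (unitP σ hσ) V}

/-- standard frame of a unitary 3-space -/
structure T3 (S : PForm (unitP σ hσ) V) (e w f : V) : Prop where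
  H : S.IsHyp e f
  ew : S.h e w = 0
  fw : S.h f w = 0
  ww : S.h w w = 1
  dim : finrank F V = 3

/-- field data for two generators of `SU₃` and a word in them fixing a point -/
def Dat (σ : F →+* F) : Prop := ∃ a b A B κ μ l : F, b + σ b = σ a * a ∧ B + σ B = σ A * A ∧ a ≠ 0 ∧ κ ≠ 0 ∧ A * κ = -a * σ κ * σ κ ∧
  μ ≠ 0 ∧ l * μ = σ μ * σ μ ∧ Gen l ∧ ∀ O : F → F → F → Prop, O 1 0 0 → (∀ x y z, O x y z → O (x - (σ a * y + b * z)) (y + a * z) z) →
    (∀ x y z, O x y z → O (x - (σ (-a) * y + σ b * z)) (y + -a * z) z) → (∀ x y z, O x y z → O x (y + A * x) (z - (σ A * y + B * x))) → O μ 0 0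

theorem dat5 {t : F} (g1 : Gen t) (c5 : (5 : F) = 0) (r : t ^ 2 - t + 1 = 0) (sγ : σ t = t ^ 5) : Dat σ := by
  replace sγ : σ t = 1 - t := by grind
  refine ⟨2 + t, 4 + 4 * t, 1, t, 1 + t, 4 + 4 * t, 4 + 2 * t, by simp only [map_add, map_mul, map_ofNat, sγ]; grind, by simp [sγ],
    fun e => one_ne_zero (α := F) (by grind), fun e => one_ne_zero (α := F) (by grind),
    by simp only [map_add, map_one, sγ]; grind, fun e => one_ne_zero (α := F) (by grind),
    by simp only [map_add, map_mul, map_ofNat, sγ]; grind, g1.of_mem ?_, fun O h0 hu _ hv => ?_⟩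
  · have := Subring.subset_closure (Set.mem_singleton (4 + 2 * t))
    convert add_mem (mul_mem (natCast_mem _ 3) this) (natCast_mem _ 3) using 1
    push_cast; grind
  · convert hv _ _ _ (hv _ _ _ (hu _ _ _ (hv _ _ _ h0))) using 1 <;> simp only [map_add, map_one, map_ofNat, sγ] <;> grind

theorem dat8 {t : F} (g1 : Gen t) (c2 : (2 : F) = 0) (r : t ^ 6 + t ^ 3 + 1 = 0) (sγ : σ t = t ^ 8) : Dat σ := by
  replace sγ : σ t = t ^ 2 + t ^ 5 := by grind
  have sa : σ (t ^ 2 + t ^ 4 + t ^ 5) = t + t ^ 5 := by simp only [map_add, map_pow, sγ]; grind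
  have sb : σ (1 + t + t ^ 2 + t ^ 4 + t ^ 5) = 1 + t + t ^ 2 := by simp only [map_add, map_pow, map_one, sγ]; grind
  have sB : σ (t ^ 3 + t ^ 4 + t ^ 5) = 1 + t ^ 3 + t ^ 4 + t ^ 5 := by simp only [map_add, map_pow, sγ]; grind
  have sκ : σ (1 + t + t ^ 5) = 1 + t ^ 2 + t ^ 4 + t ^ 5 := by simp only [map_add, map_pow, map_one, sγ]; grind
  have sμ : σ (1 + t + t ^ 4 + t ^ 5) = 1 + t ^ 2 + t ^ 4 := by simp only [map_add, map_pow, map_one, sγ]; grind
  refine ⟨t ^ 2 + t ^ 4 + t ^ 5, 1 + t + t ^ 2 + t ^ 4 + t ^ 5, 1, t ^ 3 + t ^ 4 + t ^ 5, 1 + t + t ^ 5, 1 + t + t ^ 4 + t ^ 5,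
    1 + t ^ 2 + t ^ 3 + t ^ 4 + t ^ 5, by rw [sa, sb]; grind, by rw [sB, map_one]; grind,
    fun e => one_ne_zero (α := F) (by grind), fun e => one_ne_zero (α := F) (by grind), by rw [sκ]; grind, fun e => one_ne_zero (α := F) (by grind),
    by rw [sμ]; grind, g1.of_mem ?_, fun O h0 hu hU hv => ?_⟩
  · have := Subring.subset_closure (Set.mem_singleton (1 + t ^ 2 + t ^ 3 + t ^ 4 + t ^ 5))
    convert add_mem (add_mem (one_mem _) this) (pow_mem this 2) using 1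
    grind
  · simp only [map_neg, map_one, sa, sb] at hu hU hv
    have a1 : O (1 + t ^ 3 + t ^ 4) (t + t ^ 3 + t ^ 5) (t ^ 3 + t ^ 4 + t ^ 5) := by
      convert hU _ _ _ (hv _ _ _ h0) using 1 <;> grind
    have a2 : O (1 + t ^ 3 + t ^ 4) (1 + t + t ^ 4 + t ^ 5) (t + t ^ 5) := by convert hv _ _ _ a1 using 1 <;> grind
    have a3 : O (1 + t) (1 + t) (t + t ^ 5) := by convert hu _ _ _ a2 using 1 <;> grind
    have a4 : O (1 + t + t ^ 4 + t ^ 5) (1 + t + t ^ 4 + t ^ 5) (t + t ^ 5) := by convert hu _ _ _ a3 using 1 <;> grind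
    convert hv _ _ _ a4 using 1 <;> grind

theorem datG (hσ : ∀ a, σ (σ a) = a) {A B γ : F} (g3 : Gen (γ ^ 3)) (g2 : σ B = γ * B) (B0 : B ≠ 0) (B2 : B + σ B ≠ 0) (hA : σ A * A = B + σ B) :
    Dat σ := by
  have B1 : σ B ≠ 0 := by simpa
  have A0 : A ≠ 0 := fun e => B2 (by simp [← hA, e])
  have A1 : σ A ≠ 0 := by simpa
  refine ⟨A * (B + σ B) / (B * σ B), (B / σ B - 1 + (B + σ B) ^ 2 / (B * σ B)) / B, A, B, -(B * σ B) / (B + σ B), B / σ B, γ ^ 3, ?_, hA.symm,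
    by positivity, by simp [B0, B2], ?_, by positivity, ?_, g3, fun O h0 hu _ hv => ?_⟩
  · simp only [map_div₀, map_add, map_sub, map_mul, map_pow, map_one, hσ]; field_simp
    linear_combination (-(B + σ B) ^ 2) * hA
  · simp only [map_div₀, map_add, map_neg, map_mul, hσ, add_comm (σ B)]; field_simp
  · simp only [map_div₀, hσ, show γ = σ B / B by rw [g2]; field_simp]; field_simp
  · clear g3 g2
    convert hv _ _ _ (hu _ _ _ (hv _ _ _ h0)) using 1 <;> simp only [map_div₀, map_add, map_mul, hσ] <;> field_simp <;> grind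

namespace T3
variable {e w f : V} (T : T3 S e w f)
include T

theorem co (x y z : F) : S.h f (x • e + y • w + z • f) = x ∧ S.h w (x • e + y • w + z • f) = y ∧ S.h e (x • e + y • w + z • f) = z := by
  simp [T.H.h_ee, T.H.h_ff, T.H.h_ef, T.H.h_fe, T.ew, T.fw, T.ww, S.h_swap_zero T.ew, S.h_swap_zero T.fw]

theorem basis : ∃ b : Basis (Fin 3) F V, b 0 = e ∧ b 1 = w ∧ b 2 = f ∧ ∀ x, b.repr x 0 = S.h f x ∧ b.repr x 1 = S.h w x ∧ b.repr x 2 = S.h e x := by
  have li : LinearIndependent F ![e, w, f] := Fintype.linearIndependent_iff.2 fun c hc i => by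
    have := T.co (c 0) (c 1) (c 2)
    rw [show c 0 • e + c 1 • w + c 2 • f = 0 by simpa [Fin.sum_univ_three] using hc] at this
    simp only [map_zero] at this
    fin_cases i
    exacts [this.1.symm, this.2.1.symm, this.2.2.symm]
  obtain ⟨b, hb⟩ : ∃ b : Basis (Fin 3) F V, ⇑b = ![e, w, f] := ⟨basisOfLinearIndependentOfCardEqFinrank li (by simp [T.dim]), by simp⟩
  refine ⟨b, by simp [hb], by simp [hb], by simp [hb], fun x => ?_⟩
  have := T.co (b.repr x 0) (b.repr x 1) (b.repr x 2)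
  rw [show b.repr x 0 • e + b.repr x 1 • w + b.repr x 2 • f = x by simpa [Fin.sum_univ_three, hb] using b.sum_repr x] at this
  simp [this]

theorem dec (x : V) : x = S.h f x • e + S.h w x • w + S.h e x • f := by
  obtain ⟨b, h0, h1, h2, h⟩ := T.basis
  have := b.sum_repr x
  rw [Fin.sum_univ_three, h0, h1, h2, (h x).1, (h x).2.1, (h x).2.2] at this
  exact this.symm

theorem det {g : S.Isom} (hg : g ∈ S.SIsom) (h1 : S.h w (g.1 e) = 0) (h2 : S.h e (g.1 w) = 0) (h3 : S.h e (g.1 e) * S.h f (g.1 w) = 0) :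
    S.h w (g.1 w) * (S.h f (g.1 e) * S.h e (g.1 f) - S.h e (g.1 e) * S.h f (g.1 f)) = 1 := by
  obtain ⟨b, h0, h1', h2', h⟩ := T.basis
  have := (det_iE g).trans (congrArg Units.val hg)
  rw [← LinearMap.det_toMatrix b, Matrix.det_fin_three] at this
  simp [LinearMap.toMatrix_apply, h0, h1', h2', h, h1, h2] at this
  linear_combination this - S.h w (g.1 f) * h3

theorem ec {a b : F} (h : b + σ b = σ a * a) : S.ECond e (a • w) b :=
  ⟨T.H.sing_e, by simp [T.ew], (unit_congr_iff _ _ _).2 (by simp [T.ww, h, mul_comm])⟩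

theorem swap : T3 S f w e := ⟨by simpa using T.H.swap, T.fw, T.ew, T.ww, T.dim⟩

theorem X_apply {a b : F} (h : b + σ b = σ a * a) (x y z : F) :
    (S.eich e (a • w) b).1 (x • e + y • w + z • f) = (x - (σ a * y + b * z)) • e + (y + a * z) • w + z • f := by
  rw [eich_apply (T.ec h), S.h_smul_left, (T.co x y z).2.1, (T.co x y z).2.2, unitP_ε]; module

theorem reg {a b : F} (h : b + σ b = σ a * a) (a0 : a ≠ 0) : Reg (iE (S.eich e (a • w) b)) := by
  have h1 : ∀ x y z : F, (iE (S.eich e (a • w) b) - 1) (x • e + y • w + z • f) = (-(σ a * y + b * z)) • e + (a * z) • w + (0 : F) • f :=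
    fun x y z => by rw [LinearMap.sub_apply, LinearEquiv.coe_coe, T.X_apply h, End.one_apply]; module
  have u : Unip (iE (S.eich e (a • w) b)) := ⟨3, LinearMap.ext fun x => by
    rw [T.dec x, pow_three, End.mul_apply, End.mul_apply, h1, h1, h1]; simp⟩
  refine ⟨u, u.JT_eq_singleton' fun h => ?_⟩
  have := congr($h ((0 : F) • e + (0 : F) • w + (1 : F) • f))
  rw [T.dim, show 3 - 1 = 2 from rfl, sq, End.mul_apply, h1, h1] at this
  simp [a0, T.H.e_ne] at this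

variable [Finite F] (hne : σ ≠ RingHom.id F) (hS : S.Nondeg)
include hne hS

theorem conj {a b A B κ : F} (h : b + σ b = σ a * a) (h' : B + σ B = σ A * A) (a0 : a ≠ 0) (κ0 : κ ≠ 0) (hκ : A * κ = -a * σ κ * σ κ) :
    ∃ g ∈ S.SIsom, g * S.eich e (a • w) b * g⁻¹ = S.eich f (A • w) B := by
  have s0 : σ κ ≠ 0 := by simpa
  obtain ⟨g1, g1e, g1f⟩ := hS.witt_hyp T.H (e' := κ • f) (f' := (σ κ)⁻¹ • e) ⟨T.H.sing_f.smul _, T.H.sing_e.smul _, by simp [T.H.h_fe, s0]⟩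
  obtain ⟨ρ, ρ1, ρ2, -⟩ := exists_det_eq_of_ne (T.ww ▸ one_ne_zero : S.h w w ≠ 0) ⟨_, inv_mem (hS.det_mem_normOne g1)⟩
  obtain ⟨g, g0, ge, gf⟩ : ∃ g ∈ S.SIsom, g.1 e = κ • f ∧ g.1 f = (σ κ)⁻¹ • e := ⟨g1 * ρ, by rw [SIsom, MonoidHom.mem_ker, map_mul, ρ2]; simp,
    by rw [isom_mul_apply, ρ1 _ (S.mem_perp_singleton.2 (S.h_swap_zero T.ew)), g1e],
    by rw [isom_mul_apply, ρ1 _ (S.mem_perp_singleton.2 (S.h_swap_zero T.fw)), g1f]⟩
  have h1 : S.h f (g.1 w) = 0 := by simpa [ge, κ0, T.ew] using isom_h g e w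
  have h2 : S.h e (g.1 w) = 0 := by simpa [gf, κ0, T.fw] using isom_h g f w
  have h3 := T.det g0 (by simp [ge, S.h_swap_zero T.fw]) h2 (by simp [h1])
  simp [ge, gf, T.H.h_ee, T.H.h_ff, T.H.h_ef, T.H.h_fe] at h3
  have h4 : σ κ • g.1 (a • w) = A • w := by
    rw [map_smul, T.dec (g.1 w), h1, h2]; simp only [zero_smul, zero_add, add_zero, smul_smul]; congr 1
    field_simp at h3
    apply mul_right_cancel₀ κ0
    linear_combination -hκ - a * σ κ * h3
  have c1 := (T.ec h).map g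
  rw [ge] at c1
  have c2 := c1.smul κ0
  have c3 : S.ECond f (g.1 (a • w)) b := ⟨T.H.sing_f, by simp [h1], c1.q⟩
  have e1 : g * S.eich e (a • w) b * g⁻¹ = S.eich f (A • w) (κ * b * σ κ) := by rw [conj_eich, ge, eich_smul c3, h4]
  rw [h4] at c2
  have c4 := T.swap.ec h'
  obtain ⟨c, hc⟩ := lmin_unit hσ hne _ (by simpa using sub_mem c4.q c2.q : B - κ * b * σ κ ∈ _)
  have A0 : σ A ≠ 0 := fun e => by simp [show A = 0 by simpa using e, a0, s0] at hκ
  have c5 := ECond.of_q T.H.sing_f (v := (-c / σ A) • w) (by simp [T.fw])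
  refine ⟨S.eich f _ _ * g, mul_mem (eich_mem_SIsom S f ((-c / σ A) • w) (S.q ((-c / σ A) • w))) g0, ?_⟩
  rw [mul_inv_rev, show ∀ y x : S.Isom, y * g * x * (g⁻¹ * y⁻¹) = y * (g * x * g⁻¹) * y⁻¹ by intro y x; group, e1, mul_inv_eq_iff_eq_mul,
    eich_mul c5 c2, eich_mul c4 c5, add_comm (A • w)]
  congr 1
  have A1 : A ≠ 0 := by simpa using A0
  simp [T.ww, hσ] at hc ⊢
  field_simp
  linear_combination -hc

theorem gen (D : Dat σ) :
    ∃ u ∈ S.SIsom, ∃ g ∈ S.SIsom, Reg (iE u) ∧ ∀ K : Subgroup S.Isom, K ≤ S.SIsom → u ∈ K → g * u * g⁻¹ ∈ K → S.E ≤ K := by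
  obtain ⟨a, b, A, B, κ, μ, l, h, h', a0, κ0, hκ, μ0, hl, hg, hW⟩ := D
  obtain ⟨g, g0, e1⟩ := T.conj hne hS h h' a0 κ0 hκ
  refine ⟨_, eich_mem_SIsom _ _ _ _, g, g0, T.reg h a0, fun K hK hu hv => ?_⟩
  rw [e1] at hv
  obtain ⟨k, k1, k2⟩ := hW (fun x y z => ∃ k ∈ K, k.1 e = x • e + y • w + z • f) ⟨1, one_mem _, by simp⟩
    (fun x y z ⟨k, k1, k2⟩ => ⟨_, mul_mem hu k1, by rw [isom_mul_apply, k2, T.X_apply h]⟩)
    (fun x y z ⟨k, k1, k2⟩ => ⟨_, mul_mem (inv_mem hu) k1, by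
      rw [isom_mul_apply, k2, eich_inv (T.ec h), ← neg_smul, unitP_ε, one_mul, T.X_apply (by simp [hσ, ← h, add_comm])]⟩)
    (fun x y z ⟨k, k1, k2⟩ => ⟨_, mul_mem hv k1, by
      rw [isom_mul_apply, k2, show x • e + y • w + z • f = z • f + y • w + x • e by abel, T.swap.X_apply h']; abel⟩)
  simp only [zero_smul, add_zero] at k2
  have s0 : σ μ ≠ 0 := by simpa
  have h1 : S.h e (k.1 w) = 0 := by simpa [k2, μ0, T.ew] using isom_h k e w
  have h2 : σ μ * S.h e (k.1 f) = 1 := by simpa [k2, T.H.h_ef] using isom_h k e f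
  have h3 := T.det (hK k1) (by simp [k2, S.h_swap_zero T.ew]) h1 (by simp [k2, T.H.h_ee])
  simp [k2, T.H.h_ee, T.H.h_fe] at h3
  have h4 : σ μ * S.h w (k.1 w) = l := mul_right_cancel₀ μ0 (by linear_combination σ μ * σ μ * h3 - hl - σ μ * S.h w (k.1 w) * μ * h2)
  have hM := G2.top_of_gen hg a0 (A := M2 (Bt K T.H.sing_e) w) (fun y hy => by
    have := Bt_map k1 μ0 k2 hy
    simp only [LinearMap.toAddMonoidHom_coe, LinearMap.toSpanSingleton_apply, map_smul] at this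
    rw [T.dec (k.1 w), h1] at this
    simp only [M2, AddSubgroup.mem_comap, LinearMap.toAddMonoidHom_coe, LinearMap.toSpanSingleton_apply]
    convert sub_mem this (Bt_self (σ μ * y * S.h f (k.1 w))) using 1
    rw [← h4]; module) (Bt_of (T.ec h) hu)
  refine E_le_of_full hS T.H.sing_e (full_of_BSet_mod hS (lmin_unit hσ hne) T.dim.ge T.H.sing_e fun v hv => ?_) hv ?_
  · rw [T.dec v, hv, zero_smul, add_zero]
    exact add_mem (Bt_self (he := T.H.sing_e) _) (hM.ge (AddSubgroup.mem_top (S.h w v)))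
  · have := T.swap.X_apply h' 0 0 1
    simp only [zero_smul, zero_add, one_smul] at this
    rw [this]
    simp [T.H.h_ef, T.H.h_ee, T.ew]
    rintro rfl
    simp [show A = 0 by simpa using h'.symm, a0, κ0] at hκ

end T3

theorem gen_cube {L : Type*} [Field L] [Finite L] {q : ℕ} (hL : Nat.card L = q ^ 2) (h3 : 3 ≤ q) (h5 : q ≠ 5) (h8 : q ≠ 8) {γ : Lˣ}
    (hγ : orderOf γ = q + 1) : Gen ((γ ^ 3 : Lˣ) : L) := by
  by_contra h
  obtain ⟨k, d, h1, h2, e3, h4⟩ := G2.not_gen_pow h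
  have e4 := G2.pow_pred (a := γ ^ 3) (k := k) (by omega) (Units.ext (by simpa using h4))
  rw [← pow_mul, ← orderOf_dvd_iff_pow_eq_one, hγ] at e4
  rcases h2.eq_or_lt with rfl | h2
  · obtain rfl : q = k := Nat.pow_left_injective two_ne_zero (hL.symm.trans e3)
    have : q + 1 ∣ 6 := by simpa [show 3 * (q + 1) - 3 * (q - 1) = 6 by omega] using Nat.dvd_sub (dvd_mul_left (q + 1) 3) e4
    have h6 : q ≤ 5 := by have := Nat.le_of_dvd (by omega) this; omega
    interval_cases q <;> omega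
  · have e5 := Nat.le_of_dvd (by omega) e4
    have e6 : k ^ 3 ≤ q ^ 2 := hL ▸ e3 ▸ Nat.pow_le_pow_right (by omega) h2
    obtain ⟨k, rfl⟩ := Nat.exists_eq_add_of_le' h1
    have e7 : q ^ 2 ≤ (3 * k + 2) ^ 2 := Nat.pow_le_pow_left (by omega) 2
    have e8 : k ≤ 2 := by by_contra h; nlinarith [Nat.zero_le (k ^ 2), Nat.zero_le (k ^ 3)]
    have e9 : q ≤ 8 := by omega
    interval_cases k <;> interval_cases q <;> omega

theorem unit_two [Finite F] (hne : σ ≠ RingHom.id F) (hS : S.Nondeg) (hV : finrank F V = 3) {q : ℕ} (hF : Nat.card F = q ^ 2) (h3 : 3 ≤ q) :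
    ∃ u ∈ S.SIsom, ∃ g ∈ S.SIsom, Reg (iE u) ∧ ∀ K : Subgroup S.Isom, K ≤ S.SIsom → u ∈ K → g * u * g⁻¹ ∈ K → S.E ≤ K := by
  obtain ⟨e, f, H⟩ := hS.unit_exists_hyp hne (by omega)
  have d := H.finrank_perp
  have : Nontrivial (S.perp (Submodule.span F {e, f})) := finrank_pos_iff.1 (by omega : 0 < finrank F _)
  obtain ⟨w, hw⟩ := (hS.restrict_perp H.nondeg).unit_exists_norm hne (μ := 1) (by simp)
  have T : T3 S e w f := ⟨H, (S.mem_perp_pair.1 w.2).1, (S.mem_perp_pair.1 w.2).2, hw, hV⟩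
  obtain ⟨β, hβ, -⟩ := exists_prim F
  have hγ := G2.exists_ord hF hβ
  have hq := unit_σ_eq hσ hne hF
  have g1 := G2.gen_orth hF (by omega) (c := 1) hγ (by simp)
  have g2 : σ β = (β ^ (q - 1) : Fˣ) * β := by rw [hq, Units.val_pow_eq_pow_val, ← pow_succ, Nat.sub_add_cancel (by omega)]
  generalize β ^ (q - 1) = γ at hγ g1 g2
  have o : ∀ i, (γ : F) ^ i = 1 ↔ q + 1 ∣ i := fun i => by
    rw [← hγ, orderOf_dvd_iff_pow_eq_one, ← Units.val_pow_eq_pow_val, Units.val_eq_one]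
  have p : (q : F) ^ 2 = 0 := by
    have := Fintype.ofFinite F
    rw [← Nat.cast_pow, ← hF, Nat.card_eq_fintype_card, FiniteField.cast_card_eq_zero]
  rw [one_mul] at g1
  have sγ := hq γ
  refine T.gen hne hS ?_
  by_cases h5 : q = 5
  · subst h5
    have a1 := (o 6).2 (by norm_num)
    have a2 := (o 3).not.2 (by norm_num)
    have a3 := (o 2).not.2 (by norm_num)
    exact dat5 g1 (by simpa using p) (mul_left_cancel₀ (mul_ne_zero (sub_ne_zero.2 a2) (show (γ : F) + 1 ≠ 0 from fun e => a3 (by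
      linear_combination (γ - 1) * e))) (by linear_combination a1)) sγ
  by_cases h8 : q = 8
  · subst h8
    have a1 := (o 9).2 (by norm_num)
    have a2 := (o 3).not.2 (by norm_num)
    exact dat8 g1 (pow_eq_zero_iff (n := 6) (by simp) |>.1 (by rw [← p]; norm_num))
      (mul_left_cancel₀ (sub_ne_zero.2 a2) (by linear_combination a1)) sγ
  have B2 : β + σ β ≠ 0 := fun e => by
    have : (γ : F) = -1 := mul_right_cancel₀ β.ne_zero (by linear_combination e - g2)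
    have := Nat.le_of_dvd two_pos ((o 2).1 (by simp [this]))
    omega
  obtain ⟨A, hA⟩ := exists_norm_eq hσ hne (μ := β + σ β) (by simp [hσ, add_comm])
  exact datG hσ (by simpa using gen_cube hF h3 h5 h8 hγ) g2 β.ne_zero B2 hA

theorem su_transfer [Fintype F] {q n : ℕ} (hne : σ ≠ RingHom.id F) (hq : ∀ x, σ x = x ^ q) (hn : 2 ≤ n) {u g y : (stdUnit hσ hne (Fin n)).Isom}
    (hu : u ∈ SIsom _) (hg : g ∈ SIsom _) (hy : y ∈ SIsom _) (hr : Reg (iE u))
    (h : ∀ K : Subgroup (stdUnit hσ hne (Fin n)).Isom, K ≤ SIsom _ → u ∈ K → g * u * g⁻¹ ∈ K → y * u * y⁻¹ ∈ K → E _ ≤ K) :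
    ∃ u g' y' : Cfsg.SU n F q, (IsNilpotent (u.1.1 - 1) ∧ (u.1.1 - 1) ^ (n - 1) ≠ 0) ∧
      Subgroup.closure ({u, g' * u * g'⁻¹, y' * u * y'⁻¹} : Set (Cfsg.SU n F q)) = ⊤ ∧ (g = y → g' = y') := by
  have hS := stdUnit_nondeg hσ hne (Fin n)
  obtain ⟨e, f, H⟩ := hS.unit_exists_hyp hne (by simpa)
  obtain ⟨u', hu'⟩ := (suEquiv hσ hne hq n).surjective ⟨u, hu⟩
  obtain ⟨g', hg'⟩ := (suEquiv hσ hne hq n).surjective ⟨g, hg⟩
  obtain ⟨y', hy'⟩ := (suEquiv hσ hne hq n).surjective ⟨y, hy⟩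
  obtain rfl : (suEquiv hσ hne hq n u').1 = u := congrArg Subtype.val hu'
  obtain rfl : (suEquiv hσ hne hq n g').1 = g := congrArg Subtype.val hg'
  obtain rfl : (suEquiv hσ hne hq n y').1 = y := congrArg Subtype.val hy'
  have h1 := hr.pow_ne
  have h2 := hr.unip
  rw [iE_suEquiv] at h1 h2
  refine ⟨u', g', y', ⟨unip_mE.1 h2, by simpa only [finrank_fintype_fun_eq_card, Fintype.card_fin, mE_sub_one_pow, Ne, mE_eq_zero] using h1⟩,
    eq_top_iff.2 fun a _ => ?_, fun e => (suEquiv hσ hne hq n).injective (Subtype.ext e)⟩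
  have := h ((Subgroup.closure {u', g' * u' * g'⁻¹, y' * u' * y'⁻¹}).map ((SIsom _).subtype.comp (suEquiv hσ hne hq n).toMonoidHom))
    (by rintro _ ⟨b, -, rfl⟩; exact (suEquiv hσ hne hq n b).2) ⟨u', Subgroup.subset_closure (by simp), rfl⟩
    ⟨g' * u' * g'⁻¹, Subgroup.subset_closure (by simp), by simp⟩ ⟨y' * u' * y'⁻¹, Subgroup.subset_closure (by simp), by simp⟩
  obtain ⟨b, h1, h2⟩ := this ((H.unit_SIsom_eq_E hne hS).le (suEquiv hσ hne hq n a).2)
  rwa [← (suEquiv hσ hne hq n).injective (Subtype.ext h2)]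

end H23.RU
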