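import Cfsg.Agent.H11.Symp
import Cfsg.Agent.H11.Spin

/-! Irreducible subgroups `L` of `Sp(V)`, `char = 2`, with a "full" vector `a` (for each `v ⊥ a` some
Eichler map `eich a v s` lies in `L`): if `L` has a transvection along a full vector then `L = Sp(V)`
(`top_of_transv`); basic calculus of the maps `eich a v s` in characteristic two. -/

set_option autoImplicit false

namespace H23.SX
open H11 H11.PForm Module

universe u
variable {F : Type*} [Field F] [CharP F 2] {V : Type u} [AddCommGroup V] [Module F V]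
  {S : PForm (sympP F) V} {L : Subgroup S.Isom}

theorem two0 : (2 : F) = 0 := CharTwo.two_eq_zero

theorem hs (S : PForm (sympP F) V) (x y : V) : S.h y x = S.h x y := by
  rw [symp_symm, CharTwo.neg_eq]

omit [CharP F 2] in
theorem ec {u v : V} (h : S.h u v = 0) (a : F) : S.ECond u v a :=
  ⟨symp_sing S u, h, by simp⟩

omit [CharP F 2] in
theorem ea {u v : V} (h : S.h u v = 0) (a : F) (x : V) :
    (S.eich u v a).1 x = x + S.h u x • v + (S.h v x + a * S.h u x) • u := by
  rw [eich_apply (ec h a), sympP_ε]; module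

theorem eich_add_smul {u v : V} (h : S.h u v = 0) (c a : F) :
    S.eich u (v + c • u) a = S.eich u v a := by
  have h2 := two0 (F := F)
  refine isom_ext fun x => ?_
  rw [ea (by simp [h, symp_h_self]), ea h]
  simp only [map_add, map_smul, LinearMap.add_apply, LinearMap.smul_apply, smul_eq_mul,
    RingHom.id_apply]
  match_scalars <;> grind

theorem eich_smul_self (u : V) (c a : F) : S.eich u (c • u) a = S.eich u 0 a := by
  simpa using eich_add_smul (S := S) (u := u) (v := 0) (by simp) c a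

omit [CharP F 2] in
theorem mul_mem' {u v w : V} {a b : F} (hv : S.h u v = 0) (hw : S.h u w = 0)
    (h1 : S.eich u v a ∈ L) (h2 : S.eich u w b ∈ L) : S.eich u (v + w) (a + b + S.h v w) ∈ L :=
  eich_mul (ec hv a) (ec hw b) ▸ L.mul_mem h1 h2

omit [CharP F 2] in
theorem conj_mem' {u v : V} {a : F} {g : S.Isom} (hg : g ∈ L) (h : S.eich u v a ∈ L) :
    S.eich (g.1 u) (g.1 v) a ∈ L :=
  conj_eich g u v a ▸ L.mul_mem (L.mul_mem hg h) (L.inv_mem hg)

omit [CharP F 2] in
theorem esm {u v : V} (h : S.h u v = 0) (a c : F) :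
    S.eich (c • u) v a = S.eich u (c • v) (c ^ 2 * a) := by
  rw [eich_smul (ec h a)]; congr 1; simp; ring

/-- `a` is full for `L` -/
def Full (L : Subgroup S.Isom) (a : V) : Prop :=
  a ≠ 0 ∧ ∀ v, S.h a v = 0 → ∃ s, S.eich a v s ∈ L

omit [CharP F 2] in
theorem Full.map {a : V} (h : Full L a) {g : S.Isom} (hg : g ∈ L) : Full L (g.1 a) := by
  refine ⟨by simpa using h.1, fun v hv => ?_⟩
  obtain ⟨s, hs⟩ := h.2 ((g⁻¹).1 v) (by rw [← isom_h_left, hv])
  exact ⟨s, by simpa using conj_mem' hg hs⟩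

omit [CharP F 2] in
theorem Full.smul {a : V} (h : Full L a) {c : F} (hc : c ≠ 0) : Full L (c • a) := by
  refine ⟨smul_ne_zero hc h.1, fun v hv => ?_⟩
  have hv' : S.h a v = 0 := by simpa [hc] using hv
  obtain ⟨s, hs⟩ := h.2 (c • v) (by simp [hv'])
  refine ⟨s / c ^ 2, ?_⟩
  rw [esm hv']; convert hs using 2; field_simp

/-- irreducibility -/
def Irr (L : Subgroup S.Isom) : Prop :=
  ∀ W : Submodule F V, (∀ g ∈ L, ∀ w ∈ W, g.1 w ∈ W) → W = ⊥ ∨ W = ⊤

omit [CharP F 2] in
theorem Irr.span (hi : Irr L) {T : Set V} (hT : ∀ g ∈ L, ∀ y ∈ T, g.1 y ∈ T) {y : V} (hy : y ∈ T)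
    (h0 : y ≠ 0) : Submodule.span F T = ⊤ := by
  refine (hi _ fun g hg w hw => ?_).resolve_left fun h => h0 ?_
  · have : (Submodule.span F T).map (g.1 : V →ₗ[F] V) ≤ Submodule.span F T := by
      rw [Submodule.map_span_le]; exact fun m hm => Submodule.subset_span (hT g hg m hm)
    exact this ⟨w, hw, rfl⟩
  · exact (Submodule.eq_bot_iff _).1 h y (Submodule.subset_span hy)

omit [CharP F 2] in
theorem Irr.exists_ne (hi : Irr L) (hS : S.Nondeg) {T : Set V} (hT : ∀ g ∈ L, ∀ y ∈ T, g.1 y ∈ T)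
    {y : V} (hy : y ∈ T) (h0 : y ≠ 0) {a : V} (ha : a ≠ 0) : ∃ x ∈ T, S.h a x ≠ 0 := by
  by_contra h
  push Not at h
  obtain ⟨z, hz⟩ := hS.exists_h_ne_zero ha
  have : Submodule.span F T ≤ LinearMap.ker (S.h a) := Submodule.span_le.2 h
  exact hz (this (by rw [hi.span hT hy h0]; trivial))

/-- the basic relation between two perpendicular full vectors -/
theorem Full.rel {a b w v : V} {t : F} (ha : Full L a) (hab : S.h a b = 0) (haw : S.h a w = 0)
    (hbw : S.h b w = 0) (hav : S.h a v = 0) (h : S.eich b w t ∈ L) :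
    S.eich a (S.h b v • w + (S.h w v + t * S.h b v) • b) (t * S.h b v ^ 2) ∈ L := by
  have h2 := two0 (F := F)
  obtain ⟨s, hs'⟩ := ha.2 v hav
  have h1 := conj_mem' h hs'
  rw [eich_apply_of_perp_perp (by rw [hs, hab]) (by rw [hs, haw]), ea hbw] at h1
  have := mul_mem' hav (by simp [hab, haw, hav]) hs' h1
  convert this using 2
  · match_scalars <;> grind
  · simp only [map_add, map_smul, smul_eq_mul, symp_h_self, hs S v w, hs S v b]
    grind

variable [FiniteDimensional F V]

omit [CharP F 2] in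
theorem exists_perp (hS : S.Nondeg) {a b : V} (hb : b ∉ F ∙ a) (c : F) :
    ∃ v, S.h a v = 0 ∧ S.h b v = c := by
  obtain ⟨v, hv, h⟩ := hS.exists_perp_of_notMem' hb c
  exact ⟨v, (S.mem_perp_singleton).1 hv, h⟩

theorem Full.rel1 (hS : S.Nondeg) {a b : V} {m t : F} (ha : Full L a) (hab : S.h a b = 0)
    (hb : b ∉ F ∙ a) (h : S.eich b (m • a) t ∈ L) (l : F) :
    S.eich a ((t * l) • b) (t * l ^ 2) ∈ L := by
  obtain ⟨v, h1, rfl⟩ := exists_perp hS hb l
  have := ha.rel hab (by simp [symp_h_self]) (by simp [hs S a b, hab]) h1 h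
  rw [map_smulₛₗ, LinearMap.smul_apply, h1, smul_zero, zero_add, add_comm, smul_smul,
    eich_add_smul (by simp [hab])] at this
  exact this

omit [FiniteDimensional F V] [CharP F 2] in
theorem notMem_symm {a b : V} (ha : a ≠ 0) (hb : b ∉ F ∙ a) : a ∉ F ∙ b := by
  intro h
  obtain ⟨c, rfl⟩ := Submodule.mem_span_singleton.1 h
  have hc : c ≠ 0 := by rintro rfl; simp at ha
  exact hb (Submodule.mem_span_singleton.2 ⟨c⁻¹, by simp [smul_smul, hc]⟩)

omit [FiniteDimensional F V] in
theorem exists_sq [Finite F] (a : F) : ∃ c, c ^ 2 = a := by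
  obtain ⟨c, rfl⟩ := isSquare_of_two_eq_zero two0 a
  exact ⟨c, sq c⟩

omit [FiniteDimensional F V] in
/-- pigeonhole on a line: either the values are all of `F`, or there is a nontrivial zero -/
theorem Full.line [Finite F] {a u : V} (ha : Full L a) (hu : S.h a u = 0) :
    (∃ m : F, m ≠ 0 ∧ S.eich a (m • u) 0 ∈ L) ∨
      ∃ φ : F → F, Function.Surjective φ ∧ ∀ m, S.eich a (m • u) (φ m) ∈ L := by
  have h2 := two0 (F := F)
  choose φ hφ using fun m : F => ha.2 (m • u) (by simp [hu])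
  by_cases hi : Function.Injective φ
  · exact Or.inr ⟨φ, Finite.surjective_of_injective hi, hφ⟩
  · left
    obtain ⟨m, m', h, hne⟩ := Function.not_injective_iff.1 hi
    refine ⟨m + m', fun e => hne (by grind), ?_⟩
    have := mul_mem' (by simp [hu]) (by simp [hu]) (hφ m) (hφ m')
    rw [← add_smul, h] at this
    convert this using 2
    simp [symp_h_self, CharTwo.add_self_eq_zero]

omit [CharP F 2] in
theorem exists_perp_notMem (hS : S.Nondeg) (h4 : 4 ≤ finrank F V) {a : V} (ha : a ≠ 0) :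
    ∃ u, S.h a u = 0 ∧ u ∉ F ∙ a := by
  by_contra h
  push Not at h
  have h1 := hS.finrank_perp (F ∙ a)
  have h3 : S.perp (F ∙ a) ≤ F ∙ a := fun u hu => h u ((S.mem_perp_singleton).1 hu)
  have := Submodule.finrank_mono h3
  rw [finrank_span_singleton ha] at h1 this
  omega

/-- all transvections along one full vector give everything -/
theorem top_of_all (hS : S.Nondeg) (hi : Irr L) {x : V} (hx : Full L x)
    (h : ∀ s, S.eich x 0 s ∈ L) : L = ⊤ := by
  have h2 := two0 (F := F)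
  let T : Set V := {y | ∀ s, S.eich y 0 s ∈ L}
  have hT : ∀ g ∈ L, ∀ y ∈ T, g.1 y ∈ T := fun g hg y hy s => by simpa using conj_mem' hg (hy s)
  have hm : ∀ y ∈ T, ∀ c : F, c • y ∈ T := fun y hy c s => by
    rw [esm (by simp), smul_zero]; exact hy _
  obtain ⟨z, hz, hxz⟩ := hi.exists_ne hS hT (y := x) h hx.1 hx.1
  have k1 : ∀ y, S.h x y = S.h x z → y ∈ T := fun y hy => by
    have hv : S.h x ((S.h x z)⁻¹ • (y - z)) = 0 := by simp [hy]
    obtain ⟨s, hs⟩ := hx.2 _ hv
    have h3 := hT _ hs z hz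
    rw [ea hv] at h3
    generalize S.h ((S.h x z)⁻¹ • (y - z)) z + s * S.h x z = c at h3
    have h4 := hT _ (h (c / S.h x z)) _ h3
    rw [ea (by simp)] at h4
    convert h4 using 1
    simp only [map_add, map_smul, map_sub, hy, sub_self, symp_h_self, smul_eq_mul, mul_zero, add_zero,
      map_zero, LinearMap.zero_apply, zero_add, smul_zero]
    match_scalars <;> field_simp <;> grind
  have k2 : ∀ y, S.h x y ≠ 0 → y ∈ T := fun y hy => by
    have := hm _ (k1 ((S.h x z / S.h x y) • y) (by simp; field_simp)) (S.h x y / S.h x z)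
    rwa [smul_smul, show S.h x y / S.h x z * (S.h x z / S.h x y) = 1 by field_simp, one_smul] at this
  rw [eq_top_iff, ← hS.symp_T_eq_top, T_le_iff]
  intro y s _ hy _
  by_cases hxy : S.h x y = 0
  · obtain ⟨w, -, h5, h6⟩ := exists_both_ne_zero ⊤ (S.h x) (S.h y)
      (by simpa using hS.exists_h_ne_zero hx.1) (by simpa using hS.exists_h_ne_zero hy)
    have h7 := k2 w h5 1
    have h8 := k2 ((S.eich w 0 1).1 y) (by
      rw [ea (by simp)]; simp [hxy, h5, hs S y w, h6])
    simpa using hT _ (L.inv_mem h7) _ h8 s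
  · exact k2 y hxy s

theorem top_of_transv [Finite F] (hS : S.Nondeg) (h4 : 4 ≤ finrank F V) (hi : Irr L) {a : V}
    (ha : Full L a) {r : F} (hr : r ≠ 0) (h : S.eich a 0 r ∈ L) : L = ⊤ := by
  have h2 := two0 (F := F)
  let T : Set V := {y | Full L y ∧ S.eich y 0 r ∈ L}
  have hT : ∀ g ∈ L, ∀ y ∈ T, g.1 y ∈ T := fun g hg y hy =>
    ⟨hy.1.map hg, by simpa using conj_mem' hg hy.2⟩
  obtain ⟨x, hx, hax⟩ := hi.exists_ne hS hT (y := a) ⟨ha, h⟩ ha.1 ha.1
  obtain ⟨u, hu, hua⟩ := exists_perp_notMem hS h4 ha.1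
  obtain ⟨m, hm, hmu⟩ : ∃ m : F, m ≠ 0 ∧ S.eich a (m • u) 0 ∈ L := by
    rcases ha.line hu with h1 | ⟨φ, h1, h3⟩
    · exact h1
    · obtain ⟨m, hm⟩ := h1 r
      obtain ⟨m', hm'⟩ := h1 0
      refine ⟨m + m', fun e => hr (by rw [← hm, ← hm', show m = m' by grind]), ?_⟩
      have := mul_mem' (by simp [hu]) (by simp)
        (mul_mem' (by simp [hu]) (by simp [hu]) (h3 m) (h3 m')) h
      rw [← add_smul, hm, hm'] at this
      simpa [symp_h_self, CharTwo.add_self_eq_zero] using this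
  have hb := hT _ hmu x hx
  rw [ea (by simp [hu])] at hb
  generalize hb' : x + S.h a x • m • u + (S.h (m • u) x + 0 * S.h a x) • a = b at hb
  have hxb : S.h x b = 0 := by
    subst hb'
    simp only [map_add, map_smul, smul_eq_mul, symp_h_self, hs S x a, hs S x u, map_smulₛₗ,
      LinearMap.smul_apply, RingHom.id_apply]
    grind
  have hbx : b ∉ F ∙ x := by
    intro hb
    obtain ⟨k, hk⟩ := Submodule.mem_span_singleton.1 hb
    have h5 : S.h a b = S.h a x := by subst hb'; simp [hu, symp_h_self]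
    rw [← hk, map_smul, smul_eq_mul] at h5
    have h6 : k = 1 := by grind
    rw [h6, one_smul, ← hb', add_assoc, left_eq_add, smul_smul] at hk
    refine hua (Submodule.mem_span_singleton.2
      ⟨(S.h a x * m)⁻¹ * -(S.h (m • u) x + 0 * S.h a x), ?_⟩)
    rw [mul_smul, neg_smul, ← eq_neg_of_add_eq_zero_left hk, smul_smul,
      inv_mul_cancel₀ (mul_ne_zero hax hm), one_smul]
  have hbx' : S.h b x = 0 := by rw [hs, hxb]
  have e1 := fun l => hx.1.rel1 hS (m := 0) hxb hbx (by simpa using hb.2) l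
  have e2 := fun l => hb.1.rel1 hS (m := 0) hbx' (notMem_symm hx.1.1 hbx) (by simpa using hx.2) l
  have e3 := fun l l' => hx.1.rel1 hS hxb hbx (e2 l) l'
  refine top_of_all hS hi hx.1 fun s => ?_
  by_cases hq : ∀ c : F, c = 0 ∨ c = 1
  · rcases hq s with rfl | rfl
    · rw [eich_zero]; exact L.one_mem
    · exact (hq r).resolve_left hr ▸ hx.2
  · push Not at hq
    obtain ⟨c, h0, h1⟩ := hq
    have hc : c + 1 ≠ 0 := fun e => h1 (by grind)
    obtain ⟨l, hl⟩ := exists_sq (s / (r * c ^ 2 * (c + 1) ^ 2))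
    have := mul_mem' (by simp [hxb]) (by simp [hxb]) (e1 (c ^ 2 * l)) (e3 c l)
    rw [← add_smul] at this
    convert this using 2
    · rw [show r * (c ^ 2 * l) + r * c ^ 2 * l = 0 by grind, zero_smul]
    · have : s = l ^ 2 * (r * c ^ 2 * (c + 1) ^ 2) := by rw [hl]; field_simp
      simp only [map_smul, symp_h_self, map_smulₛₗ, LinearMap.smul_apply, smul_eq_mul]
      grind

end H23.SX
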