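import Cfsg.Agent.H23.SX1

/-! Sequel of `SX1`: a set `O` of full vectors without transvections (`Om`).  If a hyperbolic line
through two points of `O` has no third point of `O`, the group is `O(Q)` or `Ω(Q)` (`orth_case`). -/

set_option autoImplicit false

namespace H23.SX
open H11 H11.PForm Module

universe u
variable {F : Type*} [Field F] [CharP F 2] {V : Type u} [AddCommGroup V] [Module F V]
  {S : PForm (sympP F) V} {L : Subgroup S.Isom} {O : Set V} {a x y v w : V}

structure Om (L : Subgroup S.Isom) (O : Set V) : Prop where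
  full : ∀ y ∈ O, Full L y
  smul : ∀ y ∈ O, ∀ c : F, c ≠ 0 → c • y ∈ O
  map : ∀ g ∈ L, ∀ y ∈ O, g.1 y ∈ O
  notr : ∀ y ∈ O, ∀ s, S.eich y 0 s ∈ L → s = 0

open Classical in
noncomputable def al (L : Subgroup S.Isom) (y v : V) : F :=
  if h : ∃ s, S.eich y v s ∈ L then h.choose else 0

omit [CharP F 2] in
theorem Om.mem (h : Om L O) (hy : y ∈ O) (hv : S.h y v = 0) : S.eich y v (al L y v) ∈ L := by
  have := (h.full y hy).2 v hv
  rw [al, dif_pos this]; exact this.choose_spec

theorem Om.eq (h : Om L O) (hy : y ∈ O) (hv : S.h y v = 0) {s : F} (hs : S.eich y v s ∈ L) :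
    al L y v = s := by
  have h2 := two0 (F := F)
  have := mul_mem' hv hv hs (h.mem hy hv)
  rw [← two_smul F v, h2, zero_smul, symp_h_self] at this
  have := h.notr y hy _ this
  grind

theorem Om.add (h : Om L O) (hy : y ∈ O) (hv : S.h y v = 0) (hw : S.h y w = 0) :
    al L y (v + w) = al L y v + al L y w + S.h v w :=
  h.eq hy (by simp [hv, hw]) (mul_mem' hv hw (h.mem hy hv) (h.mem hy hw))

theorem Om.zero (h : Om L O) (hy : y ∈ O) : al L y 0 = 0 :=
  h.eq hy (by simp) (by rw [eich_zero]; exact L.one_mem)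

/-- a hyperbolic pair in `O` -/
structure Pr (L : Subgroup S.Isom) (O : Set V) (a x : V) : Prop where
  om : Om L O
  ha : a ∈ O
  hx : x ∈ O
  ax : S.h a x = 1

theorem Pr.symm (h : Pr L O a x) : Pr L O x a := ⟨h.om, h.hx, h.ha, by rw [hs, h.ax]⟩

omit [CharP F 2] in
theorem Pr.move (h : Pr L O a x) (hw : S.h a w = 0) (hy : y ∈ O) :
    y + S.h a y • w + (S.h w y + al L a w * S.h a y) • a ∈ O :=
  ea hw _ y ▸ h.om.map _ (h.om.mem h.ha hw) y hy

theorem Pr.xw (h : Pr L O a x) (hw : S.h a w = 0) (hw' : S.h x w = 0) :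
    x + w + al L a w • a ∈ O := by
  simpa [h.ax, hs S x w, hw'] using h.move hw h.hx

/-- projection to the complement of the hyperbolic line -/
def pj (S : PForm (sympP F) V) (a x v : V) : V := v + S.h x v • a + S.h a v • x

theorem Pr.pj1 (h : Pr L O a x) (v : V) : S.h a (pj S a x v) = 0 := by
  simp [pj, h.ax, symp_h_self, CharTwo.add_self_eq_zero]

theorem Pr.pj2 (h : Pr L O a x) (v : V) : S.h x (pj S a x v) = 0 := by
  simp [pj, h.symm.ax, symp_h_self, CharTwo.add_self_eq_zero]

theorem pj_eq (a x v : V) : v = S.h x v • a + S.h a v • x + pj S a x v := by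
  have h2 := two0 (F := F)
  rw [pj]; match_scalars <;> grind

theorem Pr.exists_W (h : Pr L O a x) (hS : S.Nondeg) (hw : S.h a w = 0) (hw' : S.h x w = 0)
    (h0 : w ≠ 0) (c : F) : ∃ u, S.h a u = 0 ∧ S.h x u = 0 ∧ S.h u w = c := by
  obtain ⟨u, hu⟩ := hS.exists_h_eq_one h0
  refine ⟨c • pj S a x u, by simp [h.pj1], by simp [h.pj2], ?_⟩
  simp [pj, hw, hw', hs S w u, hu]

/-- no third point -/
def NT (O : Set V) (a x : V) : Prop := ∀ s t : F, s • a + t • x ∈ O → s = 0 ∨ t = 0

omit [CharP F 2] in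
theorem NT.symm (h : NT (F := F) O a x) : NT (F := F) O x a := fun s t hst =>
  (h t s (add_comm (s • x) _ ▸ hst)).symm

theorem Pr.val (h : Pr L O a x) (hI : NT (F := F) O a x) (hw : S.h a w = 0) (hw' : S.h x w = 0)
    {s : F} (hm : x + w + s • a ∈ O) : s = al L a w := by
  have h2 := two0 (F := F)
  have := h.move hw hm
  simp only [map_add, map_smul, h.ax, hw, symp_h_self, hs S x w, hs S a w, hw', smul_zero, add_zero,
    zero_add, mul_one] at this
  have := hI (s + al L a w) 1 (by convert this using 1; match_scalars <;> grind)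
  grind

theorem Pr.zero_line (h : Pr L O a x) (hS : S.Nondeg) (hI : NT (F := F) O a x) (hw : S.h a w = 0)
    (hw' : S.h x w = 0) (h0 : al L a w = 0) (c : F) :
    al L a (c • w) = 0 ∧ al L x (c • w) = 0 := by
  have h2 := two0 (F := F)
  by_cases hc : c = 0
  · rw [hc, zero_smul]; exact ⟨h.om.zero h.ha, h.om.zero h.hx⟩
  by_cases hw0 : w = 0
  · rw [hw0, smul_zero]; exact ⟨h.om.zero h.ha, h.om.zero h.hx⟩
  have k1 : ∀ t : F, t • x + w ∈ O := fun t => by
    obtain ⟨u, h1, h3, h4⟩ := h.exists_W hS hw hw' hw0 (t + 1)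
    have := h.symm.move h3 (h.xw hw hw')
    simp only [h0, zero_smul, add_zero, map_add, symp_h_self, hw', hs S x u, h3, h4, mul_zero,
      zero_add] at this
    convert this using 1; match_scalars <;> grind
  have k2 : ∀ t : F, t • a + w ∈ O := fun t => by
    obtain ⟨u, h1, h3, h4⟩ := h.exists_W hS hw hw' hw0 t
    have := h.move h1 (k1 0)
    simpa [hw, h4, add_comm] using this
  constructor
  · refine (h.val hI (by simp [hw]) (by simp [hw']) ?_).symm
    simpa [smul_smul, hc] using h.om.smul _ (k1 c⁻¹) c hc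
  · refine (h.symm.val hI.symm (by simp [hw']) (by simp [hw]) ?_).symm
    simpa [smul_smul, hc] using h.om.smul _ (k2 c⁻¹) c hc

theorem Pr.hua (h : Pr L O a x) (hI : NT (F := F) O a x) (hw : S.h a w = 0)
    (hw' : S.h x w = 0) (h0 : al L a w ≠ 0) (c : F) :
    al L a ((al L a w * c) • w) = al L a w ^ 2 * al L x (c • w) := by
  have h2 := two0 (F := F)
  generalize hA : al L a w = A at *
  have hu : S.h x (A⁻¹ • w) = 0 := by simp [hw']
  generalize hB : al L x (A⁻¹ • w) = B
  have e1 := h.om.mem h.ha hw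
  have e2 := h.om.mem h.hx hu
  rw [hA] at e1; rw [hB] at e2
  have k1 : (S.eich x (A⁻¹ • w) B * S.eich a w A).1 x = A • a + (1 + B * A) • x := by
    rw [isom_mul_apply, ea hw, ea hu]
    simp only [map_add, map_smul, h.ax, h.symm.ax, hw, symp_h_self, hs S x w, hs S a w, hw', smul_zero,
      add_zero, zero_add, mul_one, map_smulₛₗ, LinearMap.smul_apply, smul_eq_mul, mul_zero]
    match_scalars <;> field_simp <;> grind
  have k2 := (hI _ _ (k1 ▸ h.om.map _ (L.mul_mem e2 e1) x h.hx)).resolve_left h0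
  rw [k2, zero_smul, add_zero] at k1
  have k3 : (S.eich x (A⁻¹ • w) B * S.eich a w A).1 (c • w) = c • w := by
    rw [isom_mul_apply, eich_apply_of_perp_perp (u := a) (by simp [hw]) (by simp [symp_h_self]),
      eich_apply_of_perp_perp (by simp [hw']) (by simp [symp_h_self])]
  have := conj_mem' (L.mul_mem e2 e1) (h.om.mem h.hx (v := c • w) (by simp [hw']))
  rw [k1, k3, esm (by simp [hw]), smul_smul] at this
  exact h.om.eq h.ha (by simp [hw]) this

theorem Pr.quad [Finite F] (h : Pr L O a x) (hS : S.Nondeg) (hI : NT (F := F) O a x)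
    (hw : S.h a w = 0) (hw' : S.h x w = 0) (c : F) :
    al L a (c • w) = c ^ 2 * al L a w ∧ al L x w = al L a w := by
  by_cases hz : ∃ m : F, m ≠ 0 ∧ al L a (m • w) = 0
  · obtain ⟨m, hm, h0⟩ := hz
    have k := fun d => h.zero_line hS hI (by simp [hw]) (by simp [hw']) h0 (d * m⁻¹)
    simp only [smul_smul, mul_assoc, inv_mul_cancel₀ hm, mul_one] at k
    have k1 := k 1
    rw [one_smul] at k1
    rw [(k c).1, k1.1, k1.2, mul_zero]; exact ⟨rfl, rfl⟩
  rcases (h.om.full a h.ha).line hw with ⟨m, hm, h1⟩ | ⟨φ, h1, h3⟩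
  · exact absurd ⟨m, hm, h.om.eq h.ha (by simp [hw]) h1⟩ hz
  have k : ∀ d : F, d ≠ 0 → ∀ e : F, al L a ((d * e) • w) = d ^ 2 * al L x (e • w) := by
    intro d hd e
    obtain ⟨m, rfl⟩ := h1 d
    have h4 := h.om.eq h.ha (by simp [hw]) (h3 m)
    have hm : m ≠ 0 := by rintro rfl; rw [zero_smul, h.om.zero h.ha] at h4; exact hd h4.symm
    have := h.hua hI (w := m • w) (by simp [hw]) (by simp [hw']) (h4 ▸ hd) (e * m⁻¹)
    simpa only [h4, smul_smul, mul_assoc, inv_mul_cancel₀ hm, mul_one] using this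
  have k1 : al L x w = al L a w := by simpa using (k 1 one_ne_zero 1).symm
  refine ⟨?_, k1⟩
  by_cases hc : c = 0
  · rw [hc, zero_smul, h.om.zero h.ha]; simp
  · simpa [k1] using k c hc 1

/-- the invariant quadratic form -/
noncomputable def Pr.T [Finite F] (h : Pr L O a x) (hS : S.Nondeg) (hI : NT (F := F) O a x) :
    PForm (orthP F) V where
  h := S.h
  q v := S.h a v * S.h x v + al L a (pj S a x v)
  symm y z := by simp [hs S y z]
  q_add y z := by
    have h2 := two0 (F := F)
    have : pj S a x (y + z) = pj S a x y + pj S a x z := by simp only [pj, map_add]; module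
    rw [this, h.om.add h.ha (h.pj1 _) (h.pj1 _), orthP_Λ, AddSubgroup.mem_bot]
    have : S.h (pj S a x y) (pj S a x z) = S.h y z + S.h x y * S.h a z + S.h a y * S.h x z := by
      conv_lhs => rw [pj]
      simp only [map_add, LinearMap.add_apply, map_smulₛₗ, LinearMap.smul_apply, h.pj1, h.pj2,
        smul_zero, add_zero]
      simp [pj, hs S a y, hs S x y]
      ring
    rw [this]; simp only [map_add]; grind
  q_smul c y := by
    have : pj S a x (c • y) = c • pj S a x y := by
      simp only [pj, map_smul, smul_eq_mul]; module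
    rw [this, (h.quad hS hI (h.pj1 _) (h.pj2 _) c).1, orthP_Λ, AddSubgroup.mem_bot]
    simp only [map_smul, smul_eq_mul, RingHom.id_apply]; ring
  h_self y := by simp [symp_h_self, CharTwo.add_self_eq_zero]

theorem orth_core [Finite F] (h : Pr L O a x) (hS : S.Nondeg) (hi : Irr L)
    (hI : NT (F := F) O a x) : ∃ T : PForm (orthP F) V, T.h = S.h ∧
      (∀ g ∈ L, ∀ v, T.q (g.1 v) = T.q v) ∧ ∀ y, y ≠ 0 → T.q y = 0 → y ∈ O := by
  have h2 := two0 (F := F)
  let T := h.T hS hI
  have hT : T.h = S.h := rfl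
  have hq : ∀ (s t : F) w, S.h a w = 0 → S.h x w = 0 → T.q (s • a + t • x + w) = s * t + al L a w := by
    intro s t w hw hw'
    change S.h a _ * S.h x _ + al L a (pj S a x _) = _
    have : pj S a x (s • a + t • x + w) = w := by
      simp only [pj, map_add, map_smul, h.ax, h.symm.ax, symp_h_self, hw, hw', smul_eq_mul]
      match_scalars <;> grind
    rw [this]
    simp [h.ax, h.symm.ax, symp_h_self, hw, hw', mul_comm]
  have dec : ∀ v, ∃ s t : F, ∃ w, S.h a w = 0 ∧ S.h x w = 0 ∧ v = s • a + t • x + w := fun v =>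
    ⟨_, _, _, h.pj1 v, h.pj2 v, pj_eq a x v⟩
  have k1 : ∀ (s t : F) w, S.h a w = 0 → S.h x w = 0 → t ≠ 0 →
      (s • a + t • x + w ∈ O ↔ s * t = al L a w) := by
    intro s t w hw hw' ht
    have e : t • (x + t⁻¹ • w + (s / t) • a) = s • a + t • x + w := by
      match_scalars <;> field_simp
    have e' := (h.quad hS hI hw hw' t⁻¹).1
    constructor
    · intro hm
      have := h.val hI (w := t⁻¹ • w) (by simp [hw]) (by simp [hw']) (s := s / t) (by
        simpa [← e, smul_smul t⁻¹, ht] using h.om.smul _ hm t⁻¹ (inv_ne_zero ht))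
      rw [e'] at this; field_simp at this; grind
    · intro hm
      have := h.xw (w := t⁻¹ • w) (by simp [hw]) (by simp [hw'])
      rw [e', ← hm, show t⁻¹ ^ 2 * (s * t) = s / t by field_simp] at this
      exact e ▸ h.om.smul _ this t ht
  have k2 : ∀ (s t : F) w, S.h a w = 0 → S.h x w = 0 → s ≠ 0 →
      (s • a + t • x + w ∈ O ↔ s * t = al L a w) := by
    intro s t w hw hw' ht
    have e : s • (a + s⁻¹ • w + (t / s) • x) = s • a + t • x + w := by
      match_scalars <;> field_simp
    have e' := (h.symm.quad hS hI.symm hw' hw s⁻¹).1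
    rw [(h.quad hS hI hw hw' 1).2] at e'
    constructor
    · intro hm
      have := h.symm.val hI.symm (w := s⁻¹ • w) (by simp [hw']) (by simp [hw]) (s := t / s) (by
        simpa [← e, smul_smul s⁻¹, ht] using h.om.smul _ hm s⁻¹ (inv_ne_zero ht))
      rw [e'] at this; field_simp at this; grind
    · intro hm
      have := h.symm.xw (w := s⁻¹ • w) (by simp [hw']) (by simp [hw])
      rw [e', ← hm, show s⁻¹ ^ 2 * (s * t) = t / s by field_simp] at this
      exact e ▸ h.om.smul _ this s ht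
  have k3 : ∀ y, y ≠ 0 → (y ∈ O ↔ T.q y = 0) := by
    intro y hy
    obtain ⟨s, t, w, hw, hw', rfl⟩ := dec y
    rw [hq s t w hw hw', CharTwo.add_eq_zero]
    by_cases ht : t = 0
    · by_cases hs0 : s = 0
      · subst ht hs0
        simp only [zero_smul, zero_add] at hy ⊢
        obtain ⟨u, h1, h3, h4⟩ := h.exists_W hS hw hw' hy 1
        rw [mul_zero, ← mul_zero (1 : F), ← k2 1 0 w hw hw' one_ne_zero]
        constructor
        · intro hm; simpa [hw, h4, add_comm] using h.move h1 hm
        · intro hm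
          have := h.move h1 hm
          simp only [map_add, map_smul, symp_h_self, hw, hs S a u, h1, h4, smul_zero, zero_smul,
            add_zero, zero_add, mul_zero] at this
          convert this using 1; match_scalars <;> grind
      · exact k2 s t w hw hw' hs0
    · exact k1 s t w hw hw' ht
  refine ⟨T, hT, fun g hg v => ?_, fun y hy hq => (k3 y hy).2 hq⟩
  have hv : v ∈ Submodule.span F O := by
    rw [hi.span h.om.map h.ha (h.om.full a h.ha).1]; trivial
  induction hv using Submodule.span_induction with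
  | mem y hy =>
    have hy' := h.om.map g hg y hy
    rw [(k3 y (h.om.full y hy).1).1 hy, (k3 _ (h.om.full _ hy').1).1 hy']
  | zero => rw [map_zero]
  | add y z _ _ hy hz => rw [map_add, orth_q_add, orth_q_add, hy, hz, hT, isom_h]
  | smul c y _ hy => rw [map_smul, orth_q_smul, orth_q_smul, hy]

variable [FiniteDimensional F V]

theorem orth_case [Finite F] (h : Pr L O a x) (hS : S.Nondeg) (h4 : 4 ≤ finrank F V) (hi : Irr L)
    (hI : NT (F := F) O a x) : ∃ Q : QuadraticForm F V, (∀ u v, QuadraticMap.polar Q u v = S.h u v) ∧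
      ((∀ g : S.Isom, g ∈ L ↔ ∀ v, Q (g.1 v) = Q v) ∨ ∀ g : S.Isom, g ∈ L ↔ (∀ v, Q (g.1 v) = Q v) ∧
        Even (finrank F (LinearMap.range ((g.1 : V →ₗ[F] V) - LinearMap.id)))) := by
  have h2 := two0 (F := F)
  obtain ⟨T, hT, k1, k2⟩ := orth_core h hS hi hI
  have hn : T.Nondeg := fun y hy => hS y (hT ▸ hy)
  let ι : T.Isom →* S.Isom := Subgroup.inclusion fun g hg =>
    symp_isIsom fun y z => hT ▸ (T.mem_Isom.1 hg).h_eq y z
  have hE : T.E ≤ L.comap ι := by
    rw [E_le_iff]
    intro u v s hc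
    have huv : S.h u v = 0 := hT ▸ hc.perp
    have e : ι (T.eich u v s) = S.eich u v s := isom_ext fun z => by
      rw [ea huv]
      change (T.eich u v s).1 z = _
      rw [eich_apply hc, hT, orthP_ε]
      match_scalars <;> grind
    rw [Subgroup.mem_comap, e]
    by_cases hu : u = 0
    · subst hu
      rw [show S.eich 0 v s = 1 from isom_ext fun z => by rw [ea huv]; simp]
      exact L.one_mem
    have hq : T.q u = 0 := (orth_sing T u).1 hc.sing
    have h5 := h.om.mem (k2 u hu hq) huv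
    obtain ⟨z, hz⟩ := hS.exists_h_eq_one hu
    have h6 := k1 _ h5 z
    rw [ea huv, hz, orth_q_add, orth_q_add, orth_q_smul, orth_q_smul, hq, hT] at h6
    simp only [map_add, map_smul, LinearMap.add_apply, one_smul, smul_eq_mul, hs S u z, hs S u v, hz,
      huv, hs S v z] at h6
    rw [hc.orth_eq, show T.q v = al L u v by grind]
    exact h5
  obtain ⟨e, f, H⟩ := hn.orth_exists_hyp (by omega)
  have hK : ∀ g : T.Isom, hn.dick g = 1 → ι g ∈ L := fun g hg =>
    hE ((hn.mem_E_iff (by omega) H g).2 ⟨hg, hn.spin_of_two h2 g⟩)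
  have mk : ∀ g : S.Isom, (∀ v, T.q (g.1 v) = T.q v) → ∃ g' : T.Isom, ι g' = g := fun g hg =>
    ⟨⟨g.1, T.mem_Isom.2 (orth_isIsom (f := (g.1 : V →ₗ[F] V)) hg)⟩, rfl⟩
  refine ⟨T.toQuad, fun u v => by rw [toQuad_polar, hT], ?_⟩
  simp only [toQuad_apply]
  by_cases hd : ∃ g : T.Isom, ι g ∈ L ∧ hn.dick g = -1
  · left
    obtain ⟨g₀, h5, h6⟩ := hd
    refine fun g => ⟨k1 g, fun hg => ?_⟩
    obtain ⟨g, rfl⟩ := mk g hg
    rcases Int.units_eq_one_or (hn.dick g) with h7 | h7
    · exact hK g h7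
    · have := L.mul_mem h5 (hK (g₀⁻¹ * g) (by simp [h6, h7]))
      simpa using this
  · right
    refine fun g => ⟨fun hg => ⟨k1 g hg, ?_⟩, fun hg => ?_⟩
    · obtain ⟨g, rfl⟩ := mk g (k1 g hg)
      have h7 := (Int.units_eq_one_or (hn.dick g)).resolve_right fun e => hd ⟨g, hg, e⟩
      rw [hn.dick_eq_rank] at h7
      exact (neg_one_pow_eq_one_iff_even (by decide)).1 h7
    · obtain ⟨g, rfl⟩ := mk g hg.1
      exact hK g (by rw [hn.dick_eq_rank]; exact hg.2.neg_one_pow)

end H23.SX
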