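import Cfsg.Agent.H23.SX2
import Cfsg.Agent.H23.FCl
import Cfsg.Agent.H11.Orth

/-! Sequel of `SX2`: the case of a third point on a hyperbolic line, the main theorem `main` on irreducible
subgroups of `Sp(V)` with a full vector, `O_2` of a vector stabiliser, subgroups of `S_6` of order divisible by 120. -/

set_option autoImplicit false

namespace H23.SX
open H11 H11.PForm Module

universe u
variable {F : Type*} [Field F] [CharP F 2] {V : Type u} [AddCommGroup V] [Module F V]
  {S : PForm (sympP F) V} {L : Subgroup S.Isom} {O : Set V} {a x y v w : V}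

/-- perpendicular points of `O` are mutually singular -/
def ZZ (L : Subgroup S.Isom) (O : Set V) : Prop :=
  ∀ a ∈ O, ∀ b ∈ O, S.h a b = 0 → ∀ c : F, S.eich a (c • b) 0 ∈ L

theorem Pr.zz1 (h : Pr L O a x) (hZ : ZZ L O) (hw : S.h a w = 0) (hw' : S.h x w = 0)
    (hm : x + w ∈ O) (c : F) : al L a (c • w) = 0 := by
  have k : ∀ {a x : V}, Pr L O a x → S.h a w = 0 → S.h x w = 0 → x + w ∈ O → ∀ c : F,
      S.eich x (c • w) 0 ∈ L := fun {a x} h hw hw' hm c => by
    have := hZ x h.hx _ hm (by simp [hw', symp_h_self]) c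
    rwa [smul_add, add_comm, eich_add_smul (by simp [hw'])] at this
  have h1 := h.om.map _ (k h hw hw' hm 1) a h.ha
  rw [ea (by simp [hw'])] at h1
  simp only [h.symm.ax, one_smul, hs S a w, hw, zero_mul, add_zero, zero_smul] at h1
  exact h.om.eq h.ha (by simp [hw]) (k h.symm hw' hw h1 c)

variable [FiniteDimensional F V] [Finite F]

omit [Finite F] in
theorem Pr.exists_ne (h : Pr L O a x) (hS : S.Nondeg) (h4 : 4 ≤ finrank F V) :
    ∃ w, S.h a w = 0 ∧ S.h x w = 0 ∧ w ≠ 0 := by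
  obtain ⟨u, hu, hua⟩ := exists_perp_notMem hS h4 (h.om.full a h.ha).1
  refine ⟨_, h.pj1 u, h.pj2 u, fun e => hua ?_⟩
  have := pj_eq (S := S) a x u
  rw [e, hu, zero_smul, add_zero, add_zero] at this
  exact Submodule.mem_span_singleton.2 ⟨_, this.symm⟩

theorem Pr.nt (h : Pr L O a x) (hS : S.Nondeg) (h4 : 4 ≤ finrank F V) (hZ : ZZ L O) :
    NT (F := F) O a x := by
  have h2 := two0 (F := F)
  intro s t hst
  by_contra hne
  push Not at hne
  have hm : x + (t⁻¹ * s) • a ∈ O := by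
    simpa [smul_smul, hne.2, add_comm] using h.om.smul _ hst t⁻¹ (inv_ne_zero hne.2)
  have hr : t⁻¹ * s ≠ 0 := mul_ne_zero (inv_ne_zero hne.2) hne.1
  generalize t⁻¹ * s = r at hm hr
  have k : ∀ u, S.h a u = 0 → S.h x u = 0 → al L a u = 0 := by
    intro u hu hu'
    rcases (h.om.full a h.ha).line hu with ⟨m, h0, h1⟩ | ⟨φ, h1, h3⟩
    · have h5 := h.xw (w := m • u) (by simp [hu]) (by simp [hu'])
      rw [h.om.eq h.ha (by simp [hu]) h1, zero_smul, add_zero] at h5
      simpa [smul_smul, h0] using h.zz1 hZ (by simp [hu]) (by simp [hu']) h5 m⁻¹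
    · obtain ⟨m, rfl⟩ := h1 r
      have h4 := h.om.eq h.ha (by simp [hu]) (h3 m)
      have h5 := h.move (w := m • u) (by simp [hu]) hm
      simp only [h4, map_add, map_smul, h.ax, symp_h_self, smul_zero, add_zero, map_smulₛₗ,
        LinearMap.smul_apply, hs S x u, hs S a u, hu, hu', zero_add, mul_one] at h5
      have h6 := h.zz1 hZ (w := m • u) (by simp [hu]) (by simp [hu'])
        (by convert h5 using 1; match_scalars <;> grind) 1
      rw [one_smul, h4] at h6
      exact absurd h6 hr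
  obtain ⟨w, h1, h3, h5⟩ := h.exists_ne hS h4
  obtain ⟨u, h6, h7, h8⟩ := h.exists_W hS h1 h3 h5 1
  have := h.om.add h.ha h6 h1
  rw [k u h6 h7, k w h1 h3, k _ (by simp [h6, h1]) (by simp [h7, h3]), h8] at this
  simp at this

omit [Finite F] in
theorem Om.zz (h : Om L O) (hS : S.Nondeg) (hq : (∃ c : F, c ≠ 0 ∧ c ≠ 1) ∨ 5 ≤ finrank F V) :
    ZZ L O := by
  have h2 := two0 (F := F)
  intro a ha b hb hab c
  by_cases hba : b ∈ F ∙ a
  · obtain ⟨d, rfl⟩ := Submodule.mem_span_singleton.1 hba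
    rw [smul_smul, eich_smul_self, eich_zero]; exact L.one_mem
  have hab' : S.h b a = 0 := by rw [hs, hab]
  have hba' := notMem_symm (h.full a ha).1 hba
  rcases hq with ⟨d, h0, h1⟩ | h5
  · have e0 := h.mem ha (v := c • b) (by simp [hab])
    generalize al L a (c • b) = t at e0
    by_cases ht : t = 0
    · exact ht ▸ e0
    exfalso
    have e1 := fun l => (h.full b hb).rel1 hS hab' hba' e0 l
    have e2 := fun l l' => (h.full a ha).rel1 hS hab hba (e1 l) l'
    have e3 := fun l l' => h.eq ha (by simp [hab]) (e2 l l')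
    have e4 := e3 1 (d ^ 2)
    have e5 := e3 d 1
    rw [show t * 1 ^ 2 * d ^ 2 = t * d ^ 2 * 1 by ring, e5] at e4
    have : t * d ^ 2 * (d + 1) ^ 2 = 0 := by grind
    simp only [mul_eq_zero, ht, h0, false_or, ne_eq, OfNat.ofNat_ne_zero, not_false_eq_true,
      pow_eq_zero_iff] at this
    exact h1 (by grind)
  · obtain ⟨w, hw, hw'⟩ : ∃ w ∈ S.perp (Submodule.span F {a, b}), w ∉ Submodule.span F {a, b} := by
      by_contra hc
      push Not at hc
      have e1 := hS.finrank_perp (Submodule.span F {a, b})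
      have e2 := Submodule.finrank_mono (show S.perp (Submodule.span F {a, b}) ≤ _ from hc)
      classical
      have e3 : finrank F (Submodule.span F {a, b}) ≤ 2 := by
        have := finrank_span_finset_le_card (R := F) ({a, b} : Finset V)
        have := this.trans Finset.card_le_two
        rwa [Set.finrank, Finset.coe_insert, Finset.coe_singleton] at this
      omega
    obtain ⟨v, hv, hc⟩ := hS.exists_perp_of_notMem' hw' c
    rw [mem_perp_pair] at hw hv
    have := (h.full a ha).rel hab hw.1 hw.2 hv.1 (h.mem hb hw.2)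
    simpa [hv.2, hc] using this

omit [CharP F 2] in
theorem card_fiber (hS : S.Nondeg) (hax : S.h a x = 1) :
    Nat.card {y // S.h a y = 1} = Nat.card F ^ (finrank F V - 1) := by
  have ha : a ≠ 0 := by rintro rfl; simp at hax
  have h1 := hS.finrank_perp (F ∙ a)
  rw [finrank_span_singleton ha] at h1
  rw [show finrank F V - 1 = finrank F (S.perp (F ∙ a)) by omega, ← Module.natCard_eq_pow_finrank]
  exact Nat.card_congr
    { toFun := fun y => ⟨y.1 - x, (S.mem_perp_singleton).2 (by simp [y.2, hax])⟩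
      invFun := fun y => ⟨y.1 + x, by simp [(S.mem_perp_singleton).1 y.2, hax]⟩
      left_inv := fun y => by simp
      right_inv := fun y => by simp }

omit [FiniteDimensional F V] [Finite F] in
theorem Pr.all (h : Pr L O a x) (hS : S.Nondeg) (hq : ∀ c : F, c = 0 ∨ c = 1)
    (hI : ¬ NT (F := F) O a x) (hy : y ≠ 0) : y ∈ O := by
  have h2 := two0 (F := F)
  have hm : a + x ∈ O := by
    simp only [NT, not_forall, not_or] at hI
    obtain ⟨s, t, h1, h3, h4⟩ := hI
    rwa [(hq s).resolve_left h3, (hq t).resolve_left h4, one_smul, one_smul] at h1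
  have k : ∀ {a x : V}, Pr L O a x → a + x ∈ O → ∀ y, S.h a y = 1 → y ∈ O := by
    intro a x h hm y hy
    have e := pj_eq (S := S) a x y
    have h1 := h.xw (h.pj1 y) (h.pj2 y)
    have h3 := h.move (h.pj1 y) hm
    simp only [map_add, symp_h_self, h.ax, hs S a (pj S a x y), hs S x (pj S a x y), h.pj1, h.pj2,
      zero_add, mul_one] at h3
    generalize pj S a x y = w at *
    generalize al L a w = A at *
    generalize S.h x y = s at *
    rw [e, hy]
    by_cases hs : s = A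
    · convert h1 using 1; match_scalars <;> grind
    · have : s = A + 1 := by rcases hq s with rfl | rfl <;> rcases hq A with rfl | rfl <;> grind
      convert h3 using 1; match_scalars <;> grind
  rcases hq (S.h a y) with h1 | h1
  · rcases hq (S.h x y) with h3 | h3
    · obtain ⟨u, h4, h5, h6⟩ := h.exists_W hS h1 h3 hy 1
      have := h.move h4 (k h.symm (add_comm a x ▸ hm) (a + y) (by simp [h.symm.ax, h3]))
      simp only [map_add, symp_h_self, h1, hs S a u, h4, h6, zero_add, mul_zero, zero_smul,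
        add_zero] at this
      convert this using 1; match_scalars <;> grind
    · exact k h.symm (add_comm a x ▸ hm) y h3
  · exact k h hm y h1

theorem Om.eight (h : Om L O) (hS : S.Nondeg) (hq : ∀ c : F, c = 0 ∨ c = 1) (hZ : ¬ ZZ L O) :
    Nat.card F ^ (finrank F V - 1) ∣ Nat.card L := by
  have h2 := two0 (F := F)
  simp only [ZZ, not_forall] at hZ
  obtain ⟨a, ha, b, hb, hab, c, hc⟩ := hZ
  have hc1 : c = 1 := (hq c).resolve_left (by
    rintro rfl; exact hc (by rw [zero_smul, eich_zero]; exact L.one_mem))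
  subst hc1
  have e0 := h.mem ha (v := (1 : F) • b) (by simp [hab])
  rw [(hq (al L a ((1 : F) • b))).resolve_left fun e => hc (e ▸ e0)] at e0
  have hba : b ∉ F ∙ a := fun hba => by
    obtain ⟨d, rfl⟩ := Submodule.mem_span_singleton.1 hba
    exact hc (by rw [smul_smul, eich_smul_self, eich_zero]; exact L.one_mem)
  have hab' : S.h b a = 0 := by rw [hs, hab]
  have e1 := (h.full b hb).rel1 hS hab' (notMem_symm (h.full a ha).1 hba) e0 1
  simp only [mul_one, one_smul, one_pow] at e1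
  obtain ⟨z, -, h5, h6⟩ := exists_both_ne_zero ⊤ (S.h a) (S.h b)
    (by simpa using hS.exists_h_ne_zero (h.full a ha).1)
    (by simpa using hS.exists_h_ne_zero (h.full b hb).1)
  replace h5 := (hq _).resolve_left h5
  replace h6 := (hq _).resolve_left h6
  let K : Subgroup S.Isom := L ⊓ S.fix (F ∙ a)
  have hK : ∀ g, g ∈ K ↔ g ∈ L ∧ g.1 a = a := fun g => by
    simp [K, mem_fix_span]
  have e2 : S.eich b a 1 ∈ K := (hK _).2 ⟨e1, eich_apply_of_perp_perp hab' (symp_h_self S a)⟩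
  have e3 : (S.eich b a 1).1 z = z + a := by
    rw [ea hab', h5, h6]; match_scalars <;> grind
  have := card_eq_orbit_mul (G := K) z (fun y => S.h a y = 1) fun y => ⟨fun hy => by
    have hv : S.h a (y - z) = 0 := by simp [hy, h5]
    have e4 : S.eich a (y - z) (al L a (y - z)) ∈ K := (hK _).2 ⟨h.mem ha hv, eich_apply_self _ _ _⟩
    rcases hq (S.h (y - z) z + al L a (y - z) * S.h a z) with h7 | h7
    · refine ⟨⟨_, e4⟩, ?_⟩
      change (S.eich a (y - z) _).1 z = y
      rw [ea hv, h7, h5]; simp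
    · refine ⟨⟨_, K.mul_mem e4 e2⟩, ?_⟩
      change (S.eich a (y - z) _).1 ((S.eich b a 1).1 z) = y
      rw [e3, map_add, eich_apply_self, ea hv, h7, h5]; match_scalars <;> grind, by
    rintro ⟨g, rfl⟩
    change S.h a (g.1.1 z) = 1
    rw [← h5, ← isom_h g.1 a z, ((hK _).1 g.2).2]⟩
  rw [card_fiber hS h5] at this
  exact (Dvd.intro _ this.symm).trans (Subgroup.card_dvd_of_le inf_le_left)

theorem main (hS : S.Nondeg) (h4 : 4 ≤ finrank F V) (hi : Irr L) (ha : Full L a) :
    L = ⊤ ∨ (∃ Q : QuadraticForm F V, (∀ u v, QuadraticMap.polar Q u v = S.h u v) ∧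
      ((∀ g : S.Isom, g ∈ L ↔ ∀ v, Q (g.1 v) = Q v) ∨ ∀ g : S.Isom, g ∈ L ↔ (∀ v, Q (g.1 v) = Q v) ∧
        Even (finrank F (LinearMap.range ((g.1 : V →ₗ[F] V) - LinearMap.id))))) ∨
      (Nat.card F = 2 ∧ finrank F V = 4 ∧ 120 ∣ Nat.card L) := by
  let O : Set V := {y | ∃ g ∈ L, ∃ c : F, c ≠ 0 ∧ y = c • g.1 a}
  have hf : ∀ y ∈ O, Full L y := by
    rintro _ ⟨g, hg, c, hc, rfl⟩; exact (ha.map hg).smul hc
  by_cases ht : ∃ y ∈ O, ∃ s, S.eich y 0 s ∈ L ∧ s ≠ 0
  · obtain ⟨y, hy, s, h1, h2⟩ := ht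
    exact Or.inl (top_of_transv hS h4 hi (hf y hy) h2 h1)
  push Not at ht
  have h : Om L O := ⟨hf, by
    rintro _ ⟨g, hg, c, hc, rfl⟩ d hd; exact ⟨g, hg, d * c, mul_ne_zero hd hc, smul_smul _ _ _⟩, by
    rintro k hk _ ⟨g, hg, c, hc, rfl⟩; exact ⟨k * g, L.mul_mem hk hg, c, hc, by simp⟩, ht⟩
  have haO : a ∈ O := ⟨1, L.one_mem, 1, one_ne_zero, by simp⟩
  obtain ⟨x, hx, hax⟩ := hi.exists_ne hS h.map haO ha.1 ha.1
  have hp : Pr L O a ((S.h a x)⁻¹ • x) := ⟨h, haO, h.smul x hx _ (inv_ne_zero hax), by simp [hax]⟩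
  right
  by_cases hI : NT (F := F) O a ((S.h a x)⁻¹ • x)
  · exact Or.inl (orth_case hp hS h4 hi hI)
  right
  have hZ : ¬ ZZ L O := fun hZ => hI (hp.nt hS h4 hZ)
  have hn := fun hh => hZ (h.zz hS hh)
  have hq : ∀ c : F, c = 0 ∨ c = 1 := fun c => by
    by_contra hc; push Not at hc; exact hn (Or.inl ⟨c, hc⟩)
  have h5 : finrank F V = 4 := by by_contra hc; exact hn (Or.inr (by omega))
  have hF : Nat.card F = 2 := Nat.card_eq_two_iff.2 ⟨0, 1, zero_ne_one, Set.eq_univ_of_forall fun c => by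
    simpa using hq c⟩
  refine ⟨hF, h5, ?_⟩
  have e1 := h.eight hS hq hZ
  have : Finite V := Module.finite_of_finite F
  have e2 := card_eq_orbit_mul (G := L) a (fun y => y ≠ 0) fun y => ⟨fun hy => by
    obtain ⟨g, hg, c, hc, rfl⟩ := hp.all hS hq hI hy
    exact ⟨⟨g, hg⟩, by rw [(hq c).resolve_left hc, one_smul]; rfl⟩, by
    rintro ⟨g, rfl⟩
    change g.1.1 a ≠ 0
    simpa using ha.1⟩
  have e3 := card_ne_zero_add_one V
  rw [Module.natCard_eq_pow_finrank (K := F) (V := V), hF, h5] at e3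
  rw [hF, h5] at e1
  rw [show Nat.card {y : V // y ≠ 0} = 15 by omega] at e2
  exact Nat.Coprime.mul_dvd_of_dvd_of_dvd (show Nat.Coprime 8 15 by decide) e1 (Dvd.intro _ e2.symm)

theorem full_of_card (hS : S.Nondeg) (ha : a ≠ 0) (hL : L ≤ S.X a) (hn : ∀ s, S.eich a 0 s ∈ L → s = 0)
    (hc : Nat.card L = Nat.card F ^ (finrank F V - 2)) : Full L a := by
  have h2 := two0 (F := F)
  obtain ⟨x, H⟩ := hS.exists_isHyp (symp_sing S a) ha
  have k : ∀ g : L, ∃ w : S.perp (Submodule.span F {a, x}), ∃ s, g.1 = S.eich a w s := fun g => by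
    obtain ⟨v, s, h⟩ := hL g.2
    by_cases hv : S.ECond a v s
    · obtain ⟨v', h1, s', -, h3⟩ := FS.econd_perp H hv
      exact ⟨⟨v', h1⟩, s', h.trans h3.symm⟩
    · exact ⟨0, 0, by rw [h, eich_junk hv]; exact (eich_zero a).symm⟩
  choose φ σ hφ using k
  have hw : ∀ w : S.perp (Submodule.span F {a, x}), S.h a w = 0 := fun w => ((S.mem_perp_pair).1 w.2).1
  have hi : Function.Injective φ := fun g g' e => by
    have := mul_mem' (hw _) (hw _) (hφ g ▸ g.2) (hφ g' ▸ g'.2)
    rw [e, ← two_smul F, h2, zero_smul, symp_h_self] at this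
    have := hn _ this
    exact Subtype.ext (by rw [hφ g, hφ g', e, show σ g = σ g' by grind])
  have : Finite V := Module.finite_of_finite F
  have hb := hi.bijective_of_nat_card_le (by
    rw [hc, Module.natCard_eq_pow_finrank (K := F), ← H.finrank_perp]; simp)
  refine ⟨ha, fun v hv => ?_⟩
  obtain ⟨w, h1, h3⟩ := H.exists_decomp v
  obtain ⟨g, hg⟩ := hb.2 ⟨w, h1⟩
  refine ⟨σ g, ?_⟩
  rw [h3, hv, zero_smul, add_zero, add_comm, eich_add_smul ((S.mem_perp_pair).1 h1).1]
  have := hφ g ▸ g.2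
  rwa [hg] at this

theorem le_X (hS : S.Nondeg) (h4 : 4 ≤ finrank F V) (ha : a ≠ 0) {G : Type*} [Group G]
    (ρ : G →* S.Isom) (h1 : ∀ g, (ρ g).1 a = a) (h2 : ∀ k : S.Isom, k.1 a = a → ∃ g, ρ g = k)
    {N : Subgroup G} [hN : N.Normal] (hp : IsPGroup 2 N) {g : G} (hg : g ∈ N) : ρ g ∈ S.X a := by
  have : Finite V := Module.finite_of_finite F
  have hm : ∀ g, (F ∙ a).map ((ρ g).1 : V →ₗ[F] V) = F ∙ a := fun g => by
    rw [Submodule.map_span]; simp [h1]
  let τ : G →* ((V ⧸ F ∙ a) ≃ₗ[F] (V ⧸ F ∙ a)) := MonoidHom.mk'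
    (fun g => Submodule.Quotient.equiv _ _ (ρ g).1 (hm g)) fun g g' => LinearEquiv.ext fun x => by
      obtain ⟨x, rfl⟩ := Submodule.Quotient.mk_surjective _ x
      simp
  have hτ : ∀ g x, τ g (Submodule.Quotient.mk x) = Submodule.Quotient.mk ((ρ g).1 x) := fun _ _ => rfl
  obtain ⟨u, hu, hua⟩ := exists_perp_notMem hS h4 ha
  have : Finite (V ⧸ F ∙ a) := Finite.of_surjective _ (Submodule.Quotient.mk_surjective _)
  obtain ⟨_, ⟨x, hx, rfl⟩, h3, h5⟩ := FS.exists_fixed_vec τ hp ((S.perp (F ∙ a)).map (F ∙ a).mkQ)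
    (fun e => hua ((Submodule.Quotient.mk_eq_zero _).1
      ((Submodule.eq_bot_iff _).1 e _ ⟨u, (S.mem_perp_singleton).2 hu, rfl⟩))) (by
    rintro g - _ ⟨x, hx, rfl⟩
    refine ⟨(ρ g).1 x, (S.mem_perp_singleton).2 ?_, rfl⟩
    rw [← h1 g, isom_h]; exact (S.mem_perp_singleton).1 hx)
  have hxa : x ∉ F ∙ a := fun e => h3 ((Submodule.Quotient.mk_eq_zero _).2 e)
  obtain ⟨f, H⟩ := hS.exists_isHyp (symp_sing S a) ha
  have hf : ∀ g, ∀ y ∈ F ∙ a, (ρ g).1 y = y := fun g y hy => by
    obtain ⟨c, rfl⟩ := Submodule.mem_span_singleton.1 hy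
    rw [map_smul, h1]
  refine FS.RU_le_X H (FS.mem_RU.2 ⟨hf g, fun y hy => ?_⟩)
  by_cases hya : y ∈ F ∙ a
  · rw [hf g y hya, sub_self]; exact zero_mem _
  obtain ⟨k, h6, rfl⟩ := hS.witt_fix (F ∙ a) hxa hya (by simp) fun z hz => by
    rw [hy z hz, hx z hz]
  obtain ⟨k, rfl⟩ := h2 k (h6 a (Submodule.mem_span_singleton_self a))
  have h7 := congrArg (τ k) (h5 _ (hN.conj_mem' g hg k))
  rw [← LinearEquiv.mul_apply, ← map_mul, Submodule.mkQ_apply, hτ, hτ, Submodule.Quotient.eq] at h7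
  simpa [mul_assoc] using h7

/-- a core-free subgroup of index `m + 1` embeds in `S_m` -/
theorem exists_perm_inj {G : Type*} [Group G] [Finite G] {K : Subgroup G} (h : K.normalCore = ⊥)
    {m : ℕ} (hm : K.index = m + 1) : ∃ f : K →* Equiv.Perm (Fin m), Function.Injective f := by
  classical
  have hb : ∀ k : K, k.1 • ((1 : G) : G ⧸ K) = ((1 : G) : G ⧸ K) := fun k =>
    QuotientGroup.eq.2 (by simp)
  let _ : MulAction K {c : G ⧸ K // c ≠ ((1 : G) : G ⧸ K)} :=
    { smul := fun k c => ⟨k.1 • c.1, fun e => c.2 (smul_left_cancel k.1 (e.trans (hb k).symm))⟩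
      one_smul := fun c => Subtype.ext (one_smul G c.1)
      mul_smul := fun k k' c => Subtype.ext (mul_smul k.1 k'.1 c.1) }
  have := Fintype.ofFinite (G ⧸ K)
  have e : {c : G ⧸ K // c ≠ ((1 : G) : G ⧸ K)} ≃ Fin m := Fintype.equivFinOfCardEq (by
    rw [Fintype.card_subtype_compl, Fintype.card_subtype_eq, ← Nat.card_eq_fintype_card]
    change K.index - 1 = m
    omega)
  refine ⟨e.permCongrHom.toMonoidHom.comp (MulAction.toPermHom K _),
    e.permCongrHom.injective.comp ((injective_iff_map_eq_one _).2 fun k hk => ?_)⟩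
  have : k.1 ∈ K.normalCore := by
    rw [Subgroup.normalCore_eq_ker, MonoidHom.mem_ker]
    ext c
    by_cases hc : c = ((1 : G) : G ⧸ K)
    · rw [hc]; exact hb k
    · exact congrArg Subtype.val (congrArg (fun p : Equiv.Perm _ => p ⟨c, hc⟩) hk)
  rw [h] at this
  exact Subtype.ext this

theorem s6_sub {K : Subgroup (Equiv.Perm (Fin 6))} (h : 120 ∣ Nat.card K) (hK : K ≠ ⊤) :
    Nonempty (K ≃* alternatingGroup (Fin 6)) ∨ Nonempty (K ≃* Equiv.Perm (Fin 5)) := by
  have h1 := K.card_mul_index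
  rw [Nat.card_perm, Nat.card_fin, show Nat.factorial 6 = 720 by decide] at h1
  by_cases h2 : K.index = 2
  · exact Or.inl ⟨MulEquiv.subgroupCongr (Equiv.Perm.eq_alternatingGroup_of_index_eq_two h2)⟩
  right
  have h3 : K.index ≠ 1 := fun e => hK (Subgroup.index_eq_one.1 e)
  have h4 : K.normalCore = ⊥ := by
    by_contra hc
    have := Subgroup.index_dvd_of_le ((Equiv.Perm.alternatingGroup_le_of_normal (by simp)
      ((Subgroup.nontrivial_iff_ne_bot _).2 hc)).trans K.normalCore_le)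
    rw [alternatingGroup.index_eq_two] at this
    rcases (Nat.dvd_prime Nat.prime_two).1 this with e | e <;> contradiction
  obtain ⟨c, hc⟩ := h
  have h5 : K.index ∣ 6 := ⟨c, by rw [hc] at h1; nlinarith⟩
  have h6 : K.index = 3 ∨ K.index = 6 := by
    have := Nat.le_of_dvd (by decide) h5
    generalize K.index = i at *
    interval_cases i <;> simp_all
  rcases h6 with h6 | h6
  · obtain ⟨f, hf⟩ := exists_perm_inj h4 (m := 2) h6
    have := Nat.card_le_card_of_injective f hf
    rw [Nat.card_perm, Nat.card_fin, show Nat.factorial 2 = 2 by decide] at this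
    rw [h6] at h1; omega
  · obtain ⟨f, hf⟩ := exists_perm_inj h4 (m := 5) h6
    refine ⟨MulEquiv.ofBijective f (hf.bijective_of_nat_card_le ?_)⟩
    rw [Nat.card_perm, Nat.card_fin, show Nat.factorial 5 = 120 by decide]
    rw [h6] at h1; omega

end H23.SX
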