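import Cfsg.Agent.H1.Harv1
import Cfsg.Agent.H1.FTCor
import Cfsg.Agent.H21.Crit
import Cfsg.Agent.S1009

/-! Numbers of Sylow subgroups: `normalizer_map_of_ker_le`, and `primePow_of_index`: if a finite group has exactly `2p + 1`
Sylow `p`-subgroups (`p` odd) then `2p + 1` is a prime power. -/

set_option autoImplicit false
set_option linter.unusedSectionVars false
open Cfsg H18 Subgroup
open scoped commutatorElement

namespace H23
universe u

theorem hall_map {G H : Type*} [Group G] [Finite G] [Group H] [Finite H] {f : G →* H} (hf : Function.Surjective f)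
    {π : Set ℕ} {P : Subgroup G} (h : Hall π P ⊤) : Hall π (P.map f) ⊤ :=
  ⟨le_top, h.pi.of_dvd (card_map_dvd P f), by
    have := h.idx; rw [relIndex_top_right] at this ⊢; exact this.of_dvd (index_map_dvd P hf)⟩

theorem normalizer_map_of_ker_le {G H : Type*} [Group G] [Finite G] [Group H] {f : G →* H} (hf : Function.Surjective f)
    {π : Set ℕ} {P : Subgroup G} (h : Hall π P ⊤) (hk : f.ker ≤ N(P)) : N(P.map f) = N(P).map f := by
  refine le_antisymm (fun y hy => ?_) (le_normalizer_map f)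
  obtain ⟨g, rfl⟩ := hf y
  refine mem_map_of_mem f ?_
  rw [← (h.of_le le_sup_left le_top).eq_pcore (sup_le le_N hk)]
  refine norm_pcore le_rfl ?_
  rw [← comap_map_eq]
  exact le_normalizer_comap f hy

theorem card_fix_modEq {G Ω : Type*} [Group G] [MulAction G Ω] [Finite Ω] {p : ℕ} (hp : p.Prime) {u d : G}
    (hu : u ^ p = 1) (h : u * d = d * u) :
    Nat.card {x : Ω // d • x = x} ≡ Nat.card {x : Ω // d • x = x ∧ u • x = x} [MOD p] := by
  classical
  have := Fact.mk hp
  have := Fintype.ofFinite Ω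
  let f : Function.End {x : Ω // d • x = x} := fun x => ⟨u • x.1, by rw [← mul_smul, ← h, mul_smul, x.2]⟩
  have e : ∀ n x, ((f ^ n) x).1 = u ^ n • x.1 := fun n => by
    induction n with
    | zero => intro x; rw [pow_zero, pow_zero, one_smul]; rfl
    | succ n ih => intro x; rw [pow_succ, pow_succ, mul_smul]; exact ih (f x)
  have := Equiv.Perm.card_fixedPoints_modEq (p := p) (n := 1) (f := f)
    (funext fun x => Subtype.ext (by rw [e, pow_one, hu, one_smul]; rfl))
  rw [← Nat.card_eq_fintype_card, ← Nat.card_eq_fintype_card] at this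
  rwa [← Nat.card_congr (Equiv.subtypeSubtypeEquivSubtypeInter (fun x : Ω => d • x = x) fun x => u • x = x),
    ← Nat.card_congr (Equiv.subtypeEquivRight (p := (· ∈ Function.fixedPoints f)) fun x => Subtype.ext_iff)]

theorem primePow_aux {p : ℕ} (hp : p.Prime) (h2 : p ≠ 2) (n : ℕ) : ∀ (G : Type u) [Group G] [Finite G]
    (P : Subgroup G), Nat.card G = n → Hall {p} P ⊤ → N(P).index = 2 * p + 1 → IsPrimePow (2 * p + 1) := by
  classical
  induction n using Nat.strong_induction_on with | _ n ih => ?_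
  rintro G _ _ P rfl hP hi
  have p3 : 3 ≤ p := hp.two_le.lt_of_ne h2.symm
  have po := hp.odd_of_ne_two h2
  by_cases hK : N(P).normalCore ≠ ⊥
  · have s := QuotientGroup.mk'_surjective N(P).normalCore
    have k := (QuotientGroup.ker_mk' _).le.trans N(P).normalCore_le
    refine ih _ ?_ _ _ rfl (hall_map s hP) (by rw [normalizer_map_of_ker_le s hP k, index_map_eq _ s k, hi])
    rw [← N(P).normalCore.card_mul_index]
    exact lt_mul_of_one_lt_left Nat.card_pos (one_lt_card hK)
  have top : ∀ M : Subgroup G, M.Normal → P ≤ M → M = ⊤ ∨ IsPrimePow (2 * p + 1) := fun M hM h =>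
    or_iff_not_imp_left.2 fun e => ih _ (by simpa using card_lt (lt_top_iff_ne_top.2 e)) M (P.subgroupOf M) rfl
      ⟨le_top, by rw [PiGrp, card_subgroupOf h]; exact hP.pi, by
        rw [relIndex_top_right]; exact (hP.of_le h le_top).idx⟩ (by
      have n : M ⊴ ⊤ := ⟨le_top, le_normalizer_of_normal⟩
      have := frattini_arg hp n (hP.of_le h le_top)
      rw [top_inf_eq] at this
      rw [← subgroupOf_normalizer_eq h, ← hi, ← N(P).relIndex_top_right, ← this,
        Nrm2.relIndex_sup (Or.inr le_normalizer_of_normal)]; rfl)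
  by_contra hn
  simp only [hn, or_false] at top
  have fa : ∀ x : G, (∀ g : G, g⁻¹ * x * g ∈ N(P)) → x = 1 := fun x h =>
    (eq_bot_iff_forall _).1 (not_not.1 hK) x fun g => by simpa using h g⁻¹
  have lt : ∀ g, (cj g N(P)).relIndex P ≤ 2 * p + 1 := fun g => by
    rw [← hi, ← index_cj (g := g)]; exact relIndex_le_of_le_right le_top relIndex_ne_zero |>.trans_eq (relIndex_top_right _)
  have dv : ∀ g, (cj g N(P)).relIndex P = 1 ∨ (cj g N(P)).relIndex P = p := fun g => by
    obtain ⟨k, e⟩ := (hP.pi.relIndex (A := cj g N(P))).eq_pow relIndex_ne_zero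
    have := lt g
    rw [e] at this ⊢
    rcases k with _ | _ | k
    · simp
    · simp
    · have := Nat.pow_le_pow_right hp.pos (show 2 ≤ k + 1 + 1 by omega); nlinarith
  have aP : Abel P := comm_eq_bot_iff.1 (eq_bot_iff.2 fun x hx => fa x fun g => by
    refine mem_cj.1 ?_
    rcases dv g with e | e
    · exact relIndex_eq_one_iff.1 e (der_le hx)
    · rw [← relIndex_inf_right] at e
      have n := hP.pi.nml_of_relIndex hp inf_le_right e
      exact ((comm_le_iff_quo n.norm n.norm).2 (cyc_quo_of_prime n.norm (e ▸ hp)).abel hx).1)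
  have := Fact.mk hp
  have sy : ∀ g, Hall {p} (cj g P) (cj g N(P)) := fun g => (hP.of_le le_N le_top).cj g
  have le : ∀ g, P ⊓ cj g N(P) ≤ cj g P := fun g => (sy g).le_of_nml cj_N.le inf_le_right (hP.pi.of_le inf_le_left)
  have cP : Nat.card P = p := by
    obtain ⟨T, rfl⟩ := hP.exists_sylow_top hp
    obtain ⟨S, e⟩ := H10.brodkey (fun S => by
      obtain ⟨g, -, e⟩ := sylow_conj hp hP (hall_sylow_top hp S)
      rw [e]; exact abel_iff.1 (aP.cj g)) T
    obtain ⟨g, -, e1⟩ := sylow_conj hp hP (hall_sylow_top hp S)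
    have e2 : cj g N((T : Subgroup G)) ⊓ T = ⊥ := eq_bot_iff.2 fun x hx => fa x fun y => by
      have := e.le ⟨e1.ge (le g ⟨hx.2, hx.1⟩), hx.2⟩
      obtain ⟨R, e3⟩ := (hP.cj_top y).exists_sylow_top hp
      exact le_N (mem_cj.1 (e3.le (mem_iInf.1 this R)))
    have e3 := card_mul_relIndex' (A := cj g N((T : Subgroup G))) (B := T)
    rw [e2, card_bot, one_mul] at e3
    refine ((e3 ▸ dv g).resolve_left fun e => ?_)
    rw [card_eq_one.1 e] at hi
    simp at hi; omega
  have ti : ∀ g x, x ∈ P → x ≠ 1 → g⁻¹ * x * g ∈ N(P) → g ∈ N(P) := fun g x hx x1 e => mem_N_iff_cj.2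
    (eq_of_card_eq ((zpowers_eq_of_prime (cP ▸ hp) hx x1).ge.trans (zpowers_le.2 (le g ⟨hx, mem_cj.2 e⟩)))
      card_cj.symm).symm
  have fx : ∀ x g : G, x • (g : G ⧸ N(P)) = g ↔ g⁻¹ * x * g ∈ N(P) := fun x g => by
    rw [MulAction.Quotient.smul_coe, eq_comm, QuotientGroup.eq, smul_eq_mul, mul_assoc]
  have cO : Nat.card (G ⧸ N(P)) = 2 * p + 1 := hi
  have cP' : C(P) ≤ P := (hP.of_le le_N le_top).le_of_nml le_rfl C_le_N fun r hr hd => by_contra fun rp => by
    obtain ⟨d, hd, d1⟩ := cauchy hr hd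
    obtain ⟨u, hu, u1⟩ := cauchy hp cP.symm.dvd
    have e1 := card_fix_modEq (Ω := G ⧸ N(P)) hp (u1 ▸ pow_orderOf_eq_one u) (mem_C.1 hd u hu)
    have e2 := card_fix_modEq (Ω := G ⧸ N(P)) hr (d1 ▸ pow_orderOf_eq_one d) (d := 1) (by simp)
    have e3 : Nat.card {x : G ⧸ N(P) // d • x = x ∧ u • x = x} = 1 := Nat.card_eq_one_iff_exists.2
      ⟨⟨(1 : G), (fx _ _).2 (by simpa using C_le_N hd), (fx _ _).2 (by simpa using le_N hu)⟩, by
        rintro ⟨x, h1, h2⟩
        obtain ⟨g, rfl⟩ := QuotientGroup.mk_surjective x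
        refine Subtype.ext (QuotientGroup.eq.2 ?_)
        simpa using ti g u hu (by rintro rfl; exact hp.ne_one (by simpa using u1.symm)) ((fx _ _).1 h2)⟩
    simp only [one_smul, true_and, Nat.card_subtype_true, cO] at e2
    have e4 : Nat.card {x : G ⧸ N(P) // d • x = x} < 2 * p + 1 := cO ▸ Finite.card_subtype_lt (x := _)
      (Classical.choose_spec (not_forall.1 fun e : ∀ x : G ⧸ N(P), d • x = x =>
        hr.ne_one (by rw [← d1, fa d fun g => (fx _ _).1 (e _), orderOf_one])))
    rw [e3] at e1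
    have e5 : ∀ m, m ∣ 2 * p → 2 * p + 1 ≡ 2 * p + 1 - m [MOD r] → m ≤ 2 * p → r = 2 ∧ m ≠ p := fun m h1 h3 h4 => by
      have := (Nat.modEq_iff_dvd' (by omega)).1 h3.symm
      rw [show 2 * p + 1 - (2 * p + 1 - m) = m by omega] at this
      have h5 := fun e => rp ((Nat.prime_dvd_prime_iff_eq hr hp).1 e)
      exact ⟨(Nat.prime_dvd_prime_iff_eq hr Nat.prime_two).1 ((hr.dvd_mul.1 (this.trans h1)).resolve_right h5),
        fun e => h5 (e ▸ this)⟩
    generalize hm : Nat.card {x : G ⧸ N(P) // d • x = x} = m at e1 e2 e4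
    have m0 : 1 ≤ m := Nat.pos_of_ne_zero (by
      rintro rfl; exact hp.ne_one (Nat.dvd_one.1 ((Nat.modEq_iff_dvd' zero_le_one).1 e1)))
    obtain ⟨k, hk⟩ := (Nat.modEq_iff_dvd' m0).1 e1.symm
    have k2 : k < 2 := by by_contra! e; have := Nat.mul_le_mul_left p e; omega
    interval_cases k
    · obtain rfl : m = 1 := by omega
      obtain rfl := (e5 (2 * p) dvd_rfl (by simpa using e2) le_rfl).1
      have := Fintype.ofFinite (G ⧸ N(P))
      let φ := Equiv.Perm.sign.comp (MulAction.toPermHom G (G ⧸ N(P)))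
      have e6 : φ d = 1 := (top φ.ker inferInstance fun x hx => by
        have e := congrArg φ (pow_orderOf_eq_one x)
        rw [map_pow, map_one] at e
        rcases Int.units_eq_one_or (φ x) with h | h
        · exact h
        · rw [h, (po.of_dvd_nat (cP ▸ H18.orderOf_dvd_card hx)).neg_one_pow] at e; simp at e).ge (mem_top d)
      have e7 := Equiv.Perm.sign_of_pow_two_eq_one (σ := MulAction.toPermHom G (G ⧸ N(P)) d)
        (by rw [← map_pow, ← d1, pow_orderOf_eq_one, map_one])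
      rw [← Nat.card_eq_fintype_card, ← Nat.card_eq_fintype_card, cO, show Nat.card (Function.fixedPoints
        (MulAction.toPermHom G (G ⧸ N(P)) d)) = 1 from hm, show (2 * p + 1 - 1) / 2 = p by omega, po.neg_one_pow] at e7
      exact absurd (e7.symm.trans e6) (by decide)
    · exact (e5 p (dvd_mul_left p 2) (by rwa [show 2 * p + 1 - p = m by omega]) (by omega)).2 rfl
  obtain ⟨T, hT⟩ := exists_sylow Nat.prime_two N(P)
  have cT : Cyc T := by
    have e := ((cyc_of_prime (cP ▸ hp)).cyc_mim_actf hp h2 hP.pi).of_le (mim_mono hT.le)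
    refine (cyc_mim_iff hT.le ?_).1 e
    rw [mker_actf]
    exact eq_bot_iff.2 ((inf_le_inf_left T cP').trans (hT.pi.inf_eq_bot (hP.pi.sub (by simpa using h2.symm))).le)
  have pn := H21.pnil_of_cyc (hT.of_idx le_top (by
    rw [relIndex_top_right, hi]; exact (piNat_compl_iff Nat.prime_two).2 (by omega))) cT
  have od : PiGrp {2}ᶜ (⊤ : Subgroup G) := top _ (normalizer_eq_top_iff.1 (top_le_iff.1 pcore_nml.norm))
    (pn.le_of_nml pcore_nml.norm le_top (hP.pi.sub (by simpa using h2.symm))) ▸ pn.pi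
  obtain ⟨M, -, hM⟩ := exists_minNorm (K := (⊤ : Subgroup G)) (A := ⊤)
    (fun e => hp.ne_one (by rw [← cP, card_eq_one]; exact le_bot_iff.1 (e ▸ le_top))) le_N
  obtain ⟨r, hr, hd, el⟩ := hM.exists_elem ((H1.solv_of_two_not_dvd ((piNat_compl_iff Nat.prime_two).1 od)).of_le le_top)
  have nM : ¬M ≤ N(P) := fun e => hM.ne_bot (eq_bot_iff.2 fun x hx => fa x fun g => e (conj_mem' hM.norm (mem_top g) hx))
  have e1 : N(P).relIndex (M ⊔ N(P)) = N(P).relIndex M := Nrm2.relIndex_sup (Or.inr (le_top.trans hM.norm))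
  have e2 := H1.relIndex_N_modEq hp (hP.of_le (le_N.trans le_sup_right : P ≤ M ⊔ N(P)) le_top)
  have e3 : N(P).relIndex (M ⊔ N(P)) ∣ 2 * p + 1 := by
    rw [← hi, ← relIndex_top_right]; exact relIndex_dvd_right le_sup_right le_top
  have e4 := one_lt_relIndex nM
  obtain ⟨k, e5⟩ := ((el.pi hr).relIndex (A := N(P))).eq_pow relIndex_ne_zero
  rw [e1, e5] at e2 e3
  rw [e5] at e4
  obtain ⟨j, hj⟩ := (Nat.modEq_iff_dvd' e4.le).1 e2.symm
  have e6 := Nat.le_of_dvd (by omega) e3
  have e7 : Odd (r ^ k) := (odd_two_mul_add_one p).of_dvd_nat e3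
  have j2 : j ≤ 2 := by by_contra! e; have := Nat.mul_le_mul_left p e; omega
  refine hn ⟨r, k, hr.prime, Nat.pos_of_ne_zero (by rintro rfl; simp at e4), ?_⟩
  obtain ⟨a, ha⟩ := po
  obtain ⟨b, hb⟩ := e7
  interval_cases j <;> omega

theorem primePow_of_card_sylow {G : Type*} [Group G] [Finite G] {p : ℕ} (hp : p.Prime) (h2 : p ≠ 2)
    (h : Nat.card (Sylow p G) = 2 * p + 1) : IsPrimePow (2 * p + 1) := by
  have := Fact.mk hp
  obtain ⟨P⟩ : Nonempty (Sylow p G) := inferInstance
  exact primePow_aux hp h2 _ G P rfl (hall_sylow_top hp P) (by rw [← h, P.card_eq_index_normalizer]; rfl)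

end H23
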