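import Cfsg.Agent.H23.Vn0

/-! Interface for S4805, corrected character-theoretic piece `PA'` (with `g ≠ 1`). -/
set_option autoImplicit false
namespace H23.Vn
open Subgroup Cfsg H5
universe u

/-- the character-theoretic part -/
def PA' : Prop := ∀ (G : Type u) [Group G] [Finite G] (g : G) (χ : G → ℂ), g ≠ 1 → IsIrrCharacter G χ →
  charDegree χ ≠ 1 → χ g ≠ 0 → (∀ ψ, IsIrrCharacter G ψ → charDegree ψ ≠ 1 → ψ ≠ χ → ψ g = 0) →
  g ∈ commutator G ∧ χ g = -(((commutator G).index : ℂ) / χ 1) ∧ g ∉ charKer χ ∧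
    (∀ h ∈ commutator G, h ∉ charKer χ → IsConj g h) ∧ (∀ x, x ∉ commutator G → χ x = 0) ∧
    ∀ ψ, IsIrrCharacter G ψ → charDegree ψ ≠ 1 → charKer χ ≤ charKer ψ → ψ = χ

end H23.Vn
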